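import Mathlib
import Cfsg.Agent.Lib.Helper18.SLMDefs

/-! Project SLM (helper18, S2332), piece NONTRIV (helper36): an irreducible representation of
dimension at least 2 has a non-zero weight for the root subgroup `{x1 u}`. -/

set_option autoImplicit false

namespace Cfsg.Agent.Lib.Helper18.SLM

open Matrix

universe u

variable {F : Type u} [Field F] [Fintype F]

theorem nontriv_x1_zero {k : ℕ} :
    (x1 (0 : Fin k → F) : Matrix.SpecialLinearGroup (Fin (k + 1)) F) = 1 := by
  apply Subtype.ext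
  rw [x1_val]
  have h : (Fin.cons (0 : F) (0 : Fin k → F) : Fin (k + 1) → F) = 0 := by
    ext i
    refine Fin.cases ?_ (fun j => ?_) i
    · rfl
    · rfl
  rw [h]
  ext i j
  simp [vecMulVec_apply]

-- piece NONTRIV
theorem exists_wt {V : Type*} [AddCommGroup V] [Module ℂ V] [FiniteDimensional ℂ V]
    (ψ : AddChar F ℂ) {k : ℕ}
    (ρ : Representation ℂ (Matrix.SpecialLinearGroup (Fin (k + 1)) F) V)
    (hirr : ρ.IsIrreducible) (hd : 2 ≤ Module.finrank ℂ V)
    (hT : ∀ u : Fin k → F, LinearMap.trace ℂ V (ρ (x1 u)) =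
      ∑ l : Fin k → F, ψ (l ⬝ᵥ u) * (Module.finrank ℂ (wt ψ ρ l) : ℂ))
    (htriv : (∀ u : Fin k → F, ρ (x1 u) = 1) → ∀ g, ρ g = 1) :
    ∃ l : Fin k → F, l ≠ 0 ∧ wt ψ ρ l ≠ ⊥ := by
  classical
  by_contra hcon
  have hbot : ∀ l : Fin k → F, l ≠ 0 → wt ψ ρ l = ⊥ := by
    intro l hl
    by_contra h
    exact hcon ⟨l, hl, h⟩
  have h0 := hT 0
  rw [nontriv_x1_zero, map_one, LinearMap.trace_one] at h0
  have hsum : ∑ l : Fin k → F, ψ (l ⬝ᵥ (0 : Fin k → F)) * (Module.finrank ℂ (wt ψ ρ l) : ℂ)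
      = (Module.finrank ℂ (wt ψ ρ 0) : ℂ) := by
    rw [Finset.sum_eq_single (0 : Fin k → F)]
    · rw [dotProduct_zero, AddChar.map_zero_eq_one, one_mul]
    · intro l _ hl
      rw [hbot l hl, finrank_bot, Nat.cast_zero, mul_zero]
    · intro h
      exact absurd (Finset.mem_univ _) h
  rw [hsum] at h0
  have hfin : Module.finrank ℂ (wt ψ ρ 0) = Module.finrank ℂ V := by
    exact_mod_cast h0.symm
  have htop : wt ψ ρ 0 = ⊤ := Submodule.eq_top_of_finrank_eq hfin
  have hx : ∀ u : Fin k → F, ρ (x1 u) = 1 := by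
    intro u
    apply LinearMap.ext
    intro v
    have hv : v ∈ wt ψ ρ 0 := by
      rw [htop]
      exact Submodule.mem_top
    have h1 := (mem_wt ψ ρ 0 v).1 hv u
    rw [zero_dotProduct, AddChar.map_zero_eq_one, one_smul] at h1
    rw [h1]
    rfl
  have hall := htriv hx
  obtain ⟨v, hv⟩ := Module.finrank_pos_iff_exists_ne_zero.1
    (show 0 < Module.finrank ℂ V by omega)
  obtain ⟨S, hS⟩ : ∃ S : Subrepresentation ρ, S.toSubmodule = Submodule.span ℂ {v} :=
    ⟨⟨Submodule.span ℂ {v}, fun g w hw => by rw [hall g]; exact hw⟩, rfl⟩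
  rcases hirr.eq_bot_or_eq_top S with h | h
  · have h1 : S.toSubmodule = (⊥ : Subrepresentation ρ).toSubmodule := by rw [h]
    have h2 : v ∈ (⊥ : Submodule ℂ V) := by
      have h3 : v ∈ S.toSubmodule := by
        rw [hS]
        exact Submodule.mem_span_singleton_self v
      rw [h1] at h3
      exact h3
    exact hv ((Submodule.mem_bot ℂ).1 h2)
  · have h1 : S.toSubmodule = (⊤ : Subrepresentation ρ).toSubmodule := by rw [h]
    have h2 : Submodule.span ℂ {v} = (⊤ : Submodule ℂ V) := by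
      rw [← hS, h1]
      rfl
    have h3 : Module.finrank ℂ (Submodule.span ℂ {v}) = 1 := finrank_span_singleton hv
    rw [h2, finrank_top] at h3
    omega

end Cfsg.Agent.Lib.Helper18.SLM
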