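import Mathlib
import Cfsg.Prelude.Def_Classical
import Cfsg.Agent.Lib.Helper18.UEDefs

/-! Project UE (helper18, S2335), piece SEP. -/

set_option autoImplicit false

namespace Cfsg.Agent.Lib.Helper18.UE

open Matrix

universe u

variable {F : Type u} [Field F] {m : ℕ}

theorem sep_trace (σ : F →+* F) (K : Matrix (Fin m) (Fin m) F) (t : F) (x : Fin m → F) :
    trace ((t • vecMulVec x (fun i => σ (x i))) * K) = t * hq σ K x := by
  unfold hq
  rw [hB_eq_sum, trace, Finset.mul_sum]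
  simp only [diag_apply, Matrix.mul_apply, Matrix.smul_apply, vecMulVec_apply, smul_eq_mul,
    Finset.mul_sum]
  rw [Finset.sum_comm]
  refine Finset.sum_congr rfl fun i _ => ?_
  refine Finset.sum_congr rfl fun j _ => ?_
  ring

theorem herm_sep [Fintype F] {q : ℕ} (hF : Fintype.card F = q ^ 2) (σ : F →+* F)
    (hσ : ∀ x, σ x = x ^ q) (ψ₀ : AddChar F ℂ)
    (hψ : ∀ w : F, w ^ q = w → (∀ t : F, t ^ q = t → ψ₀ (t * w) = 1) → w = 0)
    (K K' : Matrix (Fin m) (Fin m) F) (hK : IsHerm σ K) (hK' : IsHerm σ K')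
    (h : ∀ H : Matrix (Fin m) (Fin m) F, IsHerm σ H →
      ψ₀ (trace (H * K)) = ψ₀ (trace (H * K'))) :
    ∀ x : Fin m → F, hq σ K x = hq σ K' x := by
  intro x
  have hσσ : ∀ y, σ (σ y) = y := by
    intro y
    rw [hσ, hσ, ← pow_mul, ← sq, ← hF, FiniteField.pow_card]
  have hfix : ∀ (M : Matrix (Fin m) (Fin m) F), IsHerm σ M → (hq σ M x) ^ q = hq σ M x := by
    intro M hM
    rw [← hσ]
    exact hB_conj σ hσσ hM x x
  have hw : (hq σ K x - hq σ K' x) ^ q = hq σ K x - hq σ K' x := by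
    rw [← hσ, map_sub, hσ, hσ, hfix K hK, hfix K' hK']
  have h0 := hψ _ hw (fun t ht => by
    have hH : IsHerm σ (t • vecMulVec x (fun i => σ (x i))) := by
      ext i j
      rw [hconj_apply]
      simp only [Matrix.smul_apply, vecMulVec_apply, smul_eq_mul, map_mul, hσσ]
      rw [hσ t, ht]
      ring
    have h1 := h _ hH
    rw [sep_trace, sep_trace] at h1
    have hne : ψ₀ (t * hq σ K' x) ≠ 0 := by
      intro h0
      have h2 := ψ₀.map_add_eq_mul (t * hq σ K' x) (-(t * hq σ K' x))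
      rw [add_neg_cancel, ψ₀.map_zero_eq_one, h0, zero_mul] at h2
      exact one_ne_zero h2
    rw [mul_sub, AddChar.map_sub_eq_div, h1, div_self hne])
  exact sub_eq_zero.mp h0

end Cfsg.Agent.Lib.Helper18.UE
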