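import Mathlib
import Cfsg.Prelude.Def_Classical
import Cfsg.Agent.Lib.Helper18.UEDefs

/-! Project UE (helper18, S2335), piece WTMOVE. -/

set_option autoImplicit false

namespace Cfsg.Agent.Lib.Helper18.UE

open Matrix

universe u

variable {F : Type u} [Field F] {m : ℕ}

theorem wtmove_vecMul (σ : F →+* F) (A : Matrix (Fin m) (Fin m) F) (x : Fin m → F) :
    (fun i => σ (x i)) ᵥ* hconj σ A = fun j => σ ((A *ᵥ x) j) := by
  ext j
  simp only [vecMul, mulVec, dotProduct, hconj_apply, map_sum, map_mul]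
  refine Finset.sum_congr rfl fun i _ => ?_
  ring

theorem weight_move {G : Type*} [Group G] {k : ℕ} (ρ : Representation ℂ G (Fin k → ℂ))
    (σ : F →+* F) (hσ : ∀ x, σ (σ x) = x) (uH : Matrix (Fin m) (Fin m) F → G)
    (dG : SpecialLinearGroup (Fin m) F → G)
    (hconj' : ∀ (g : SpecialLinearGroup (Fin m) F) (H : Matrix (Fin m) (Fin m) F),
      IsHerm σ H → dG g * uH H =
        uH ((g : Matrix (Fin m) (Fin m) F) * H * hconj σ (g : Matrix (Fin m) (Fin m) F)) *
          dG g)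
    (ψ : F → ℂ) (K : Matrix (Fin m) (Fin m) F) (hK : IsHerm σ K) (v : Fin k → ℂ)
    (hv : v ≠ 0)
    (hw : ∀ H : Matrix (Fin m) (Fin m) F, IsHerm σ H →
      ρ (uH H) v = ψ (trace (H * K)) • v)
    (g : SpecialLinearGroup (Fin m) F) :
    ∃ (w : Fin k → ℂ) (K' : Matrix (Fin m) (Fin m) F), w ≠ 0 ∧ IsHerm σ K' ∧
      (∀ H : Matrix (Fin m) (Fin m) F, IsHerm σ H → ρ (uH H) w = ψ (trace (H * K')) • w) ∧
      (∀ x : Fin m → F, hq σ K' x = hq σ K ((g : Matrix (Fin m) (Fin m) F) *ᵥ x)) := by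
  refine ⟨ρ (dG g⁻¹) v,
    hconj σ (g : Matrix (Fin m) (Fin m) F) * K * (g : Matrix (Fin m) (Fin m) F), ?_, ?_, ?_, ?_⟩
  · intro h0
    apply hv
    have h1 : ρ (dG g⁻¹)⁻¹ (ρ (dG g⁻¹) v) = v := by
      rw [← Module.End.mul_apply, ← map_mul, inv_mul_cancel, map_one, Module.End.one_apply]
    rw [h0, map_zero] at h1
    exact h1.symm
  · show hconj σ (hconj σ (g : Matrix (Fin m) (Fin m) F) * K * (g : Matrix (Fin m) (Fin m) F)) =
      hconj σ (g : Matrix (Fin m) (Fin m) F) * K * (g : Matrix (Fin m) (Fin m) F)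
    rw [hconj_mul, hconj_mul, hconj_hconj σ hσ, show hconj σ K = K from hK, Matrix.mul_assoc]
  · intro H hH
    have hH'' : IsHerm σ ((g : Matrix (Fin m) (Fin m) F) * H *
        hconj σ (g : Matrix (Fin m) (Fin m) F)) := by
      show hconj σ ((g : Matrix (Fin m) (Fin m) F) * H *
        hconj σ (g : Matrix (Fin m) (Fin m) F)) = (g : Matrix (Fin m) (Fin m) F) * H *
        hconj σ (g : Matrix (Fin m) (Fin m) F)
      rw [hconj_mul, hconj_mul, hconj_hconj σ hσ, show hconj σ H = H from hH, Matrix.mul_assoc]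
    have hgi : ((g⁻¹ : SpecialLinearGroup (Fin m) F) : Matrix (Fin m) (Fin m) F) *
        (g : Matrix (Fin m) (Fin m) F) = 1 := by
      simp [Matrix.adjugate_mul]
    have hback : ((g⁻¹ : SpecialLinearGroup (Fin m) F) : Matrix (Fin m) (Fin m) F) *
        ((g : Matrix (Fin m) (Fin m) F) * H * hconj σ (g : Matrix (Fin m) (Fin m) F)) *
        hconj σ ((g⁻¹ : SpecialLinearGroup (Fin m) F) : Matrix (Fin m) (Fin m) F) = H := by
      have h2 : hconj σ (g : Matrix (Fin m) (Fin m) F) *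
          hconj σ ((g⁻¹ : SpecialLinearGroup (Fin m) F) : Matrix (Fin m) (Fin m) F) = 1 := by
        rw [← hconj_mul, hgi, hconj_one]
      calc ((g⁻¹ : SpecialLinearGroup (Fin m) F) : Matrix (Fin m) (Fin m) F) *
          ((g : Matrix (Fin m) (Fin m) F) * H * hconj σ (g : Matrix (Fin m) (Fin m) F)) *
          hconj σ ((g⁻¹ : SpecialLinearGroup (Fin m) F) : Matrix (Fin m) (Fin m) F)
          = (((g⁻¹ : SpecialLinearGroup (Fin m) F) : Matrix (Fin m) (Fin m) F) *
            (g : Matrix (Fin m) (Fin m) F)) * H * (hconj σ (g : Matrix (Fin m) (Fin m) F) *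
            hconj σ ((g⁻¹ : SpecialLinearGroup (Fin m) F) : Matrix (Fin m) (Fin m) F)) := by
            simp only [Matrix.mul_assoc]
        _ = H := by rw [hgi, h2, Matrix.one_mul, Matrix.mul_one]
    have h3 := hconj' g⁻¹ _ hH''
    rw [hback] at h3
    have h4 : ρ (uH H) (ρ (dG g⁻¹) v) = ρ (dG g⁻¹) (ρ (uH ((g : Matrix (Fin m) (Fin m) F) * H *
        hconj σ (g : Matrix (Fin m) (Fin m) F))) v) := by
      rw [← Module.End.mul_apply, ← map_mul, ← h3, map_mul, Module.End.mul_apply]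
    rw [h4, hw _ hH'', map_smul]
    congr 2
    rw [Matrix.mul_assoc, Matrix.mul_assoc, trace_mul_comm]
    simp only [Matrix.mul_assoc]
  · intro x
    unfold hq hB
    rw [← mulVec_mulVec, ← mulVec_mulVec, dotProduct_mulVec, wtmove_vecMul]

end Cfsg.Agent.Lib.Helper18.UE
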