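import Mathlib
import Cfsg.Prelude.Def_ChevB2

/-!
A bit-matrix model for `10 × 10` matrices over a field of characteristic two, indexed by the
coordinates of the adjoint module of type `B₂`:

* `toMat F M`, `toVec F a`: the matrix / row vector of a packed numeral;
* `mulRow`, `toVec_vecMul`, `toMat_mul`: products are computed on the codes;
* `xMat_one_eq`, `xMat_zero_eq`: the generators `x_r(1)`, `x_r(0)` of `chevB2` in the model,
  through an integer model `b2Z` of `ChevalleyDatum.xMat`.
-/

set_option autoImplicit false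

namespace Cfsg.Agent.Lib.Helper36

open Cfsg.Lie Matrix

/-- The coordinate index set of the adjoint module of type `B₂`. -/
abbrev B2Idx : Type := chevB2.Idx

/-- Numbering of the coordinates by `0, …, 9`. -/
def b2ix : B2Idx → ℕ
  | Sum.inl i => i.val
  | Sum.inr u => 2 + u.val

theorem b2ix_lt (c : B2Idx) : b2ix c < 10 := by
  rcases c with i | u
  · have : i.val < 2 := i.isLt
    simp only [b2ix]; omega
  · have : u.val < 8 := u.isLt
    simp only [b2ix]; omega

theorem b2ix_injective : Function.Injective b2ix := by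
  intro a b h
  rcases a with i | u <;> rcases b with j | v
  · simp only [b2ix] at h; exact congrArg Sum.inl (Fin.ext h)
  · have : i.val < 2 := i.isLt
    simp only [b2ix] at h; omega
  · have : j.val < 2 := j.isLt
    simp only [b2ix] at h; omega
  · simp only [b2ix] at h; exact congrArg Sum.inr (Fin.ext (by omega))

theorem exists_b2ix {n : ℕ} (hn : n < 10) : ∃ c : B2Idx, b2ix c = n := by
  by_cases h : n < 2
  · exact ⟨Sum.inl ⟨n, h⟩, rfl⟩
  · exact ⟨Sum.inr ⟨n - 2, (by omega : n - 2 < 8)⟩, by simp only [b2ix]; omega⟩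

/-! ### Bounded checks and packed arrays -/

/-- `f k` holds for all `k < n`. -/
def b2All (f : ℕ → Bool) : ℕ → Bool
  | 0 => true
  | k + 1 => f k && b2All f k

theorem b2All_iff {f : ℕ → Bool} {n : ℕ} : b2All f n = true ↔ ∀ k < n, f k = true := by
  induction n with
  | zero => simp [b2All]
  | succ n ih =>
    simp only [b2All, Bool.and_eq_true, ih]
    constructor
    · rintro ⟨h1, h2⟩ k hk
      rcases Nat.lt_succ_iff_lt_or_eq.mp hk with h | rfl
      · exact h2 k h
      · exact h1
    · intro h
      exact ⟨h n (Nat.lt_succ_self n), fun k hk => h k (Nat.lt_succ_of_lt hk)⟩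

/-- Entry `k` of an array of `w`-bit numbers packed into one numeral. -/
def b2arr (w N k : ℕ) : ℕ := N / 2 ^ (w * k) % 2 ^ w

/-! ### Booleans in characteristic two -/

section Field

variable (F : Type*) [Field F]

/-- `true ↦ 1`, `false ↦ 0`. -/
def bF (b : Bool) : F := if b then 1 else 0

variable {F}

theorem bF_and (a b : Bool) : bF F (a && b) = bF F a * bF F b := by
  cases a <;> cases b <;> simp [bF]

theorem bF_xor (h2 : (2 : F) = 0) (a b : Bool) : bF F (a ^^ b) = bF F a + bF F b := by
  cases a <;> cases b <;> simp [bF]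
  rw [one_add_one_eq_two, h2]

theorem bF_inj {a b : Bool} (h : bF F a = bF F b) : a = b := by
  cases a <;> cases b <;> simp [bF] at h ⊢

/-- Xor of `f 0, …, f 9`. -/
def xor10 (f : ℕ → Bool) : Bool :=
  f 0 ^^ f 1 ^^ f 2 ^^ f 3 ^^ f 4 ^^ f 5 ^^ f 6 ^^ f 7 ^^ f 8 ^^ f 9

theorem sum_b2ix (h2 : (2 : F) = 0) (f : ℕ → Bool) :
    ∑ c : B2Idx, bF F (f (b2ix c)) = bF F (xor10 f) := by
  have e1 : ∑ c : B2Idx, bF F (f (b2ix c)) =
      (∑ i : Fin 2, bF F (f (b2ix (Sum.inl i)))) + ∑ u : Fin 8, bF F (f (b2ix (Sum.inr u))) :=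
    Fintype.sum_sum_type _
  rw [e1, Fin.sum_univ_two, Fin.sum_univ_eight, xor10]
  simp only [bF_xor h2]
  change bF F (f 0) + bF F (f 1) + (bF F (f 2) + bF F (f 3) + bF F (f 4) + bF F (f 5) + bF F (f 6)
    + bF F (f 7) + bF F (f 8) + bF F (f 9)) = _
  ring

/-! ### Packed bit matrices -/

/-- Row `i` of a packed matrix. -/
def rowOf (M i : ℕ) : ℕ := (M >>> (10 * i)) &&& 1023

/-- `x` if bit `k` of `a` is set, else `0`. -/
def selRow (a k x : ℕ) : ℕ := if a.testBit k then x else 0

/-- The row vector `a` times the matrix with rows `B 0, …, B 9`. -/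
def mulRow (a : ℕ) (B : ℕ → ℕ) : ℕ :=
  selRow a 0 (B 0) ^^^ selRow a 1 (B 1) ^^^ selRow a 2 (B 2) ^^^ selRow a 3 (B 3) ^^^
    selRow a 4 (B 4) ^^^ selRow a 5 (B 5) ^^^ selRow a 6 (B 6) ^^^ selRow a 7 (B 7) ^^^
    selRow a 8 (B 8) ^^^ selRow a 9 (B 9)

theorem selRow_testBit (a k x j : ℕ) :
    (selRow a k x).testBit j = (a.testBit k && x.testBit j) := by
  unfold selRow
  cases a.testBit k <;> simp

theorem mulRow_testBit (a : ℕ) (B : ℕ → ℕ) (j : ℕ) :
    (mulRow a B).testBit j = xor10 fun k => a.testBit k && (B k).testBit j := by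
  simp only [mulRow, Nat.testBit_xor, selRow_testBit, xor10]

variable (F)

/-- The row vector of a mask. -/
def toVec (a : ℕ) : B2Idx → F := fun c => bF F (a.testBit (b2ix c))

/-- The matrix of a packed code. -/
def toMat (M : ℕ) : Matrix B2Idx B2Idx F :=
  Matrix.of fun i j => bF F ((rowOf M (b2ix i)).testBit (b2ix j))

variable {F}

theorem toVec_vecMul (h2 : (2 : F) = 0) (a M : ℕ) :
    toVec F a ᵥ* toMat F M = toVec F (mulRow a (rowOf M)) := by
  funext j
  simp only [Matrix.vecMul, dotProduct, toVec, toMat, Matrix.of_apply]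
  rw [mulRow_testBit, ← sum_b2ix h2]
  refine Finset.sum_congr rfl fun c _ => ?_
  rw [bF_and]

/-- Product check on codes. -/
def prodOK (A B C : ℕ) : Bool := b2All (fun i => mulRow (rowOf A i) (rowOf B) == rowOf C i) 10

theorem toMat_mul (h2 : (2 : F) = 0) {A B C : ℕ} (h : prodOK A B C = true) :
    toMat F A * toMat F B = toMat F C := by
  rw [prodOK, b2All_iff] at h
  ext i j
  rw [Matrix.mul_apply]
  simp only [toMat, Matrix.of_apply]
  have h1 := h _ (b2ix_lt i)
  rw [beq_iff_eq] at h1
  rw [← h1, mulRow_testBit, ← sum_b2ix h2]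
  refine Finset.sum_congr rfl fun c _ => ?_
  rw [bF_and]

/-- Closure check: the listed matrices are closed under left multiplication by the
generators. -/
def closOK (gc mats nxt : ℕ → ℕ) (n : ℕ) : Bool :=
  b2All (fun k => b2All (fun r => decide (nxt (8 * k + r) < n) &&
    prodOK (gc r) (mats k) (mats (nxt (8 * k + r)))) 8) n

theorem toMat_one {M : ℕ}
    (h : b2All (fun i => b2All (fun j => (rowOf M i).testBit j == decide (i = j)) 10) 10 = true) :
    toMat F M = 1 := by
  rw [b2All_iff] at h
  ext i j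
  have h1 := h _ (b2ix_lt i)
  rw [b2All_iff] at h1
  have h2 := h1 _ (b2ix_lt j)
  rw [beq_iff_eq] at h2
  simp only [toMat, Matrix.of_apply, h2, Matrix.one_apply, bF]
  by_cases hij : i = j
  · simp [hij]
  · have : b2ix i ≠ b2ix j := fun hh => hij (b2ix_injective hh)
    simp [hij, this]

theorem toVec_inj {a b : ℕ} (h : toVec F a = toVec F b) : a &&& 1023 = b &&& 1023 := by
  apply Nat.eq_of_testBit_eq
  intro j
  rw [Nat.testBit_and, Nat.testBit_and]
  by_cases hj : j < 10
  · obtain ⟨c, rfl⟩ := exists_b2ix hj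
    have := congrFun h c
    simp only [toVec] at this
    rw [bF_inj this]
  · have h1 : Nat.testBit 1023 j = false := by
      have h3 : 1023 = 2 ^ 10 - 1 := by norm_num
      rw [h3, Nat.testBit_two_pow_sub_one]
      simpa using hj
    rw [h1]
    simp

/-! ### The generators -/

/-- Integer model of the matrix of `x_r(t)` for type `B₂`. -/
def b2Z (r : Fin chevB2.nroots) (t : ℤ) (row col : B2Idx) : ℤ :=
  match col with
  | Sum.inl i =>
    (match row with
     | Sum.inl i' => if i' = i then 1 else 0
     | Sum.inr u => if u = r then - ((chevB2.cartanSR.getD i.val #[]).getD r.val 0) * t else 0)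
  | Sum.inr s =>
    if s = r then (match row with | Sum.inr u => if u = r then 1 else 0 | Sum.inl _ => 0)
    else if s.val = chevB2.negIdx.getD r.val 0 then
      (match row with
       | Sum.inl i => ((chevB2.coroot.getD r.val #[]).getD i.val 0) * t
       | Sum.inr u => if u = s then 1 else if u = r then -(t ^ 2) else 0)
    else
      (match row with
       | Sum.inl _ => 0
       | Sum.inr u => (if u = s then 1 else 0) +
           ((chevB2.chainCoeff r.val s.val u.val).map fun km => km.2 * t ^ km.1).sum)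

theorem xMat_eq_cast (r : Fin chevB2.nroots) (t : ℤ) (row col : B2Idx) :
    chevB2.xMat F r (t : F) row col = ((b2Z r t row col : ℤ) : F) := by
  unfold ChevalleyDatum.xMat b2Z
  rw [Matrix.of_apply]
  rcases col with i | s <;> rcases row with i' | u <;> dsimp only
  · split_ifs <;> simp
  · split_ifs <;> simp
  · split_ifs <;> simp
  · split_ifs <;> simp [List.map_map, Function.comp_def]

theorem cast_int_char2 (h2 : (2 : F) = 0) (z : ℤ) : (z : F) = bF F (decide (z % 2 = 1)) := by
  have h3 : ((2 * (z / 2) : ℤ) : F) = 0 := by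
    push_cast
    rw [h2, zero_mul]
  rcases Int.emod_two_eq_zero_or_one z with h | h
  · have h4 : z = 2 * (z / 2) := by omega
    rw [h, h4, h3]
    simp [bF]
  · have h4 : z = 2 * (z / 2) + 1 := by omega
    rw [h, h4]
    push_cast
    have h5 : (2 : F) * ((z / 2 : ℤ) : F) = 0 := by rw [h2, zero_mul]
    rw [h5]
    simp [bF]

end Field

end Cfsg.Agent.Lib.Helper36
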