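import Mathlib
import Cfsg.Agent.Lib.Helper10.BT0
import Cfsg.Agent.Lib.Helper82.CharCore
import Cfsg.Agent.Lib.Helper83.Ortho
import Cfsg.Agent.Lib.Helper5.BRL4
import Cfsg.Agent.Lib.Helper4.CharClosure
import Cfsg.Agent.Lib.Helper73.BRI1

/-!
# S4700 (Brauer–Reynolds Theorem 1), piece BT-T2 (job board, poster helper10)

Configuration (I) (`ε = 1`, `x₀ = e`) for the general table `GTab`: every `θ ∈ Y` has
`Σ_P θ(u) = 0` and `Σ_P |θ(u)|² = e p`.  Port of `Cfsg.Agent.Lib.Helper10.BR.linY_I_of`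
(Helper73/BRI1) and of the `Y`-part of `lin_vals_of` (Helper78/BRII1).
-/

set_option autoImplicit false

namespace Cfsg.Agent.Lib.Helper10.BT

open Cfsg
open Cfsg.Agent.Lib.Helper83 (trivIrr)
open Cfsg.Agent.Lib.Helper10.BR (psum psum_eq_sum)
open scoped ComplexConjugate

section T

variable {G : Type*} [Group G] [Fintype G] {p e t n : ℕ} {P : Subgroup G} {ε : ℤ} {x₀ : ℕ}
  {A B Y D : Finset (IrrCharacter G)}

private theorem btt2_card_centralizer (h : GTab G p e t n P ε x₀ A B Y D) (u : G) (hu : u ∈ P)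
    (hu1 : u ≠ 1) : Nat.card (Subgroup.centralizer ({u} : Set G)) = p := by
  have hz : Subgroup.zpowers u = P := by
    apply Subgroup.eq_of_le_of_card_ge
    · rw [Subgroup.zpowers_le]
      exact hu
    · rw [h.cardP, Nat.card_zpowers]
      have hdvd : orderOf u ∣ p := by
        have := Subgroup.orderOf_dvd_natCard P hu
        rwa [h.cardP] at this
      have hne : orderOf u ≠ 1 := by rwa [Ne, orderOf_eq_one_iff]
      rcases (Nat.dvd_prime h.hp).1 hdvd with h1 | h1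
      · exact absurd h1 hne
      · exact h1.ge
  have hc : Subgroup.centralizer ({u} : Set G) = Subgroup.centralizer (P : Set G) := by
    ext x
    rw [Subgroup.mem_centralizer_iff, Subgroup.mem_centralizer_iff]
    constructor
    · intro hx v hv
      rw [SetLike.mem_coe, ← hz] at hv
      obtain ⟨k, rfl⟩ := Subgroup.mem_zpowers_iff.1 hv
      have hcomm : Commute u x := hx u rfl
      exact hcomm.zpow_left k
    · intro hx v hv
      rw [Set.mem_singleton_iff] at hv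
      rw [hv]
      exact hx u hu
  rw [hc, h.cent, h.cardP]

private theorem btt2_sumY_sq (h : GTab G p e t n P ε x₀ A B Y D) (u : G) (hu : u ∈ P)
    (hu1 : u ≠ 1) :
    ∑ θ ∈ Y, (θ : G → ℂ) u * conj ((θ : G → ℂ) u) = (p : ℂ) - (e : ℂ) := by
  classical
  have : Finite (IrrCharacter G) := Cfsg.Agent.Lib.Helper82.finite_irrCharacter G
  letI : Fintype (IrrCharacter G) := Fintype.ofFinite _
  have hco := Cfsg.Agent.Lib.Helper83.column_orthogonality_conj (G := G) (IsConj.refl u)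
  rw [btt2_card_centralizer h u hu hu1, h.sum_split] at hco
  have hA1 : ∀ ψ ∈ A, (ψ : G → ℂ) u * conj ((ψ : G → ℂ) u) = 1 := by
    intro ψ hψ
    rw [h.valA ψ hψ u hu hu1, map_one, mul_one]
  have hB1 : ∀ ψ ∈ B, (ψ : G → ℂ) u * conj ((ψ : G → ℂ) u) = 1 := by
    intro ψ hψ
    rw [h.valB ψ hψ u hu hu1, map_neg, map_one, neg_mul_neg, mul_one]
  have hD0 : ∀ ψ ∈ D, (ψ : G → ℂ) u * conj ((ψ : G → ℂ) u) = 0 := by
    intro ψ hψ
    rw [h.valD ψ hψ u hu hu1, zero_mul]
  rw [Finset.sum_congr rfl hA1, Finset.sum_congr rfl hB1, Finset.sum_eq_zero hD0,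
    Cfsg.Agent.Lib.Helper83.trivIrr_apply, map_one, mul_one, add_zero, Finset.sum_const,
    Finset.sum_const, nsmul_eq_mul, nsmul_eq_mul, mul_one, mul_one] at hco
  have hcard : (A.card : ℂ) + (B.card : ℂ) = (e : ℂ) - 1 := by
    have h1 := h.cardAB
    have he := h.he
    have h2 : A.card + B.card + 1 = e := by omega
    rw [← h2]
    push_cast
    ring
  linear_combination hco - hcard

private theorem btt2_sum_psum_sq (h : GTab G p e t n P ε x₀ A B Y D) (hx : x₀ = e) :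
    ∑ θ ∈ Y, psum P (fun g => (θ : G → ℂ) g * conj ((θ : G → ℂ) g)) 1 =
      ((t * (e * p) : ℕ) : ℂ) := by
  classical
  letI : Fintype P := Fintype.ofFinite _
  simp only [psum_eq_sum, one_mul]
  rw [Finset.sum_comm]
  have hterm : ∀ u : P, ∑ θ ∈ Y, (θ : G → ℂ) u * conj ((θ : G → ℂ) u) =
      if (u : G) = 1 then (t : ℂ) * (e : ℂ) ^ 2 else (p : ℂ) - (e : ℂ) := by
    intro u
    split_ifs with hu
    · have h1 : ∀ θ ∈ Y, (θ : G → ℂ) u * conj ((θ : G → ℂ) u) = (e : ℂ) ^ 2 := by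
        intro θ hθ
        rw [hu, h.degY θ hθ, hx, map_natCast, sq]
      rw [Finset.sum_congr rfl h1, Finset.sum_const, h.cardY, nsmul_eq_mul]
    · exact btt2_sumY_sq h u u.2 hu
  rw [Finset.sum_congr rfl (fun u _ => hterm u), Finset.sum_ite, Finset.sum_const,
    Finset.sum_const]
  have h1 : (Finset.univ.filter (fun u : P => (u : G) = 1)).card = 1 := by
    rw [Finset.card_eq_one]
    refine ⟨1, ?_⟩
    ext u
    rw [Finset.mem_filter, Finset.mem_singleton]
    constructor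
    · intro hu
      exact Subtype.ext hu.2
    · intro hu
      rw [hu]
      exact ⟨Finset.mem_univ _, rfl⟩
  have h2 : (Finset.univ.filter (fun u : P => ¬ (u : G) = 1)).card = p - 1 := by
    have h3 := Finset.card_filter_add_card_filter_not (s := (Finset.univ : Finset P))
      (fun u : P => (u : G) = 1)
    rw [h1, Finset.card_univ, ← Nat.card_eq_fintype_card, h.cardP] at h3
    omega
  rw [h1, h2, ← h.het]
  simp only [one_smul, nsmul_eq_mul]
  push_cast
  ring

omit [Fintype G] in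
private theorem btt2_lin_aux (P : Subgroup G) [Fintype P] [DecidableEq P] (ψ : G → ℂ) :
    psum P ψ 1 = ψ 1 + ∑ u ∈ (Finset.univ : Finset P).erase 1, ψ (u : G) := by
  rw [psum_eq_sum, ← Finset.add_sum_erase _ _ (Finset.mem_univ (1 : P))]
  simp only [one_mul, Subgroup.coe_one]

private theorem btt2_linY (h : GTab G p e t n P ε x₀ A B Y D) :
    ∑ θ ∈ Y, psum P (θ : G → ℂ) 1 = (t : ℂ) * (x₀ : ℂ) - ((p : ℂ) - 1) * (ε : ℂ) := by
  classical
  have hp1 : 1 ≤ p := h.hp.one_lt.le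
  let _ : Fintype P := Fintype.ofFinite P
  have h4 : ∀ θ ∈ Y, psum P (θ : G → ℂ) 1 =
      (x₀ : ℂ) + ∑ u ∈ (Finset.univ : Finset P).erase 1, (θ : G → ℂ) (u : G) :=
    fun θ hθ => by rw [btt2_lin_aux, h.degY θ hθ]
  rw [Finset.sum_congr rfl h4, Finset.sum_add_distrib, Finset.sum_const, h.cardY,
    Finset.sum_comm]
  have h5 : ∀ u ∈ (Finset.univ : Finset P).erase 1,
      ∑ θ ∈ Y, (θ : G → ℂ) (u : G) = -(ε : ℂ) := by
    intro u hu
    exact h.sumY u u.2 (fun h1 => (Finset.ne_of_mem_erase hu) (OneMemClass.coe_eq_one.mp h1))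
  rw [Finset.sum_congr rfl h5]
  rw [Finset.sum_const, Finset.card_erase_of_mem (Finset.mem_univ _), Finset.card_univ,
    ← Nat.card_eq_fintype_card, h.cardP, nsmul_eq_mul, nsmul_eq_mul, Nat.cast_sub hp1,
    Nat.cast_one]
  ring

/-- BT-T2 -/
theorem linY_I_g (h : GTab G p e t n P ε x₀ A B Y D) (hε : ε = 1) (hx : x₀ = e) :
    ∀ θ ∈ Y, psum P (θ : G → ℂ) 1 = 0 ∧
      psum P (fun g => (θ : G → ℂ) g * conj ((θ : G → ℂ) g)) 1 = ((e * p : ℕ) : ℂ) := by
  classical
  have hlinY := btt2_linY h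
  have hPcomm : ∀ a ∈ P, ∀ b ∈ P, a * b = b * a := by
    intro a ha b hb
    have ha' : a ∈ Subgroup.centralizer (P : Set G) := by rw [h.cent]; exact ha
    exact ((Subgroup.mem_centralizer_iff.mp ha') b hb).symm
  have hab : ∀ θ ∈ Y, ((θ : G → ℂ) 1).re * (Nat.card P : ℝ) ≤
      (psum P (fun g => (θ : G → ℂ) g * conj ((θ : G → ℂ) g)) 1).re := fun θ _ =>
    Cfsg.Agent.Lib.Helper10.BR.abelian_norm_ge P hPcomm (θ : G → ℂ)
      (Cfsg.Agent.Lib.Helper4.isCharacter_of_irr θ)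
  have hp := h.hp
  have hpC : (Nat.card P : ℂ) = (p : ℂ) := by rw [h.cardP]
  have hp0 : (p : ℂ) ≠ 0 := by exact_mod_cast hp.ne_zero
  -- (a)
  choose m hm using fun θ : IrrCharacter G => Cfsg.Agent.Lib.Helper10.BR.BRI1aux.psum_nat P θ
  have hsum0 : ∑ θ ∈ Y, (m θ : ℂ) = 0 := by
    have h1 : ∑ θ ∈ Y, psum P (θ : G → ℂ) 1 = (p : ℂ) * ∑ θ ∈ Y, (m θ : ℂ) := by
      rw [Finset.mul_sum]
      exact Finset.sum_congr rfl (fun θ _ => by rw [hm θ, hpC])
    rw [hlinY, hx, hε] at h1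
    have het : (e : ℂ) * (t : ℂ) = (p : ℂ) - 1 := by
      have h2 := h.het
      have hp1 := hp.one_lt
      have h3 : e * t + 1 = p := by omega
      rw [← h3]
      push_cast
      ring
    have h2 : (p : ℂ) * ∑ θ ∈ Y, (m θ : ℂ) = 0 := by
      rw [← h1]
      push_cast
      linear_combination het
    exact (mul_eq_zero.1 h2).resolve_left hp0
  have hm0 : ∀ θ ∈ Y, m θ = 0 := by
    have h3 : ∑ θ ∈ Y, m θ = 0 := by exact_mod_cast hsum0
    intro θ hθ
    exact (Finset.sum_eq_zero_iff.1 h3) θ hθ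
  -- (b)
  have hreal : ∀ θ : IrrCharacter G, ∃ r : ℝ,
      psum P (fun g => (θ : G → ℂ) g * conj ((θ : G → ℂ) g)) 1 = (r : ℂ) := by
    intro θ
    letI : Fintype P := Fintype.ofFinite _
    refine ⟨∑ u : P, Complex.normSq ((θ : G → ℂ) (u : G)), ?_⟩
    rw [psum_eq_sum]
    push_cast
    refine Finset.sum_congr rfl (fun u _ => ?_)
    rw [one_mul, Complex.mul_conj]
  choose r hr using hreal
  have hge : ∀ θ ∈ Y, ((e * p : ℕ) : ℝ) ≤ r θ := by
    intro θ hθ
    have h1 := hab θ hθ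
    rw [hr θ, Complex.ofReal_re, h.degY θ hθ, hx, Complex.natCast_re, h.cardP] at h1
    push_cast
    exact h1
  have htot : ∑ θ ∈ Y, r θ = ((t * (e * p) : ℕ) : ℝ) := by
    have h4 := btt2_sum_psum_sq h hx
    rw [Finset.sum_congr rfl (fun θ _ => hr θ)] at h4
    have h5 : ((∑ θ ∈ Y, r θ : ℝ) : ℂ) = (((t * (e * p) : ℕ) : ℝ) : ℂ) := by
      push_cast
      push_cast at h4
      exact h4
    exact Complex.ofReal_injective h5
  have heq : ∀ θ ∈ Y, r θ = ((e * p : ℕ) : ℝ) := by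
    have h6 : ∑ θ ∈ Y, (r θ - ((e * p : ℕ) : ℝ)) = 0 := by
      rw [Finset.sum_sub_distrib, htot, Finset.sum_const, h.cardY]
      push_cast
      simp only [nsmul_eq_mul]
      ring
    have h7 := (Finset.sum_eq_zero_iff_of_nonneg (fun θ hθ => sub_nonneg.2 (hge θ hθ))).1 h6
    intro θ hθ
    linarith [h7 θ hθ]
  intro θ hθ
  refine ⟨?_, ?_⟩
  · rw [hm θ, hm0 θ hθ]
    simp
  · rw [hr θ, heq θ hθ]
    push_cast
    ring

end T

end Cfsg.Agent.Lib.Helper10.BT
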