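import Mathlib
import Cfsg.Agent.Lib.Helper10.BT0
import Cfsg.Agent.Lib.Helper83.Ortho

/-! S4700 (Brauer–Reynolds Theorem 1) piece BT-X3: from `PreC` (with `C = ∅`) to the character
table data `GTab` in the self-centralizing case (adapted from `Helper29/BRX9`). -/

set_option autoImplicit false

namespace Cfsg.Agent.Lib.Helper10.BT

open Cfsg
open Cfsg.Agent.Lib.Helper83 (trivIrr)
open Cfsg.Agent.Lib.Helper10.BR (psum DOut Tab)
open scoped ComplexConjugate

private theorem btx3_deg_eq {G : Type*} [Group G] (ψ : IrrCharacter G) (d : ℕ)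
    (h : (ψ : G → ℂ) 1 = (d : ℂ)) : charDegree (ψ : G → ℂ) = d := by
  have h1 := (Cfsg.Agent.Lib.Helper83.irr_degree ψ.2).2
  rw [h] at h1
  exact (Nat.cast_injective h1).symm

/-- BT-X3 -/
theorem exists_gtab {G : Type*} [Group G] [Fintype G] (p : ℕ) [Fact p.Prime]
    (M : Ideal AlgInt) (hM : IsPModular p M) (P : Sylow p G) (hP : Nat.card P = p)
    (e t n : ℕ) (ε : ℤ) (x₀ : ℕ) (A B Y : Finset (IrrCharacter G))
    (h : PreC G p M (P : Subgroup G) e t n ε x₀ A B ∅ Y)
    (he2 : 2 ≤ e) (het : e * t = p - 1) (ht : 1 ≤ t) (hn : 1 ≤ n)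
    (hC : Subgroup.centralizer ((P : Subgroup G) : Set G) = (P : Subgroup G))
    (hN : Nat.card (Subgroup.normalizer ((P : Subgroup G) : Set G)) = e * p)
    (hcard : Nat.card G = (1 + n * p) * (e * p))
    (hvlem : ∀ ψ : IrrCharacter G, ¬ p ∣ charDegree (ψ : G → ℂ) → ψ ∈ principalBlock M G)
    (hvan : ∀ ψ : IrrCharacter G, p ∣ charDegree (ψ : G → ℂ) → ∀ x : G, p ∣ orderOf x →
      (ψ : G → ℂ) x = 0) :
    ∃ D : Finset (IrrCharacter G), GTab G p e t n (P : Subgroup G) ε x₀ A B Y D := by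
  classical
  have : Finite (IrrCharacter G) := Cfsg.Agent.Lib.Helper83.irr_finite
  letI : Fintype (IrrCharacter G) := Fintype.ofFinite _
  have hp : p.Prime := Fact.out
  have hp2 := hp.two_le
  have hep : e ≤ p - 1 := by
    rw [← het]
    exact Nat.le_mul_of_pos_right e ht
  have hmemD : ∀ ψ : IrrCharacter G,
      ψ ∈ (Finset.univ.filter (fun ψ : IrrCharacter G => p ∣ charDegree (ψ : G → ℂ))) ↔
        p ∣ charDegree (ψ : G → ℂ) := by
    intro ψ
    simp
  have hAdeg : ∀ χ ∈ A, ¬ p ∣ charDegree (χ : G → ℂ) := by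
    intro χ hχ hdvd
    rw [btx3_deg_eq χ _ (h.degA χ hχ)] at hdvd
    have h2 : p ∣ n * p := Dvd.intro_left n rfl
    have h3 : p ∣ 1 := (Nat.dvd_add_left h2).mp hdvd
    exact hp.one_lt.ne' (Nat.dvd_one.mp h3)
  have hBdeg : ∀ χ ∈ B, ¬ p ∣ charDegree (χ : G → ℂ) := by
    intro χ hχ hdvd
    rw [btx3_deg_eq χ _ (h.degB χ hχ)] at hdvd
    have h2 := Nat.le_of_dvd (by omega) hdvd
    omega
  have hYdeg : ∀ χ ∈ Y, ¬ p ∣ charDegree (χ : G → ℂ) := by
    intro χ hχ hdvd
    rw [btx3_deg_eq χ _ (h.degY χ hχ)] at hdvd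
    have h1 : (x₀ : ℤ) ≡ 0 [ZMOD p] := by
      rw [Int.modEq_zero_iff_dvd]
      exact_mod_cast hdvd
    have h2 : ε * (e : ℤ) ≡ 0 [ZMOD p] := h.modY.symm.trans h1
    rw [Int.modEq_zero_iff_dvd] at h2
    have h3 : (p : ℤ) ∣ (e : ℤ) := by
      rcases h.hε with h4 | h4
      · rw [h4, one_mul] at h2; exact h2
      · rw [h4, neg_one_mul, dvd_neg] at h2; exact h2
    have h5 : p ∣ e := by exact_mod_cast h3
    have h6 := Nat.le_of_dvd (by omega) h5
    omega
  have htrivdeg : charDegree ((trivIrr G : IrrCharacter G) : G → ℂ) = 1 := by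
    apply btx3_deg_eq
    rw [Cfsg.Agent.Lib.Helper83.trivIrr_apply]
    simp
  have htrivD : ¬ p ∣ charDegree ((trivIrr G : IrrCharacter G) : G → ℂ) := by
    rw [htrivdeg]
    exact fun h3 => hp.one_lt.ne' (Nat.dvd_one.mp h3)
  have hone : ¬ p ∣ orderOf (1 : G) := by
    rw [orderOf_one]
    exact fun h3 => hp.one_lt.ne' (Nat.dvd_one.mp h3)
  have h1mem : (1 : G) ∈ Subgroup.centralizer ((P : Subgroup G) : Set G) := Subgroup.one_mem _
  refine ⟨Finset.univ.filter (fun ψ : IrrCharacter G => p ∣ charDegree (ψ : G → ℂ)), ?_⟩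
  refine
    { hp := hp
      he := he2
      ht := ht
      het := het
      hn := hn
      cardP := hP
      cent := hC
      cardN := hN
      cardG := hcard
      part := ?_
      triv_nmem := ?_
      disj := ?_
      degA := h.degA
      valA := ?_
      degB := h.degB
      valB := ?_
      cardAB := ?_
      cardY := h.cardY
      degY := h.degY
      x₀_ge := h.x₀_ge
      regY := h.regY
      t1 := ?_
      hε := h.hε
      modY := h.modY
      sumY := h.sumY
      degD := ?_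
      valD := ?_ }
  · intro ψ
    by_cases hψ : p ∣ charDegree (ψ : G → ℂ)
    · exact Or.inr (Or.inr (Or.inr (Or.inr ((hmemD ψ).mpr hψ))))
    · have h1 := hvlem ψ hψ
      rw [h.block] at h1
      rcases h1 with h1 | h1 | h1 | h1 | h1
      · exact Or.inl h1
      · exact Or.inr (Or.inl h1)
      · exact Or.inr (Or.inr (Or.inl h1))
      · exact absurd h1 (Finset.notMem_empty ψ)
      · exact Or.inr (Or.inr (Or.inr (Or.inl h1)))
  · obtain ⟨h1, h2, _, h3⟩ := h.triv_nmem
    exact ⟨h1, h2, h3, fun h4 => htrivD ((hmemD _).mp h4)⟩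
  · obtain ⟨h1, _, h2, _, h3, _⟩ := h.disj
    refine ⟨h1, h2, ?_, h3, ?_, ?_⟩
    · rw [Finset.disjoint_left]
      intro ψ hψ hψD
      exact hAdeg ψ hψ ((hmemD ψ).mp hψD)
    · rw [Finset.disjoint_left]
      intro ψ hψ hψD
      exact hBdeg ψ hψ ((hmemD ψ).mp hψD)
    · rw [Finset.disjoint_left]
      intro ψ hψ hψD
      exact hYdeg ψ hψ ((hmemD ψ).mp hψD)
  · intro χ hχ x hx hx1
    have := h.valA χ hχ x hx hx1 1 h1mem hone
    rwa [mul_one] at this
  · intro χ hχ x hx hx1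
    have := h.valB χ hχ x hx hx1 1 h1mem hone
    rwa [mul_one] at this
  · have := h.cardABC
    rwa [Finset.card_empty, add_zero] at this
  · intro θ hθ g hg
    have := h.t1 θ hθ g hg
    rwa [Finset.sum_empty, sub_zero] at this
  · intro ψ hψ
    obtain ⟨k, hk⟩ := (hmemD ψ).mp hψ
    refine ⟨k, ?_⟩
    rw [(Cfsg.Agent.Lib.Helper83.irr_degree ψ.2).2, hk]
  · intro ψ hψ x hx hx1
    apply hvan ψ ((hmemD ψ).mp hψ) x
    have h1 : orderOf x ∣ Nat.card (P : Subgroup G) := Subgroup.orderOf_dvd_natCard _ hx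
    have h2 : orderOf x ∣ p := by
      have hP' : Nat.card (P : Subgroup G) = p := hP
      rwa [hP'] at h1
    rcases (Nat.dvd_prime hp).mp h2 with h3 | h3
    · exact absurd (orderOf_eq_one_iff.mp h3) hx1
    · rw [h3]

end Cfsg.Agent.Lib.Helper10.BT
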