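import Cfsg.Agent.Lib.Helper36.E8Tab

/-!
# Iterated cores in `E₈(2)` (S5751), piece UB2: the separating data

The 17 pairs (word, weight) of `verts`: each weight `wc c` is non-negative on the image under the
word of the roots of non-negative level (`verts_ok`), and any two coordinates not in the corner
`LO` are separated by one of the weights (`verts_sep`).
-/

set_option autoImplicit false
set_option maxRecDepth 100000

namespace Cfsg.Agent.Lib.Helper36.E8C

open Cfsg.Lie Cfsg.Agent.Lib.Helper24 Cfsg.Agent.Lib.Helper25

private theorem getD_map_range {α : Type} (f : ℕ → α) (n s : ℕ) (hs : s < n) (d : α) :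
    ((List.range n).map f).getD s d = f s := by
  simp [List.getD_eq_getElem?_getD, hs]

theorem levTab_getD (s : ℕ) (hs : s < 240) : levTab.getD s 0 = levN s := by
  rw [← levTab_eq]
  exact getD_map_range levN 240 s hs 0

theorem profTab_getD (s : ℕ) (hs : s < 240) : profTab.getD s [] = profN s := by
  rw [← profTab_eq]
  exact getD_map_range profN 240 s hs []

/-- some entry of the first list is smaller than the corresponding entry of the second -/
def sepL (l l' : List ℕ) : Bool := (List.zipWith (fun x y => Nat.blt x y) l l').any id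

private theorem sepL_map {α : Type} (L : List α) (f g : α → ℕ)
    (h : sepL (L.map f) (L.map g) = true) : ∃ e ∈ L, f e < g e := by
  induction L with
  | nil => simp [sepL] at h
  | cons a L ih =>
    unfold sepL at h
    rw [List.map_cons, List.map_cons, List.zipWith_cons_cons, List.any_cons, Bool.or_eq_true] at h
    rcases h with h | h
    · exact ⟨a, List.mem_cons_self, by simpa [Nat.blt_eq] using h⟩
    · obtain ⟨e, he, h'⟩ := ih h
      exact ⟨e, List.mem_cons_of_mem _ he, h'⟩

/-- the separation check on the tables -/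
def sepChk : Bool := (List.range 240).all fun r => (List.range 240).all fun s =>
  (r == s) || (Nat.ble 10 (levTab.getD r 0) && Nat.ble (levTab.getD s 0) 2) ||
    sepL (profTab.getD r []) (profTab.getD s [])

theorem sepChk_true : sepChk = true := by decide +kernel

/-- every root has a positive and a negative weight among the 17 -/
def signChk : Bool := (List.range 240).all fun s =>
  (profTab.getD s []).any (fun x => Nat.blt 6 x) && (profTab.getD s []).any (fun x => Nat.blt x 6)

theorem signChk_true : signChk = true := by decide +kernel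

/-- the transported weights are non-negative on the roots of non-negative level -/
def okChk : Bool := verts.zipIdx.all fun ek => (List.range 240).all fun s =>
  Nat.blt (levTab.getD s 0) 6 ||
    Nat.ble 6 ((profTab.getD (wPiF chevE8 ek.1.1 s) []).getD ek.2 0)

theorem okChk_true : okChk = true := by decide +kernel

theorem verts_words : ∀ e ∈ verts, (∀ k ∈ e.1, k < 8) ∧ e.1.count 3 ≤ 6 := by decide +kernel

/-- piece UB2, first half -/
theorem verts_ok : ∀ e ∈ verts, (∀ k ∈ e.1, k < 8) ∧ e.1.count 3 ≤ 6 ∧
    ∀ s < 240, 0 ≤ lev s → 0 ≤ wc e.2 (wP e.1 s) := by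
  intro e he
  obtain ⟨h1, h2⟩ := verts_words e he
  refine ⟨h1, h2, fun s hs hlev => ?_⟩
  obtain ⟨k, hk⟩ := List.mem_iff_getElem?.1 he
  have hmem : (e, k) ∈ verts.zipIdx := List.mem_zipIdx_iff_getElem?.2 hk
  have h := okChk_true
  unfold okChk at h
  rw [List.all_eq_true] at h
  have h' := h (e, k) hmem
  rw [List.all_eq_true] at h'
  have h'' := h' s (List.mem_range.2 hs)
  have hs' : wPiF chevE8 e.1 s < 240 := by
    rw [wPiF_eq chevE8 hE8 e.1 h1 s hs]
    exact wPi_lt chevE8 hE8 e.1 h1 s hs
  rw [Bool.or_eq_true, levTab_getD s hs] at h''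
  rcases h'' with h3 | h3
  · rw [Nat.blt_eq] at h3
    unfold levN at h3
    omega
  · rw [Nat.ble_eq, profTab_getD _ hs'] at h3
    have e1 : (profN (wPiF chevE8 e.1 s)).getD k 0 =
        (wc e.2 (wPiF chevE8 e.1 s) + 6).toNat := by
      unfold profN
      rw [List.getD_eq_getElem?_getD, List.getElem?_map, hk]
      rfl
    rw [e1, wPiF_eq chevE8 hE8 e.1 h1 s hs] at h3
    show 0 ≤ wc e.2 (wPi chevE8 e.1 s)
    omega

private theorem sign_of (s : ℕ) (hs : s < 240) :
    (∃ e ∈ verts, 0 < wc e.2 s) ∧ (∃ e ∈ verts, wc e.2 s < 0) := by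
  have h := signChk_true
  unfold signChk at h
  rw [List.all_eq_true] at h
  have h' := h s (List.mem_range.2 hs)
  rw [Bool.and_eq_true, profTab_getD s hs] at h'
  obtain ⟨h1, h2⟩ := h'
  unfold profN at h1 h2
  rw [List.any_map, List.any_eq_true] at h1 h2
  obtain ⟨e, he, h1⟩ := h1
  obtain ⟨e', he', h2⟩ := h2
  simp only [Function.comp_apply, Nat.blt_eq] at h1 h2
  exact ⟨⟨e, he, by omega⟩, ⟨e', he', by omega⟩⟩

/-- piece UB2, second half -/
theorem verts_sep (a b : chevE8.Idx) (hab : a ≠ b) (hLO : ¬ LO a b) :
    ∃ e ∈ verts, lv e.2 a < lv e.2 b := by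
  rcases a with i | r <;> rcases b with j | s
  · exact absurd trivial hLO
  · exact (sign_of s.val s.isLt).1
  · exact (sign_of r.val r.isLt).2
  · have hr : r.val < 240 := r.isLt
    have hs : s.val < 240 := s.isLt
    have hne : r.val ≠ s.val := fun e => hab (by rw [Fin.ext e])
    have hLO' : ¬ (4 ≤ lev r.val ∧ lev s.val ≤ -4) := hLO
    have h := sepChk_true
    unfold sepChk at h
    rw [List.all_eq_true] at h
    have h' := h r.val (List.mem_range.2 hr)
    rw [List.all_eq_true] at h'
    have h'' := h' s.val (List.mem_range.2 hs)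
    rw [Bool.or_eq_true, Bool.or_eq_true, levTab_getD _ hr, levTab_getD _ hs, profTab_getD _ hr,
      profTab_getD _ hs] at h''
    rcases h'' with (h3 | h3) | h3
    · exact absurd (by simpa using h3) hne
    · rw [Bool.and_eq_true, Nat.ble_eq, Nat.ble_eq] at h3
      unfold levN at h3
      exact absurd ⟨by omega, by omega⟩ hLO'
    · obtain ⟨e, he, hlt⟩ := sepL_map verts _ _ h3
      refine ⟨e, he, ?_⟩
      show wc e.2 r.val < wc e.2 s.val
      omega

end Cfsg.Agent.Lib.Helper36.E8C
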