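import Cfsg.Agent.Lib.Helper36.E8Defs

/-!
# Iterated cores in `E₈(2)`: decidable facts on the level function (S5751)

`lev s` is the coefficient of the root `s` on the fundamental root `p_3`; all facts are checked by
the kernel on the tables of `chevE8`.
-/

set_option autoImplicit false
set_option maxRecDepth 100000

namespace Cfsg.Agent.Lib.Helper36.E8C

open Cfsg.Lie Cfsg.Agent.Lib.Helper24

theorem rank_eq : chevE8.rank = 8 := rfl

theorem nroots_eq : chevE8.nroots = 240 := rfl

/-- the level of a root is the coefficient of its coroot on `h_{p_3}` -/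
theorem lev_eq_coroot : ∀ s < 240, lev s = corootC chevE8 s 3 := by decide +kernel

theorem inRootSub_iff (s : ℕ) : chevE8.InRootSub Jn s ↔ s < 240 ∧ corootC chevE8 s 3 = 0 := by
  unfold ChevalleyDatum.InRootSub
  constructor
  · rintro ⟨h1, h2⟩
    refine ⟨h1, h2 3 (by decide) ?_⟩
    intro h
    exact h rfl
  · rintro ⟨h1, h2⟩
    refine ⟨h1, fun i _ hi => ?_⟩
    have : i = 3 := by
      by_contra h
      exact hi h
    subst this
    exact h2

private theorem facts_aux : ∀ s < 240,
    (chevE8.IsPosRoot s → 0 ≤ lev s) ∧ (0 < lev s → chevE8.IsPosRoot s) ∧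
    (0 ≤ lev s → lev s ≠ 0 → chevE8.IsPosRoot s) ∧ (-6 ≤ lev s ∧ lev s ≤ 6) ∧
    chevE8.reflectRoot 3 s < 240 ∧ (2 ≤ lev s → lev s - 1 ≤ lev (chevE8.reflectRoot 3 s)) ∧
    (∃ i < 8, corootC chevE8 s i % 2 = 1) := by
  decide +kernel

/-- roots in the parabolic have non-negative level -/
theorem lev_nonneg (s : ℕ) (h : chevE8.IsPosRoot s ∨ chevE8.InRootSub Jn s) : 0 ≤ lev s := by
  rcases h with h | h
  · exact (facts_aux s h.1).1 h
  · have h' := (inRootSub_iff s).1 h
    rw [lev_eq_coroot s h'.1, h'.2]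

/-- roots of the Levi factor have level `0` -/
theorem lev_zero (s : ℕ) (h : chevE8.InRootSub Jn s) : lev s = 0 := by
  have h' := (inRootSub_iff s).1 h
  rw [lev_eq_coroot s h'.1, h'.2]

/-- roots of level `0` are the roots of the Levi factor -/
theorem inRootSub_of_lev_zero (s : ℕ) (hs : s < 240) (h : lev s = 0) : chevE8.InRootSub Jn s := by
  rw [inRootSub_iff]
  exact ⟨hs, by rw [← lev_eq_coroot s hs]; exact h⟩

/-- positive roots outside the Levi factor have positive level -/
theorem lev_pos (s : ℕ) (h : chevE8.IsPosRoot s) (h' : ¬ chevE8.InRootSub Jn s) : 0 < lev s := by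
  have h0 := (facts_aux s h.1).1 h
  have h1 : lev s ≠ 0 := fun e => h' (inRootSub_of_lev_zero s h.1 e)
  omega

/-- roots of positive level are positive -/
theorem pos_of_lev_pos (s : ℕ) (hs : s < 240) (h : 0 < lev s) : chevE8.IsPosRoot s :=
  (facts_aux s hs).2.1 h

/-- roots of positive level are outside the Levi factor -/
theorem not_inRootSub_of_lev_pos (s : ℕ) (h : 0 < lev s) : ¬ chevE8.InRootSub Jn s := by
  intro h'
  have := lev_zero s h'
  omega

/-- roots of non-negative level are in the parabolic -/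
theorem pos_or_sub_of_lev_nonneg (s : ℕ) (hs : s < 240) (h : 0 ≤ lev s) :
    chevE8.IsPosRoot s ∨ chevE8.InRootSub Jn s := by
  by_cases h0 : lev s = 0
  · exact Or.inr (inRootSub_of_lev_zero s hs h0)
  · exact Or.inl ((facts_aux s hs).2.2.1 h h0)

theorem lev_bounds (s : ℕ) (hs : s < 240) : -6 ≤ lev s ∧ lev s ≤ 6 := (facts_aux s hs).2.2.2.1

theorem reflect3_lt (s : ℕ) (hs : s < 240) : chevE8.reflectRoot 3 s < 240 :=
  (facts_aux s hs).2.2.2.2.1

/-- the reflection in `p_3` lowers the level of a root of level at least `2` by at most `1` -/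
theorem lev_reflect3 (s : ℕ) (hs : s < 240) (h : 2 ≤ lev s) :
    lev s - 1 ≤ lev (chevE8.reflectRoot 3 s) := (facts_aux s hs).2.2.2.2.2.1 h

/-- the coroot of a root has an odd coefficient -/
theorem coroot_odd (s : ℕ) (hs : s < 240) : ∃ i < 8, corootC chevE8 s i % 2 = 1 :=
  (facts_aux s hs).2.2.2.2.2.2

theorem simple_pos : ∀ i < 8, chevE8.IsPosRoot (chevE8.simple i) := by decide +kernel

theorem simple_lev : ∀ i < 8, lev (chevE8.simple i) = if i = 3 then 1 else 0 := by decide +kernel

theorem lev_top : lev 239 = 6 := by decide +kernel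

theorem pos_top : chevE8.IsPosRoot 239 := by decide +kernel

end Cfsg.Agent.Lib.Helper36.E8C
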