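import Cfsg.Agent.Lib.Helper36.E8Data
import Cfsg.Agent.Lib.Helper19.CoreSeq
import Cfsg.Agent.Lib.Helper73.E8LB1
import Cfsg.Agent.Lib.Helper73.E8LB2
import Cfsg.Agent.Lib.Helper16.E8UB1
import Cfsg.Agent.Lib.Helper17.E8UB3
import Cfsg.Agent.Lib.Helper75.E8UB4
import Cfsg.Agent.Lib.Helper97.E8UB5
import Cfsg.Agent.Lib.Helper57.E8CO

/-!
# Iterated cores in `E₈(2)` (S5751): the assembly

`G = E₈(2)`, `M1` the maximal parabolic subgroup of the node of mark 6, `M2 = n M1 n⁻¹` for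
`n = n_{p_3}`; the iterated cores satisfy `Aq 6 = ⊥` and `Aq 5 ≠ ⊥`.

* lower bound: the level subgroups `QG (i + 1)` lie in `Aq i` (pieces LB1, LB2);
* upper bound: an element of `Aq 6` lies in 17 conjugates of the parabolic, hence has the zero
  pattern of `LO` (pieces UB1, UB2), so identity diagonal blocks (UB3), so lies in `U` (UB4), so
  is trivial (UB5);
* the parabolic is a maximal subgroup (piece CO); the abstract sequence lemmas are piece CS.
-/

set_option autoImplicit false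

namespace Cfsg.Agent.Lib.Helper36.E8C

open Cfsg.Lie Cfsg.Agent.Lib.Helper24

theorem seqE8 : CoreSeq.Seq M1 M2 (nn 3) Aq Bq where
  conj := rfl
  sq := nn3_sq
  A0 := rfl
  B0 := rfl
  As := fun _ => rfl
  Bs := fun _ => rfl

/-- the level subgroups inside the group -/
def QG (m : ℤ) : Subgroup E8G := (Qm m).subgroupOf (chevE8.group K2)

theorem mem_QG (m : ℤ) (x : E8G) : x ∈ QG m ↔ (x : GL chevE8.Idx K2) ∈ Qm m :=
  Subgroup.mem_subgroupOf

theorem mem_M1 (x : E8G) : x ∈ M1 ↔ (x : GL chevE8.Idx K2) ∈ Pm :=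
  Subgroup.mem_subgroupOf

theorem QG_le_Aq : ∀ i : ℕ, QG ((i : ℤ) + 1) ≤ Aq i
  | 0 => by
    intro x hx
    show x ∈ M1
    rw [mem_QG] at hx
    rw [mem_M1]
    exact Qm_one_le (by simpa using hx)
  | (i + 1) => by
    have ih := QG_le_Aq i
    have hanti : QG (((i + 1 : ℕ) : ℤ) + 1) ≤ QG ((i : ℤ) + 1) := by
      intro x hx
      rw [mem_QG] at hx ⊢
      have := Qm_anti ((i : ℤ) + 1)
      exact this (by push_cast at hx; exact hx)
    refine seqE8.le_A_succ i (QG (((i + 1 : ℕ) : ℤ) + 1)) (le_trans hanti ih) ?_ ?_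
    · intro x hx
      rw [seqE8.mem_B_iff]
      apply ih
      rw [mem_QG] at hx ⊢
      have := Qm_conj_n ((i : ℤ) + 1) (by omega) (x : GL chevE8.Idx K2)
        (by push_cast at hx; exact hx)
      exact this
    · intro p hp q hq
      rw [mem_QG] at hq ⊢
      exact Qm_normal _ (by omega) (p : GL chevE8.Idx K2) ((mem_M1 p).1 hp) _ hq

theorem Aq5_ne : Aq 5 ≠ ⊥ := by
  intro h
  have h1 : xe 239 ∈ Aq 5 := by
    apply QG_le_Aq 5
    rw [mem_QG]
    have := xe_top_mem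
    norm_num
    exact this
  rw [h, Subgroup.mem_bot] at h1
  exact xe_top_ne h1

theorem M1_ne_bot : M1 ≠ ⊥ := by
  intro h
  have h1 : xe 239 ∈ M1 := xe_mem 239 pos_top
  rw [h, Subgroup.mem_bot] at h1
  exact xe_top_ne h1

theorem fix_word : ∀ L : List ℕ, (∀ k ∈ L, k < 8) →
    ∀ x ∈ Aq (L.count 3), (nw L)⁻¹ * x * nw L ∈ M1
  | [], _ => seqE8.fix_one
  | k :: L, hL => by
    have ih := fix_word L (fun j hj => hL j (List.mem_cons_of_mem _ hj))
    by_cases hk : k = 3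
    · subst hk
      rw [List.count_cons_self]
      exact seqE8.fix_mul_n _ (nw L) ih
    · rw [List.count_cons_of_ne hk]
      exact seqE8.fix_mul_mem _ (nw L) (nn k) (nn_mem k (hL k List.mem_cons_self) hk) ih

theorem Aq6_lvU (x : E8G) (hx : x ∈ Aq 6) (e : List ℕ × List ℤ) (he : e ∈ verts) :
    LvU e.2 ((x : GL chevE8.Idx K2) : Matrix chevE8.Idx chevE8.Idx K2) := by
  obtain ⟨h1, h2, h3⟩ := verts_ok e he
  have hx' : x ∈ Aq (e.1.count 3) := seqE8.A_anti h2 hx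
  have hp := fix_word e.1 h1 x hx'
  have key := conj_word_lvU e.1 h1 e.2 (fun s hs => h3 s
    (by rcases hs with hs | hs
        · exact hs.1
        · exact hs.1) (lev_nonneg s hs)) _ hp
  have e' : nw e.1 * ((nw e.1)⁻¹ * x * nw e.1) * (nw e.1)⁻¹ = x := by group
  rwa [e'] at key

theorem Aq6_zero (x : E8G) (hx : x ∈ Aq 6) (a b : chevE8.Idx) (hab : a ≠ b) (hLO : ¬ LO a b) :
    ((x : GL chevE8.Idx K2) : Matrix chevE8.Idx chevE8.Idx K2) a b = 0 := by
  obtain ⟨e, he, hlt⟩ := verts_sep a b hab hLO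
  by_contra hne
  have := Aq6_lvU x hx e he a b hne
  omega

theorem Aq6_bot : Aq 6 = ⊥ := by
  rw [eq_bot_iff]
  intro x hx
  rw [Subgroup.mem_bot]
  have hz := Aq6_zero x hx
  have hz' : ∀ i < 8, ∀ a b, a ≠ b → ¬ LO a b →
      (((xe (chevE8.simple i) * x * (xe (chevE8.simple i))⁻¹ : E8G) : GL chevE8.Idx K2) :
        Matrix chevE8.Idx chevE8.Idx K2) a b = 0 :=
    fun i hi => Aq6_zero _ (seqE8.A_normal 6 _ (xe_mem _ (simple_pos i hi)) x hx)
  have hd := diag_blocks x hz hz'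
  have hP : (x : GL chevE8.Idx K2) ∈ Pm := (mem_M1 x).1 (seqE8.A_le 6 hx)
  have hU := mem_unipotent_of_blocks (x : GL chevE8.Idx K2) hP hd
  have h1 := eq_one_of_unipotent (x : GL chevE8.Idx K2) hU
    (fun i s => hz _ _ (by simp) (fun h => h))
  exact Subtype.ext h1

theorem core_bot : M1.normalCore = ⊥ := by
  rw [eq_bot_iff, ← Aq6_bot]
  exact seqE8.core_le 6

theorem M1_ne_M2 : M1 ≠ M2 := seqE8.ne M1_isCoatom nn3_not_mem core_bot M1_ne_bot

/-- the statement of S5751 -/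
theorem main :
    ∃ (G : Type) (_ : Group G) (_ : Finite G) (M₁ M₂ : Subgroup G) (g : G) (A B : ℕ → Subgroup G),
      IsCoatom M₁ ∧ M₂ = M₁.map (MulAut.conj g).toMonoidHom ∧ M₁ ≠ M₂ ∧ M₁.normalCore = ⊥ ∧ A 0 = M₁ ∧ B 0 = M₂ ∧
      (∀ i, A (i + 1) = ((A i ⊓ B i).subgroupOf M₁).normalCore.map M₁.subtype) ∧
      (∀ i, B (i + 1) = ((A i ⊓ B i).subgroupOf M₂).normalCore.map M₂.subtype) ∧ A 6 = ⊥ ∧ A 5 ≠ ⊥ :=
  ⟨E8G, inferInstance, inferInstance, M1, M2, nn 3, Aq, Bq, M1_isCoatom, rfl, M1_ne_M2, core_bot,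
    rfl, rfl, fun _ => rfl, fun _ => rfl, Aq6_bot, Aq5_ne⟩

end Cfsg.Agent.Lib.Helper36.E8C
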