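import Mathlib
import Cfsg.Prelude.Def_LieTwisted
import Cfsg.Agent.Lib.Helper36.B2Bool

/-!
A bit-sliced model for `14 × 14` matrices over `ZMod 3`, indexed by the coordinates of the
adjoint module of type `G₂`.

A row is a numeral of `28` bits: bit `j` says that entry `j` is `1`, bit `j + 14` that it is
`-1`.  A matrix is `14` rows packed into one numeral.

* `toMat3`, `toVec3`: decoding; `mulRow3`, `toVec3_vecMul`, `toMat3_mul`, `word_eq`: products
  are computed on the codes (strictly, through `frc`);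
* `chevZ`, `xMat_eq_castZ`: an integer model of `ChevalleyDatum.xMat`.
-/

set_option autoImplicit false

namespace Cfsg.Agent.Lib.Helper36

open Cfsg.Lie Matrix

/-- The coordinate index set of the adjoint module of type `G₂`. -/
abbrev G2Idx : Type := chevG2.Idx

/-- Numbering of the coordinates by `0, …, 13`. -/
def g2ix : G2Idx → ℕ
  | Sum.inl i => i.val
  | Sum.inr u => 2 + u.val

theorem g2ix_lt (c : G2Idx) : g2ix c < 14 := by
  rcases c with i | u
  · have : i.val < 2 := i.isLt
    simp only [g2ix]; omega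
  · have : u.val < 12 := u.isLt
    simp only [g2ix]; omega

theorem g2ix_injective : Function.Injective g2ix := by
  intro a b h
  rcases a with i | u <;> rcases b with j | v
  · simp only [g2ix] at h; exact congrArg Sum.inl (Fin.ext h)
  · have : i.val < 2 := i.isLt
    simp only [g2ix] at h; omega
  · have : j.val < 2 := j.isLt
    simp only [g2ix] at h; omega
  · simp only [g2ix] at h; exact congrArg Sum.inr (Fin.ext (by omega))

theorem exists_g2ix {n : ℕ} (hn : n < 14) : ∃ c : G2Idx, g2ix c = n := by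
  by_cases h : n < 2
  · exact ⟨Sum.inl ⟨n, h⟩, rfl⟩
  · exact ⟨Sum.inr ⟨n - 2, (by omega : n - 2 < 12)⟩, by simp only [g2ix]; omega⟩

/-! ### Strict evaluation -/

/-- `f x`, with `x` evaluated first (the kernel reduces the scrutinee to a numeral once). -/
def frc {α : Type} (x : ℕ) (f : ℕ → α) : α :=
  match x with
  | 0 => f 0
  | Nat.succ n => f (Nat.succ n)

theorem frc_eq {α : Type} (x : ℕ) (f : ℕ → α) : frc x f = f x := by
  cases x <;> rfl

/-! ### Bit-sliced arithmetic modulo three -/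

/-- The element of `ZMod 3` of a pair of bits. -/
def tz (p n : Bool) : ZMod 3 := (if p then 1 else 0) - (if n then 1 else 0)

/-- The same as an integer. -/
def tzi (p n : Bool) : ℤ := (if p then 1 else 0) - (if n then 1 else 0)

theorem tz_eq_cast (p n : Bool) : tz p n = ((tzi p n : ℤ) : ZMod 3) := by
  cases p <;> cases n <;> simp [tz, tzi]

/-- Entry `j` of a row. -/
def tzAt (r j : ℕ) : ZMod 3 := tz (r.testBit j) (r.testBit (j + 14))

/-- Swap the two bit planes (negation). -/
def sw (r : ℕ) : ℕ := ((r >>> 14) &&& 16383) ||| ((r &&& 16383) <<< 14)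

theorem testBit_16383 (j : ℕ) : Nat.testBit 16383 j = decide (j < 14) := by
  have h : 16383 = 2 ^ 14 - 1 := by norm_num
  rw [h, Nat.testBit_two_pow_sub_one]

theorem sw_lo {j : ℕ} (hj : j < 14) (r : ℕ) : (sw r).testBit j = r.testBit (j + 14) := by
  simp only [sw, Nat.testBit_or, Nat.testBit_and, Nat.testBit_shiftRight, Nat.testBit_shiftLeft,
    testBit_16383]
  have h1 : ¬ (j ≥ 14) := by omega
  simp [hj, h1, Nat.add_comm]

theorem sw_hi {j : ℕ} (hj : j < 14) (r : ℕ) : (sw r).testBit (j + 14) = r.testBit j := by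
  simp only [sw, Nat.testBit_or, Nat.testBit_and, Nat.testBit_shiftRight, Nat.testBit_shiftLeft,
    testBit_16383]
  have h1 : ¬ (j + 14 < 14) := by omega
  simp [hj, h1]

/-- Bitwise addition modulo three of the planes `a, b` given the opposite planes `a', b'`. -/
def add3c (a b a' b' : ℕ) : ℕ :=
  ((a ^^^ b) ^^^ ((a ^^^ b) &&& (a' ||| b'))) ||| ((a &&& b) &&& (a' ^^^ b')) |||
    ((a' &&& b') ^^^ ((a' &&& b') &&& (a ||| b)))

/-- Sum of two rows. -/
def add3 (x y : ℕ) : ℕ :=
  frc x fun a => frc y fun b => frc (sw a) fun a' => frc (sw b) fun b' => add3c a b a' b'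

theorem tz_add3c : ∀ p1 n1 p2 n2 : Bool,
    tz (((p1 ^^ p2) ^^ ((p1 ^^ p2) && (n1 || n2))) || ((p1 && p2) && (n1 ^^ n2)) ||
        ((n1 && n2) ^^ ((n1 && n2) && (p1 || p2))))
      (((n1 ^^ n2) ^^ ((n1 ^^ n2) && (p1 || p2))) || ((n1 && n2) && (p1 ^^ p2)) ||
        ((p1 && p2) ^^ ((p1 && p2) && (n1 || n2)))) = tz p1 n1 + tz p2 n2 := by
  decide

theorem tzAt_add3 {j : ℕ} (hj : j < 14) (x y : ℕ) : tzAt (add3 x y) j = tzAt x j + tzAt y j := by
  unfold tzAt
  simp only [add3, frc_eq, add3c, Nat.testBit_or, Nat.testBit_and, Nat.testBit_xor, sw_lo hj,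
    sw_hi hj]
  exact tz_add3c _ _ _ _

/-- The multiple of the row `B` by entry `k` of the row `a`. -/
def sel3 (a k B : ℕ) : ℕ :=
  if a.testBit k then (if a.testBit (k + 14) then 0 else B)
  else (if a.testBit (k + 14) then sw B else 0)

theorem tz_neg : ∀ p n : Bool, tz n p = tz false true * tz p n := by decide

theorem tzAt_sel3 {j : ℕ} (hj : j < 14) (a k B : ℕ) :
    tzAt (sel3 a k B) j = tzAt a k * tzAt B j := by
  unfold sel3 tzAt
  cases h1 : a.testBit k <;> cases h2 : a.testBit (k + 14)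
  · simp [tz]
  · simp only [Bool.false_eq_true, if_false, if_true, sw_lo hj, sw_hi hj]
    exact tz_neg _ _
  · simp [tz]
  · simp [tz]

/-- The row vector `a` times the matrix with rows `B 0, B 1, …` (first `n` rows). -/
def mulRow3a (a : ℕ) (B : ℕ → ℕ) : ℕ → ℕ
  | 0 => 0
  | k + 1 => add3 (mulRow3a a B k) (sel3 a k (B k))

/-- The row vector `a` times the matrix with rows `B 0, …, B 13`. -/
def mulRow3 (a : ℕ) (B : ℕ → ℕ) : ℕ := frc a fun a' => mulRow3a a' B 14

theorem tzAt_mulRow3a {j : ℕ} (hj : j < 14) (a : ℕ) (B : ℕ → ℕ) (n : ℕ) :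
    tzAt (mulRow3a a B n) j = ∑ k ∈ Finset.range n, tzAt a k * tzAt (B k) j := by
  induction n with
  | zero => simp [mulRow3a, tzAt, tz]
  | succ n ih => rw [mulRow3a, tzAt_add3 hj, ih, tzAt_sel3 hj, Finset.sum_range_succ]

/-! ### Packed matrices -/

/-- Row `i` of a packed matrix. -/
def rowOf3 (M i : ℕ) : ℕ := (M >>> (28 * i)) &&& 268435455

/-- The row vector of a code. -/
def toVec3 (a : ℕ) : G2Idx → ZMod 3 := fun c => tzAt a (g2ix c)

/-- The matrix of a packed code. -/
def toMat3 (M : ℕ) : Matrix G2Idx G2Idx (ZMod 3) :=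
  Matrix.of fun i j => tzAt (rowOf3 M (g2ix i)) (g2ix j)

theorem sum_g2ix (f : ℕ → ZMod 3) : ∑ c : G2Idx, f (g2ix c) = ∑ k ∈ Finset.range 14, f k := by
  have e1 : ∑ c : G2Idx, f (g2ix c) =
      (∑ i : Fin 2, f (g2ix (Sum.inl i))) + ∑ u : Fin 12, f (g2ix (Sum.inr u)) :=
    Fintype.sum_sum_type _
  have e2 : (∑ i : Fin 2, f (g2ix (Sum.inl i))) = ∑ k ∈ Finset.range 2, f k :=
    Fin.sum_univ_eq_sum_range (fun k => f k) 2
  have e3 : (∑ u : Fin 12, f (g2ix (Sum.inr u))) = ∑ k ∈ Finset.range 12, f (2 + k) :=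
    Fin.sum_univ_eq_sum_range (fun k => f (2 + k)) 12
  rw [e1, e2, e3, ← Finset.sum_range_add]

theorem toVec3_vecMul (a M : ℕ) :
    toVec3 a ᵥ* toMat3 M = toVec3 (mulRow3 a (rowOf3 M)) := by
  funext j
  simp only [Matrix.vecMul, dotProduct, toVec3, toMat3, Matrix.of_apply, mulRow3, frc_eq]
  rw [tzAt_mulRow3a (g2ix_lt j), ← sum_g2ix (fun k => tzAt a k * tzAt (rowOf3 M k) (g2ix j))]

/-- Product check on codes. -/
def prodOK3 (A B C : ℕ) : Bool :=
  frc A fun A => frc B fun B => frc C fun C =>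
    b2All (fun i => mulRow3 (rowOf3 A i) (rowOf3 B) == rowOf3 C i) 14

theorem toMat3_mul {A B C : ℕ} (h : prodOK3 A B C = true) : toMat3 A * toMat3 B = toMat3 C := by
  simp only [prodOK3, frc_eq] at h
  rw [b2All_iff] at h
  ext i j
  have h1 := h _ (g2ix_lt i)
  rw [beq_iff_eq] at h1
  have h2 := congrFun (toVec3_vecMul (rowOf3 A (g2ix i)) B) j
  rw [h1] at h2
  exact h2

/-- Two codes with the same matrix have the same entries. -/
theorem toMat3_entry {A B : ℕ} (h : toMat3 A = toMat3 B) {i j : ℕ} (hi : i < 14) (hj : j < 14) :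
    tzAt (rowOf3 A i) j = tzAt (rowOf3 B i) j := by
  obtain ⟨c, rfl⟩ := exists_g2ix hi
  obtain ⟨d, rfl⟩ := exists_g2ix hj
  exact congrFun (congrFun h c) d

theorem toMat3_one {M : ℕ}
    (h : b2All (fun i => b2All (fun j => tzAt (rowOf3 M i) j == if i = j then 1 else 0) 14) 14
      = true) : toMat3 M = 1 := by
  rw [b2All_iff] at h
  ext i j
  have h1 := h _ (g2ix_lt i)
  rw [b2All_iff] at h1
  have h2 := h1 _ (g2ix_lt j)
  rw [beq_iff_eq] at h2
  simp only [toMat3, Matrix.of_apply, h2, Matrix.one_apply]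
  by_cases hij : i = j
  · simp [hij]
  · have : g2ix i ≠ g2ix j := fun hh => hij (g2ix_injective hh)
    simp [hij, this]

/-! ### Words -/

/-- The row vector `v` times a product of matrices given by codes. -/
def vecWord (v : ℕ) (w : List ℕ) : ℕ :=
  w.foldl (fun v c => frc c fun c' => mulRow3 v (rowOf3 c')) v

theorem toVec3_vecWord (v : ℕ) (w : List ℕ) :
    toVec3 v ᵥ* (w.map toMat3).prod = toVec3 (vecWord v w) := by
  induction w generalizing v with
  | nil => simp [vecWord]
  | cons c w ih =>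
    rw [List.map_cons, List.prod_cons, ← Matrix.vecMul_vecMul, toVec3_vecMul, ih]
    simp only [vecWord, List.foldl_cons, frc_eq]

theorem tzAt_unit {i j : ℕ} (hj : j < 14) (hi : i < 14) :
    tzAt (1 <<< i) j = if i = j then 1 else 0 := by
  unfold tzAt
  rw [Nat.one_shiftLeft, Nat.testBit_two_pow, Nat.testBit_two_pow]
  have h1 : ¬ (i = j + 14) := by omega
  by_cases h : i = j <;> simp [tz, h, h1]

theorem toVec3_unit (c : G2Idx) : toVec3 (1 <<< g2ix c) = Pi.single c 1 := by
  funext d
  rw [toVec3, tzAt_unit (g2ix_lt d) (g2ix_lt c)]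
  by_cases h : c = d
  · subst h; simp
  · have h1 : g2ix c ≠ g2ix d := fun hh => h (g2ix_injective hh)
    have h2 : d ≠ c := fun hh => h hh.symm
    simp [h1, h2]

/-- Word check: the product of the matrices of `w` has code `C`. -/
def wordOK (w : List ℕ) (C : ℕ) : Bool :=
  frc C fun C' => b2All (fun i => vecWord (1 <<< i) w == rowOf3 C' i) 14

theorem word_eq {w : List ℕ} {C : ℕ} (h : wordOK w C = true) :
    (w.map toMat3).prod = toMat3 C := by
  simp only [wordOK, frc_eq] at h
  rw [b2All_iff] at h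
  ext i j
  have h1 := h _ (g2ix_lt i)
  rw [beq_iff_eq] at h1
  have h2 := congrFun (toVec3_vecWord (1 <<< g2ix i) w) j
  rw [toVec3_unit, Matrix.single_one_vecMul, h1] at h2
  exact h2

/-- Equality check for two products: `∏ w₁ = ∏ w₂`. -/
def wordEqOK (w₁ w₂ : List ℕ) : Bool :=
  b2All (fun i => vecWord (1 <<< i) w₁ == vecWord (1 <<< i) w₂) 14

theorem word_eq_word {w₁ w₂ : List ℕ} (h : wordEqOK w₁ w₂ = true) :
    (w₁.map toMat3).prod = (w₂.map toMat3).prod := by
  rw [wordEqOK, b2All_iff] at h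
  ext i j
  have h1 := h _ (g2ix_lt i)
  rw [beq_iff_eq] at h1
  have h2 := congrFun (toVec3_vecWord (1 <<< g2ix i) w₁) j
  have h3 := congrFun (toVec3_vecWord (1 <<< g2ix i) w₂) j
  rw [toVec3_unit, Matrix.single_one_vecMul] at h2 h3
  rw [h1] at h2
  exact h2.trans h3.symm

/-! ### Integer model of the root elements -/

/-- Integer model of the matrix of `x_r(t)`. -/
def chevZ (D : ChevalleyDatum) (r : Fin D.nroots) (t : ℤ) (row col : D.Idx) : ℤ :=
  match col with
  | Sum.inl i =>
    (match row with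
     | Sum.inl i' => if i' = i then 1 else 0
     | Sum.inr u => if u = r then - ((D.cartanSR.getD i.val #[]).getD r.val 0) * t else 0)
  | Sum.inr s =>
    if s = r then (match row with | Sum.inr u => if u = r then 1 else 0 | Sum.inl _ => 0)
    else if s.val = D.negIdx.getD r.val 0 then
      (match row with
       | Sum.inl i => ((D.coroot.getD r.val #[]).getD i.val 0) * t
       | Sum.inr u => if u = s then 1 else if u = r then -(t ^ 2) else 0)
    else
      (match row with
       | Sum.inl _ => 0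
       | Sum.inr u => (if u = s then 1 else 0) +
           ((D.chainCoeff r.val s.val u.val).map fun km => km.2 * t ^ km.1).sum)

theorem xMat_eq_castZ (D : ChevalleyDatum) (F : Type*) [Field F] (r : Fin D.nroots) (t : ℤ)
    (row col : D.Idx) : D.xMat F r (t : F) row col = ((chevZ D r t row col : ℤ) : F) := by
  unfold ChevalleyDatum.xMat chevZ
  rw [Matrix.of_apply]
  rcases col with i | s <;> rcases row with i' | u <;> dsimp only
  · split_ifs <;> simp
  · split_ifs <;> simp
  · split_ifs <;> simp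
  · split_ifs <;> simp [List.map_map, Function.comp_def]

end Cfsg.Agent.Lib.Helper36
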