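import Mathlib
import Cfsg.Agent.Lib.Helper36.G2Tern

/-!
A packed model for vectors and `14 × 14` matrices over `ZMod 3`, indexed by the coordinates of
the adjoint module of type `G₂`, in which a matrix–vector product is one multiplication of
natural numbers.

A vector is a numeral in base `4096` with `14` digits in `{0, 1, 2}`.  A matrix `M` (acting on
column vectors) is a numeral with `196` digits: entry `(i, j)` is digit `13 + 14 i - j`.  The
digit `13 + 14 i` of the product of a vector code and a matrix code is the `i`-th coordinate of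
the image, before reduction modulo `3`; there are no carries.

* `pdg`, `pval`, `PCan`: digits, the value of a digit sequence, canonical codes;
* `pmul`, `pvec`, `pmat`, `pmat_mulVec`: the product and its meaning;
* `pbr`, `pbr3`, `pvec_pbr`: a bilinear product given by `14` matrix codes;
* `slp_fix`, `span_one`: a matrix fixing generators of an algebra fixes the algebra; a matrix
  fixing a basis is the identity.
-/

set_option autoImplicit false

namespace Cfsg.Agent.Lib.Helper36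

open Cfsg.Lie Matrix

/-! ### Digits -/

/-- Entry `k` of an array of `w`-bit numbers packed into a numeral. -/
def parr (w N k : ℕ) : ℕ :=
  Nat.land (Nat.shiftRight N (Nat.mul w k)) (Nat.sub (Nat.shiftLeft 1 w) 1)

/-- Digit `i` in base `4096`. -/
def pdg (a i : ℕ) : ℕ := Nat.land (Nat.shiftRight a (Nat.mul 12 i)) 4095

theorem pdg_eq (a i : ℕ) : pdg a i = a / 4096 ^ i % 4096 := by
  have h1 : pdg a i = (a >>> (12 * i)) &&& (2 ^ 12 - 1) := rfl
  rw [h1, Nat.shiftRight_eq_div_pow, Nat.and_two_pow_sub_one_eq_mod, pow_mul]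
  norm_num

/-- The value of a sequence of digits. -/
def pval (c : ℕ → ℕ) (n : ℕ) : ℕ := ∑ i ∈ Finset.range n, c i * 4096 ^ i

theorem pval_succ (c : ℕ → ℕ) (n : ℕ) : pval c (n + 1) = pval c n + c n * 4096 ^ n :=
  Finset.sum_range_succ _ _

theorem pval_lt {c : ℕ → ℕ} {n : ℕ} (h : ∀ i < n, c i < 4096) : pval c n < 4096 ^ n := by
  induction n with
  | zero => simp [pval]
  | succ n ih =>
    rw [pval_succ, pow_succ]
    have h1 := ih (fun i hi => h i (by omega))
    have h2 : c n ≤ 4095 := by have := h n (by omega); omega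
    have h3 : c n * 4096 ^ n ≤ 4095 * 4096 ^ n := Nat.mul_le_mul_right _ h2
    generalize 4096 ^ n = Y at *
    generalize c n * Y = Z at *
    omega

theorem pval_digit {c : ℕ → ℕ} {n : ℕ} (h : ∀ i < n, c i < 4096) {m : ℕ} (hm : m < n) :
    pval c n / 4096 ^ m % 4096 = c m := by
  induction n with
  | zero => omega
  | succ n ih =>
    rw [pval_succ]
    have hlt : pval c n < 4096 ^ n := pval_lt (fun i hi => h i (by omega))
    rcases Nat.lt_succ_iff_lt_or_eq.mp hm with hmn | rfl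
    · have e : (4096 : ℕ) ^ n = 4096 ^ (n - m - 1) * 4096 * 4096 ^ m := by
        rw [← pow_succ, ← pow_add]
        congr 1
        omega
      have e2 : c n * 4096 ^ n = (c n * 4096 ^ (n - m - 1) * 4096) * 4096 ^ m := by
        rw [e]; ring
      rw [e2, Nat.add_mul_div_right _ _ (by positivity), Nat.add_mul_mod_self_right]
      exact ih (fun i hi => h i (by omega)) hmn
    · rw [Nat.add_mul_div_right _ _ (by positivity), Nat.div_eq_of_lt hlt, zero_add]
      exact Nat.mod_eq_of_lt (h m (by omega))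

theorem pval_digits (a n : ℕ) : pval (fun i => a / 4096 ^ i % 4096) n = a % 4096 ^ n := by
  induction n with
  | zero => simp [pval, Nat.mod_one]
  | succ n ih => rw [pval_succ, ih, Nat.mod_pow_succ]; ring

theorem pval_congr {c d : ℕ → ℕ} {n : ℕ} (h : ∀ i < n, c i = d i) : pval c n = pval d n := by
  unfold pval
  exact Finset.sum_congr rfl fun i hi => by rw [h i (Finset.mem_range.mp hi)]

theorem pval_sum {ι : Type*} (s : Finset ι) (α : ι → ℕ) (d : ι → ℕ → ℕ) (n : ℕ) :
    ∑ k ∈ s, α k * pval (d k) n = pval (fun i => ∑ k ∈ s, α k * d k i) n := by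
  unfold pval
  calc ∑ k ∈ s, α k * ∑ i ∈ Finset.range n, d k i * 4096 ^ i
      = ∑ k ∈ s, ∑ i ∈ Finset.range n, α k * d k i * 4096 ^ i := by
        refine Finset.sum_congr rfl fun k _ => ?_
        rw [Finset.mul_sum]
        exact Finset.sum_congr rfl fun i _ => by ring
    _ = ∑ i ∈ Finset.range n, ∑ k ∈ s, α k * d k i * 4096 ^ i := Finset.sum_comm
    _ = ∑ i ∈ Finset.range n, (∑ k ∈ s, α k * d k i) * 4096 ^ i := by
        refine Finset.sum_congr rfl fun i _ => ?_
        rw [Finset.sum_mul]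

/-- A combination of numerals, digit by digit, when there are no carries. -/
theorem digit_comb {ι : Type*} (s : Finset ι) (α N : ι → ℕ) (n : ℕ)
    (hN : ∀ k ∈ s, N k < 4096 ^ n) :
    (∑ k ∈ s, α k * N k) = pval (fun p => ∑ k ∈ s, α k * (N k / 4096 ^ p % 4096)) n := by
  rw [← pval_sum]
  refine Finset.sum_congr rfl fun k hk => ?_
  rw [pval_digits, Nat.mod_eq_of_lt (hN k hk)]

theorem shift_digit (B k p : ℕ) :
    B * 4096 ^ k / 4096 ^ p % 4096 = if k ≤ p then B / 4096 ^ (p - k) % 4096 else 0 := by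
  split_ifs with h
  · have e : (4096 : ℕ) ^ p = 4096 ^ (p - k) * 4096 ^ k := by
      rw [← pow_add]; congr 1; omega
    rw [e, Nat.mul_div_mul_right _ _ (by positivity)]
  · have e : (4096 : ℕ) ^ k = 4096 ^ (k - p - 1) * 4096 * 4096 ^ p := by
      rw [← pow_succ, ← pow_add]; congr 1; omega
    have e2 : B * 4096 ^ k = (B * 4096 ^ (k - p - 1) * 4096) * 4096 ^ p := by rw [e]; ring
    rw [e2, Nat.mul_div_cancel _ (by positivity), Nat.mul_mod_left]

/-! ### Canonical codes -/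

/-- A numeral with `n` digits, all at most `b`. -/
def PCan (n b a : ℕ) : Prop := a < 4096 ^ n ∧ ∀ i < n, pdg a i ≤ b

theorem PCan.digit_le {n b a : ℕ} (h : PCan n b a) (i : ℕ) : pdg a i ≤ b := by
  by_cases hi : i < n
  · exact h.2 i hi
  · rw [pdg_eq]
    have h1 : a < 4096 ^ i := lt_of_lt_of_le h.1 (Nat.pow_le_pow_right (by norm_num) (by omega))
    rw [Nat.div_eq_of_lt h1]
    simp

theorem PCan.eq_pval {n b a : ℕ} (h : PCan n b a) : a = pval (fun i => pdg a i) n := by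
  have h1 := pval_digits a n
  rw [Nat.mod_eq_of_lt h.1] at h1
  exact h1.symm.trans (pval_congr fun i _ => (pdg_eq a i).symm)

/-- Boolean test for a canonical vector code. -/
def pcanV (a : ℕ) : Bool := decide (a < 4096 ^ 14) && b2All (fun i => decide (pdg a i ≤ 2)) 14

/-- Boolean test for a canonical matrix code. -/
def pcanM (a : ℕ) : Bool := decide (a < 4096 ^ 196) && b2All (fun i => decide (pdg a i ≤ 2)) 196

theorem pcanV_iff {a : ℕ} : pcanV a = true ↔ PCan 14 2 a := by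
  simp only [pcanV, Bool.and_eq_true, decide_eq_true_eq, b2All_iff, PCan]

theorem pcanM_iff {a : ℕ} : pcanM a = true ↔ PCan 196 2 a := by
  simp only [pcanM, Bool.and_eq_true, decide_eq_true_eq, b2All_iff, PCan]

theorem PCan_zero (n b : ℕ) : PCan n b 0 := by
  refine ⟨by positivity, fun i _ => ?_⟩
  rw [pdg_eq]; simp

/-! ### The product -/

theorem pdg_mul {α β a B : ℕ} (ha : PCan 14 α a) (hB : PCan 196 β B)
    (hαβ : 14 * (α * β) < 4096) {j : ℕ} (hj : j < 14) :
    pdg (a * B) (13 + 14 * j) = ∑ k ∈ Finset.range 14, pdg a k * pdg B (13 + 14 * j - k) := by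
  have e1 : a * B = ∑ k ∈ Finset.range 14, pdg a k * (B * 4096 ^ k) := by
    conv_lhs => rw [ha.eq_pval]
    unfold pval
    rw [Finset.sum_mul]
    exact Finset.sum_congr rfl fun k _ => by ring
  have hN : ∀ k ∈ Finset.range 14, B * 4096 ^ k < 4096 ^ 210 := by
    intro k hk
    have hk' : k < 14 := Finset.mem_range.mp hk
    have h1 : (4096 : ℕ) ^ k ≤ 4096 ^ 14 := Nat.pow_le_pow_right (by norm_num) (by omega)
    calc B * 4096 ^ k < 4096 ^ 196 * 4096 ^ 14 :=
          Nat.mul_lt_mul_of_lt_of_le hB.1 h1 (by positivity)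
      _ = 4096 ^ 210 := by rw [← pow_add]
  have e2 := digit_comb (Finset.range 14) (fun k => pdg a k) (fun k => B * 4096 ^ k) 210 hN
  have hd : ∀ p k, B * 4096 ^ k / 4096 ^ p % 4096 ≤ β := by
    intro p k
    rw [shift_digit]
    split_ifs
    · rw [← pdg_eq]; exact hB.digit_le _
    · exact Nat.zero_le _
  have hb : ∀ p < 210, ∑ k ∈ Finset.range 14, pdg a k * (B * 4096 ^ k / 4096 ^ p % 4096) < 4096 := by
    intro p _
    have h1 : ∑ k ∈ Finset.range 14, pdg a k * (B * 4096 ^ k / 4096 ^ p % 4096)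
        ≤ ∑ _k ∈ Finset.range 14, α * β :=
      Finset.sum_le_sum fun k _ => Nat.mul_le_mul (ha.digit_le k) (hd p k)
    rw [Finset.sum_const, Finset.card_range, smul_eq_mul] at h1
    omega
  rw [pdg_eq, e1, e2, pval_digit hb (by omega)]
  refine Finset.sum_congr rfl fun k hk => ?_
  have hk' : k < 14 := Finset.mem_range.mp hk
  rw [shift_digit, if_pos (by omega), ← pdg_eq]

/-- Collect the digits `13 + 14 j` of `P`, reduced modulo `3`. -/
def pmulAux (P : ℕ) : ℕ → ℕ
  | 0 => 0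
  | j + 1 => Nat.add (pmulAux P j)
      (Nat.shiftLeft (Nat.mod (pdg P (Nat.add 13 (Nat.mul 14 j))) 3) (Nat.mul 12 j))

/-- The product of a vector code and a matrix code. -/
def pmul (a B : ℕ) : ℕ := pmulAux (Nat.mul a B) 14

theorem pmulAux_eq (P n : ℕ) : pmulAux P n = pval (fun j => pdg P (13 + 14 * j) % 3) n := by
  induction n with
  | zero => rfl
  | succ n ih =>
    rw [pval_succ, ← ih]
    have h1 : pmulAux P (n + 1) = pmulAux P n + (pdg P (13 + 14 * n) % 3) <<< (12 * n) := rfl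
    rw [h1, Nat.shiftLeft_eq, pow_mul]
    norm_num

theorem pdg_pmul (a B : ℕ) {j : ℕ} (hj : j < 14) :
    pdg (pmul a B) j = pdg (a * B) (13 + 14 * j) % 3 := by
  have h1 : pmul a B = pmulAux (a * B) 14 := rfl
  rw [h1, pmulAux_eq, pdg_eq, pval_digit (fun i _ => by omega) hj]

theorem PCan_pmul (a B : ℕ) : PCan 14 2 (pmul a B) := by
  refine ⟨?_, fun i hi => ?_⟩
  · have h1 : pmul a B = pmulAux (a * B) 14 := rfl
    rw [h1, pmulAux_eq]
    exact pval_lt fun i _ => by omega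
  · rw [pdg_pmul a B hi]; omega

/-! ### Decoding -/

/-- The vector of a code. -/
def pvec (a : ℕ) : G2Idx → ZMod 3 := fun c => ((pdg a (g2ix c) : ℕ) : ZMod 3)

/-- The matrix of a code. -/
def pmat (T : ℕ) : Matrix G2Idx G2Idx (ZMod 3) :=
  Matrix.of fun i j => ((pdg T (13 + 14 * g2ix i - g2ix j) : ℕ) : ZMod 3)

theorem pmat_mulVec {α β a T : ℕ} (ha : PCan 14 α a) (hT : PCan 196 β T)
    (h : 14 * (α * β) < 4096) : pmat T *ᵥ pvec a = pvec (pmul a T) := by
  funext i
  have e1 : (pmat T *ᵥ pvec a) i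
      = ∑ c : G2Idx, ((pdg T (13 + 14 * g2ix i - g2ix c) : ℕ) : ZMod 3) *
          ((pdg a (g2ix c) : ℕ) : ZMod 3) := rfl
  rw [e1, sum_g2ix (fun k => ((pdg T (13 + 14 * g2ix i - k) : ℕ) : ZMod 3) * ((pdg a k : ℕ) : ZMod 3))]
  show _ = ((pdg (pmul a T) (g2ix i) : ℕ) : ZMod 3)
  rw [pdg_pmul a T (g2ix_lt i), pdg_mul ha hT h (g2ix_lt i), ZMod.natCast_mod, Nat.cast_sum]
  exact Finset.sum_congr rfl fun k _ => by push_cast; ring

theorem pvec_inj {a b : ℕ} (ha : PCan 14 2 a) (hb : PCan 14 2 b) (h : pvec a = pvec b) : a = b := by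
  rw [ha.eq_pval, hb.eq_pval]
  refine pval_congr fun i hi => ?_
  obtain ⟨c, rfl⟩ := exists_g2ix hi
  have h1 : ((pdg a (g2ix c) : ℕ) : ZMod 3) = ((pdg b (g2ix c) : ℕ) : ZMod 3) := congrFun h c
  rw [ZMod.natCast_eq_natCast_iff'] at h1
  have h2 := ha.2 _ hi
  have h3 := hb.2 _ hi
  omega

theorem pvec_zero : pvec 0 = 0 := by
  funext c
  show ((pdg 0 (g2ix c) : ℕ) : ZMod 3) = 0
  rw [pdg_eq]; simp

/-- The code of a basis vector. -/
def pE (i : ℕ) : ℕ := Nat.shiftLeft 1 (Nat.mul 12 i)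

theorem pE_eq (i : ℕ) : pE i = 4096 ^ i := by
  have h1 : pE i = 1 <<< (12 * i) := rfl
  rw [h1, Nat.shiftLeft_eq, one_mul, pow_mul]
  norm_num

theorem pdg_pE (i k : ℕ) : pdg (pE i) k = if k = i then 1 else 0 := by
  rw [pdg_eq, pE_eq]
  have h := shift_digit 1 i k
  rw [one_mul] at h
  rw [h]
  split_ifs with h1 h2 h2
  · subst h2; simp
  · have : 0 < k - i := by omega
    have h3 : (1 : ℕ) < 4096 ^ (k - i) := Nat.one_lt_pow (by omega) (by norm_num)
    rw [Nat.div_eq_of_lt h3]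
  · omega
  · rfl

theorem PCan_pE {i : ℕ} (hi : i < 14) : PCan 14 2 (pE i) := by
  refine ⟨?_, fun k _ => ?_⟩
  · rw [pE_eq]; exact Nat.pow_lt_pow_right (by norm_num) hi
  · rw [pdg_pE]; split_ifs <;> omega

theorem pvec_pE (c : G2Idx) : pvec (pE (g2ix c)) = Pi.single c 1 := by
  funext d
  show ((pdg (pE (g2ix c)) (g2ix d) : ℕ) : ZMod 3) = _
  rw [pdg_pE]
  by_cases h : d = c
  · subst h; simp
  · have h1 : g2ix d ≠ g2ix c := fun hh => h (g2ix_injective hh)
    simp [h, h1]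

/-- Two matrices agreeing on the basis vectors are equal. -/
theorem mat_ext_pE {M N : Matrix G2Idx G2Idx (ZMod 3)}
    (h : ∀ i < 14, M *ᵥ pvec (pE i) = N *ᵥ pvec (pE i)) : M = N := by
  ext r c
  have h1 := congrFun (h _ (g2ix_lt c)) r
  rw [pvec_pE, Matrix.mulVec_single_one, Matrix.mulVec_single_one] at h1
  exact h1


/-! ### A bilinear product -/

/-- `∑ j < n, b_j * A j`. -/
def pcomb (A : ℕ → ℕ) (b : ℕ) : ℕ → ℕ
  | 0 => 0
  | j + 1 => Nat.add (pcomb A b j) (Nat.mul (pdg b j) (A j))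

theorem pcomb_eq (A : ℕ → ℕ) (b n : ℕ) :
    pcomb A b n = ∑ j ∈ Finset.range n, pdg b j * A j := by
  induction n with
  | zero => rfl
  | succ n ih => rw [Finset.sum_range_succ, ← ih]; rfl

/-- The code of the product of two vectors. -/
def pbr (A : ℕ → ℕ) (a b : ℕ) : ℕ := pmul a (pcomb A b 14)

/-- The product of two vectors: `x * y = (∑ j, y j • A j) x`. -/
def pbr3 (A : ℕ → ℕ) (x y : G2Idx → ZMod 3) : G2Idx → ZMod 3 :=
  (∑ j : G2Idx, y j • pmat (A (g2ix j))) *ᵥ x

theorem PCan_pcomb {A : ℕ → ℕ} (hA : ∀ j < 14, PCan 196 2 (A j)) {b : ℕ} (hb : PCan 14 2 b) :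
    PCan 196 56 (pcomb A b 14) ∧
      ∀ p < 196, pdg (pcomb A b 14) p = ∑ j ∈ Finset.range 14, pdg b j * pdg (A j) p := by
  have e := digit_comb (Finset.range 14) (fun j => pdg b j) A 196
    (fun k hk => (hA k (Finset.mem_range.mp hk)).1)
  have hb' : ∀ p < 196, ∑ k ∈ Finset.range 14, pdg b k * (A k / 4096 ^ p % 4096) < 4096 := by
    intro p _
    have h1 : ∑ k ∈ Finset.range 14, pdg b k * (A k / 4096 ^ p % 4096)
        ≤ ∑ _k ∈ Finset.range 14, 2 * 2 :=
      Finset.sum_le_sum fun k hk => Nat.mul_le_mul (hb.digit_le k)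
        (by rw [← pdg_eq]; exact (hA k (Finset.mem_range.mp hk)).digit_le p)
    rw [Finset.sum_const, Finset.card_range, smul_eq_mul] at h1
    omega
  have hd : ∀ p < 196,
      pdg (pcomb A b 14) p = ∑ j ∈ Finset.range 14, pdg b j * pdg (A j) p := by
    intro p hp
    rw [pcomb_eq, e, pdg_eq, pval_digit hb' hp]
    exact Finset.sum_congr rfl fun k _ => by rw [pdg_eq (A k) p]
  refine ⟨⟨?_, fun p hp => ?_⟩, hd⟩
  · rw [pcomb_eq, e]; exact pval_lt hb'
  · rw [hd p hp]
    have h1 : ∑ j ∈ Finset.range 14, pdg b j * pdg (A j) p ≤ ∑ _k ∈ Finset.range 14, 2 * 2 :=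
      Finset.sum_le_sum fun k hk => Nat.mul_le_mul (hb.digit_le k)
        ((hA k (Finset.mem_range.mp hk)).digit_le p)
    rw [Finset.sum_const, Finset.card_range, smul_eq_mul] at h1
    omega

theorem pmat_pcomb {A : ℕ → ℕ} (hA : ∀ j < 14, PCan 196 2 (A j)) {b : ℕ} (hb : PCan 14 2 b) :
    pmat (pcomb A b 14) = ∑ j : G2Idx, pvec b j • pmat (A (g2ix j)) := by
  ext r c
  rw [Matrix.sum_apply]
  have hp : 13 + 14 * g2ix r - g2ix c < 196 := by have := g2ix_lt r; omega
  have e1 : pmat (pcomb A b 14) r c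
      = ((pdg (pcomb A b 14) (13 + 14 * g2ix r - g2ix c) : ℕ) : ZMod 3) := rfl
  have e2 := sum_g2ix (fun k => ((pdg b k : ℕ) : ZMod 3) *
    ((pdg (A k) (13 + 14 * g2ix r - g2ix c) : ℕ) : ZMod 3))
  rw [e1, (PCan_pcomb hA hb).2 _ hp, Nat.cast_sum]
  refine Eq.trans ?_ e2.symm
  exact Finset.sum_congr rfl fun k _ => by push_cast; rfl

theorem PCan_pbr (A : ℕ → ℕ) (a b : ℕ) : PCan 14 2 (pbr A a b) := PCan_pmul _ _

theorem pvec_pbr {A : ℕ → ℕ} (hA : ∀ j < 14, PCan 196 2 (A j)) {a b : ℕ} (ha : PCan 14 2 a)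
    (hb : PCan 14 2 b) : pvec (pbr A a b) = pbr3 A (pvec a) (pvec b) := by
  unfold pbr pbr3
  rw [← pmat_pcomb hA hb, pmat_mulVec ha (PCan_pcomb hA hb).1 (by norm_num)]

theorem pbr3_add_left (A : ℕ → ℕ) (x x' y : G2Idx → ZMod 3) :
    pbr3 A (x + x') y = pbr3 A x y + pbr3 A x' y := Matrix.mulVec_add _ _ _

theorem pbr3_smul_left (A : ℕ → ℕ) (c : ZMod 3) (x y : G2Idx → ZMod 3) :
    pbr3 A (c • x) y = c • pbr3 A x y := Matrix.mulVec_smul _ _ _

theorem pbr3_add_right (A : ℕ → ℕ) (x y y' : G2Idx → ZMod 3) :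
    pbr3 A x (y + y') = pbr3 A x y + pbr3 A x y' := by
  unfold pbr3
  simp only [Pi.add_apply, add_smul, Finset.sum_add_distrib, Matrix.add_mulVec]

theorem pbr3_smul_right (A : ℕ → ℕ) (c : ZMod 3) (x y : G2Idx → ZMod 3) :
    pbr3 A x (c • y) = c • pbr3 A x y := by
  unfold pbr3
  simp only [Pi.smul_apply, smul_eq_mul, mul_smul, ← Finset.smul_sum, Matrix.smul_mulVec]

/-- The product as a bilinear map. -/
def pbrL (A : ℕ → ℕ) : (G2Idx → ZMod 3) →ₗ[ZMod 3] (G2Idx → ZMod 3) →ₗ[ZMod 3] (G2Idx → ZMod 3) :=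
  LinearMap.mk₂ (ZMod 3) (pbr3 A) (pbr3_add_left A) (pbr3_smul_left A) (pbr3_add_right A)
    (pbr3_smul_right A)

/-- A matrix compatible with the product on basis vectors is compatible with it. -/
theorem pbr3_equivariant {A : ℕ → ℕ} (M : Matrix G2Idx G2Idx (ZMod 3))
    (h : ∀ i j : G2Idx, M *ᵥ pbr3 A (Pi.single i 1) (Pi.single j 1)
      = pbr3 A (M *ᵥ Pi.single i 1) (M *ᵥ Pi.single j 1)) (x y : G2Idx → ZMod 3) :
    M *ᵥ pbr3 A x y = pbr3 A (M *ᵥ x) (M *ᵥ y) := by
  have key : (pbrL A).compr₂ (Matrix.mulVecLin M)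
      = (pbrL A).compl₁₂ (Matrix.mulVecLin M) (Matrix.mulVecLin M) := by
    apply LinearMap.ext_basis (Pi.basisFun (ZMod 3) G2Idx) (Pi.basisFun (ZMod 3) G2Idx)
    intro i j
    simp only [LinearMap.compr₂_apply, LinearMap.compl₁₂_apply, Pi.basisFun_apply,
      Matrix.mulVecLin_apply, pbrL, LinearMap.mk₂_apply]
    exact h i j
  have h2 := LinearMap.congr_fun₂ key x y
  simpa only [LinearMap.compr₂_apply, LinearMap.compl₁₂_apply, Matrix.mulVecLin_apply, pbrL,
    LinearMap.mk₂_apply] using h2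

/-- Test that the matrix of `G` is compatible with the product. -/
def brChk (A : ℕ → ℕ) (G : ℕ) : Bool :=
  b2All (fun i => b2All (fun j =>
    pmul (pbr A (pE i) (pE j)) G == pbr A (pmul (pE i) G) (pmul (pE j) G)) 14) 14

theorem brChk_sound {A : ℕ → ℕ} (hA : ∀ j < 14, PCan 196 2 (A j)) {G : ℕ} (hG : PCan 196 2 G)
    (h : brChk A G = true) (x y : G2Idx → ZMod 3) :
    pmat G *ᵥ pbr3 A x y = pbr3 A (pmat G *ᵥ x) (pmat G *ᵥ y) := by
  apply pbr3_equivariant
  intro i j
  have h1 := b2All_iff.mp (b2All_iff.mp h _ (g2ix_lt i)) _ (g2ix_lt j)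
  rw [beq_iff_eq] at h1
  have ci := PCan_pE (g2ix_lt i)
  have cj := PCan_pE (g2ix_lt j)
  rw [← pvec_pE i, ← pvec_pE j, ← pvec_pbr hA ci cj, pmat_mulVec (PCan_pbr _ _ _) hG (by norm_num),
    pmat_mulVec ci hG (by norm_num), pmat_mulVec cj hG (by norm_num),
    ← pvec_pbr hA (PCan_pmul _ _) (PCan_pmul _ _), h1]

/-! ### Straight-line programs and spanning sets -/

/-- Entries `i ≥ nb` of `T` are products of earlier entries. -/
def slpChk (A T pi pj : ℕ → ℕ) (nb N : ℕ) : Bool :=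
  b2All (fun i => decide (i < nb) ||
    (decide (pi i < i) && decide (pj i < i) && T i == pbr A (T (pi i)) (T (pj i)))) N

theorem slp_fix {A T pi pj : ℕ → ℕ} {nb N : ℕ} (hA : ∀ j < 14, PCan 196 2 (A j))
    (hchk : slpChk A T pi pj nb N = true) (M : Matrix G2Idx G2Idx (ZMod 3))
    (hM : ∀ x y, M *ᵥ pbr3 A x y = pbr3 A (M *ᵥ x) (M *ᵥ y))
    (hbase : ∀ i < nb, PCan 14 2 (T i) ∧ M *ᵥ pvec (T i) = pvec (T i)) :
    ∀ i < N, PCan 14 2 (T i) ∧ M *ᵥ pvec (T i) = pvec (T i) := by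
  intro i
  induction i using Nat.strong_induction_on with
  | _ i ih =>
    intro hi
    by_cases hb : i < nb
    · exact hbase i hb
    · have h1 := b2All_iff.mp hchk i hi
      simp only [hb, decide_false, Bool.false_or, Bool.and_eq_true, decide_eq_true_eq,
        beq_iff_eq] at h1
      obtain ⟨⟨h2, h3⟩, h4⟩ := h1
      obtain ⟨c1, f1⟩ := ih _ h2 (by omega)
      obtain ⟨c2, f2⟩ := ih _ h3 (by omega)
      rw [h4]
      exact ⟨PCan_pbr _ _ _, by rw [pvec_pbr hA c1 c2, hM, f1, f2]⟩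

/-- The columns of the matrix of `Ms` are a basis. -/
def spanChk (Ms Lam : ℕ) : Bool :=
  pcanM Ms && pcanM Lam && b2All (fun i => pmul (pmul (pE i) Lam) Ms == pE i) 14

theorem span_one {Ms Lam : ℕ} (h : spanChk Ms Lam = true) (M : Matrix G2Idx G2Idx (ZMod 3))
    (hfix : ∀ i < 14, M *ᵥ pvec (pmul (pE i) Ms) = pvec (pmul (pE i) Ms)) : M = 1 := by
  simp only [spanChk, Bool.and_eq_true] at h
  obtain ⟨⟨h1, h2⟩, h3⟩ := h
  have hMs := pcanM_iff.mp h1
  have hLam := pcanM_iff.mp h2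
  have hSL : pmat Ms * pmat Lam = 1 := by
    apply mat_ext_pE
    intro i hi
    have h4 := b2All_iff.mp h3 i hi
    rw [beq_iff_eq] at h4
    rw [← Matrix.mulVec_mulVec, pmat_mulVec (PCan_pE hi) hLam (by norm_num),
      pmat_mulVec (PCan_pmul _ _) hMs (by norm_num), h4, Matrix.one_mulVec]
  have hMS : M * pmat Ms = pmat Ms := by
    apply mat_ext_pE
    intro i hi
    rw [← Matrix.mulVec_mulVec, pmat_mulVec (PCan_pE hi) hMs (by norm_num)]
    exact hfix i hi
  calc M = M * (pmat Ms * pmat Lam) := by rw [hSL, mul_one]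
    _ = (M * pmat Ms) * pmat Lam := by rw [mul_assoc]
    _ = 1 := by rw [hMS, hSL]

/-! ### Iterated products and words -/

/-- `Z ^ i` applied to a vector code. -/
def pit (Z : ℕ) : ℕ → ℕ → ℕ
  | 0, a => a
  | i + 1, a => pmul (pit Z i a) Z

theorem pvec_pit {Z : ℕ} (hZ : PCan 196 2 Z) {a : ℕ} (ha : PCan 14 2 a) (i : ℕ) :
    PCan 14 2 (pit Z i a) ∧ pvec (pit Z i a) = (pmat Z ^ i) *ᵥ pvec a := by
  induction i with
  | zero => exact ⟨ha, by rw [pow_zero, Matrix.one_mulVec]; rfl⟩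
  | succ i ih =>
    refine ⟨PCan_pmul _ _, ?_⟩
    have h1 : pit Z (i + 1) a = pmul (pit Z i a) Z := rfl
    rw [h1, ← pmat_mulVec ih.1 hZ (by norm_num), ih.2, Matrix.mulVec_mulVec, ← pow_succ']

/-- A product of matrices `X γ` applied to a vector code. -/
def pwact (X : ℕ → ℕ) : List ℕ → ℕ → ℕ
  | [], a => a
  | γ :: w, a => pmul (pwact X w a) (X γ)

theorem pvec_pwact {X : ℕ → ℕ} {w : List ℕ} (hX : ∀ γ ∈ w, PCan 196 2 (X γ)) {a : ℕ}
    (ha : PCan 14 2 a) :
    PCan 14 2 (pwact X w a) ∧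
      pvec (pwact X w a) = (w.map fun γ => pmat (X γ)).prod *ᵥ pvec a := by
  induction w with
  | nil => exact ⟨ha, by rw [List.map_nil, List.prod_nil, Matrix.one_mulVec]; rfl⟩
  | cons γ w ih =>
    have ih' := ih (fun δ hδ => hX δ (List.mem_cons_of_mem _ hδ))
    refine ⟨PCan_pmul _ _, ?_⟩
    have h1 : pwact X (γ :: w) a = pmul (pwact X w a) (X γ) := rfl
    rw [h1, ← pmat_mulVec ih'.1 (hX γ List.mem_cons_self) (by norm_num), ih'.2,
      Matrix.mulVec_mulVec, List.map_cons, List.prod_cons]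

theorem word_mat {X : ℕ → ℕ} {w : List ℕ} (hX : ∀ γ ∈ w, PCan 196 2 (X γ)) {Z : ℕ}
    (hZ : PCan 196 2 Z) (h : b2All (fun i => pwact X w (pE i) == pmul (pE i) Z) 14 = true) :
    (w.map fun γ => pmat (X γ)).prod = pmat Z := by
  apply mat_ext_pE
  intro i hi
  have h1 := b2All_iff.mp h i hi
  rw [beq_iff_eq] at h1
  rw [← (pvec_pwact hX (PCan_pE hi)).2, h1, pmat_mulVec (PCan_pE hi) hZ (by norm_num)]

/-! ### Counting and injectivity -/

/-- The number of `k < n` with `f k`. -/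
def pcnt (f : ℕ → Bool) : ℕ → ℕ
  | 0 => 0
  | k + 1 => Nat.add (pcnt f k) (f k).toNat

theorem pcnt_eq (f : ℕ → Bool) (n : ℕ) :
    pcnt f n = ((Finset.range n).filter (fun k => f k = true)).card := by
  induction n with
  | zero => rfl
  | succ n ih =>
    have h1 : pcnt f (n + 1) = pcnt f n + (f n).toNat := rfl
    rw [h1, ih, Finset.range_add_one, Finset.filter_insert]
    cases hf : f n
    · simp
    · rw [if_pos rfl, Finset.card_insert_of_notMem (by simp)]
      rfl

theorem card_subtype_pcnt (f : ℕ → Bool) (n : ℕ) :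
    Nat.card {k : ℕ // k < n ∧ f k = true} = pcnt f n := by
  rw [pcnt_eq]
  exact Nat.subtype_card _ (by simp)

theorem inj_of_strict {f : ℕ → ℕ} {n : ℕ}
    (h : b2All (fun k => decide (f k < f (k + 1))) (n - 1) = true) {i j : ℕ} (hi : i < n)
    (hj : j < n) (e : f i = f j) : i = j := by
  have hstep : ∀ k, k + 1 < n → f k < f (k + 1) := by
    intro k hk
    have := b2All_iff.mp h k (by omega)
    exact of_decide_eq_true this
  have mono : ∀ b a, a < b → b < n → f a < f b := by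
    intro b
    induction b with
    | zero => intro a ha; omega
    | succ b ih =>
      intro a ha hb
      rcases Nat.lt_succ_iff_lt_or_eq.mp ha with h1 | rfl
      · exact lt_trans (ih a h1 (by omega)) (hstep b hb)
      · exact hstep a hb
  rcases Nat.lt_trichotomy i j with h1 | h1 | h1
  · exact absurd e (ne_of_lt (mono j i h1 hj))
  · exact h1
  · exact absurd e.symm (ne_of_lt (mono i j h1 hi))

end Cfsg.Agent.Lib.Helper36
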