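import Mathlib
import Cfsg.Agent.Lib.Helper36.G2ThreeData

/-!
Kernel-checked facts about the data of `G2ThreeData`: the generators and the product.
-/

set_option autoImplicit false
set_option maxRecDepth 100000

namespace Cfsg.Agent.Lib.Helper36

open Cfsg.Lie

theorem g3_ad_can : b2All (fun j => pcanM (g3Ad j)) 14 = true := by
  decide +kernel

theorem g3_xt_can : b2All (fun γ => pcanM (g3Xt γ)) 36 = true := by
  decide +kernel

theorem g3_x_chk : ∀ r : Fin chevG2.nroots, ∀ c : ZMod 3, ∀ row col : G2Idx,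
    (chevZ chevG2 r (c.val : ℤ) row col -
      ((pdg (g3Xt (3 * r.val + c.val)) (13 + 14 * g2ix row - g2ix col) : ℕ) : ℤ)) % 3 = 0 := by
  decide +kernel

theorem g3_inv_chk : b2All (fun γ => decide (g3Iv γ < 36) &&
    b2All (fun i => pmul (pmul (pE i) (g3Xt (g3Iv γ))) (g3Xt γ) == pE i) 14) 36 = true := by
  decide +kernel

theorem g3_br_chk_a : b2All (fun γ => brChk g3Ad (g3Xt (0 + γ))) 12 = true := by
  decide +kernel

theorem g3_br_chk_b : b2All (fun γ => brChk g3Ad (g3Xt (12 + γ))) 12 = true := by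
  decide +kernel

theorem g3_br_chk_c : b2All (fun γ => brChk g3Ad (g3Xt (24 + γ))) 12 = true := by
  decide +kernel


end Cfsg.Agent.Lib.Helper36
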