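import Mathlib
import Cfsg.Agent.Lib.Helper36.G2ThreeData

/-!
Kernel-checked facts about the data of `G2ThreeData`: the long root vectors and the stabiliser chain.
-/

set_option autoImplicit false
set_option maxRecDepth 100000

namespace Cfsg.Agent.Lib.Helper36

open Cfsg.Lie

theorem g3_om_can : b2All (fun k => pcanV (g3Om k)) 728 = true := by
  decide +kernel

theorem g3_om_lt : b2All (fun k => decide (g3Om k < g3Om (k + 1))) (728 - 1) = true := by
  decide +kernel

theorem g3_nx_chk_a : b2All (fun γ => b2All (fun k => decide (g3Nx (0 + γ) k < 728) &&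
    pmul (g3Om k) (g3Xt (0 + γ)) == g3Om (g3Nx (0 + γ) k)) 728) 12 = true := by
  decide +kernel

theorem g3_nx_chk_b : b2All (fun γ => b2All (fun k => decide (g3Nx (12 + γ) k < 728) &&
    pmul (g3Om k) (g3Xt (12 + γ)) == g3Om (g3Nx (12 + γ) k)) 728) 12 = true := by
  decide +kernel

theorem g3_nx_chk_c : b2All (fun γ => b2All (fun k => decide (g3Nx (24 + γ) k < 728) &&
    pmul (g3Om k) (g3Xt (24 + γ)) == g3Om (g3Nx (24 + γ) k)) 728) 12 = true := by
  decide +kernel

theorem g3_tree0 : b2All (fun k => k == 242 || (decide (g3Pa0 k < 728) && decide (g3Rk0 (g3Pa0 k) < g3Rk0 k) &&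
    decide (g3La0 k < 36) && g3Nx (g3La0 k) (g3Pa0 k) == k)) 728 = true := by
  decide +kernel

theorem g3_lev1 : b2All (fun k => (g3Mem1 k == 1) == g3Rel1 (g3Om k) &&
    (g3Mem1 k != 1 || k == 0 || (decide (g3Pa1 k < 728) && g3Mem1 (g3Pa1 k) == 1 &&
      decide (g3Rk1 (g3Pa1 k) < g3Rk1 k) && decide (g3La1 k < 36) &&
      g3Nx (g3La1 k) 242 == 242 && g3Nx (g3La1 k) (g3Pa1 k) == k))) 728 = true := by
  decide +kernel

theorem g3_cnt1 : pcnt (fun k => g3Mem1 k == 1) 728 = 243 := by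
  decide +kernel

theorem g3_w1 : (g3Mem1 0 == 1) = true := by
  decide +kernel

theorem g3_lev2 : b2All (fun k => (g3Mem2 k == 1) == g3Rel2 (g3Om k) &&
    (g3Mem2 k != 1 || k == 36 || (decide (g3Pa2 k < 728) && g3Mem2 (g3Pa2 k) == 1 &&
      decide (g3Rk2 (g3Pa2 k) < g3Rk2 k) && decide (g3La2 k < 36) &&
      g3Nx (g3La2 k) 242 == 242 && g3Nx (g3La2 k) 0 == 0 &&
      g3Nx (g3La2 k) (g3Pa2 k) == k))) 728 = true := by
  decide +kernel

theorem g3_cnt2 : pcnt (fun k => g3Mem2 k == 1) 728 = 24 := by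
  decide +kernel

theorem g3_c2 : (g3Mem2 36 == 1) = true := by
  decide +kernel

theorem g3_lev3 : b2All (fun k => !(g3Rel3 (g3Om k)) || k == 11) 728 = true := by
  decide +kernel

theorem g3_d3 : g3Rel3 (g3Om 11) = true := by
  decide +kernel

theorem g3_slpA : slpChk g3Ad g3TA g3PiA g3PjA 3 13 = true := by
  decide +kernel

theorem g3_baseA : (g3TA 0 == g3Om 242 && g3TA 1 == g3Om 0 && g3TA 2 == g3Om 36) = true := by
  decide +kernel

theorem g3_ri : b2All (fun m => decide (g3Ri m < 13)) 6 = true := by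
  decide +kernel

theorem g3_slpB : slpChk g3Ad g3TB g3PiB g3PjB 4 14 = true := by
  decide +kernel

theorem g3_baseB : (g3TB 0 == g3Om 242 && g3TB 1 == g3Om 0 && g3TB 2 == g3Om 36 && g3TB 3 == g3Om 11) = true := by
  decide +kernel

theorem g3_spanB : spanChk g3MsB g3LamB = true := by
  decide +kernel

theorem g3_spB : b2All (fun i => decide (g3SpB i < 14) && pmul (pE i) g3MsB == g3TB (g3SpB i)) 14 = true := by
  decide +kernel


end Cfsg.Agent.Lib.Helper36
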