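import Mathlib
import Cfsg.Agent.Lib.Helper36.G2ThreeData

/-!
Kernel-checked facts about the data of `G2ThreeData`: elements of order `7`, `13` and `6`.
-/

set_option autoImplicit false
set_option maxRecDepth 100000

namespace Cfsg.Agent.Lib.Helper36

open Cfsg.Lie

theorem g3_z7_can : pcanM g3Z7 = true := by
  decide +kernel

theorem g3_z7_word : b2All (fun i => pwact g3Xt [19, 7, 22, 13] (pE i) == pmul (pE i) g3Z7) 14 = true := by
  decide +kernel

theorem g3_z7_pow : b2All (fun i => pit g3Z7 7 (pE i) == pE i) 14 = true := by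
  decide +kernel

theorem g3_z7_ne : (pit g3Z7 1 (g3Om 242) != g3Om 242) = true := by
  decide +kernel

theorem g3_z7_base : b2All (fun i => g3T7 i == pit g3Z7 i (g3Om 242)) 7 = true := by
  decide +kernel

theorem g3_z7_slp : slpChk g3Ad g3T7 g3Pi7 g3Pj7 7 14 = true := by
  decide +kernel

theorem g3_z7_span : spanChk g3Ms7 g3Lam7 = true := by
  decide +kernel

theorem g3_z7_sp : b2All (fun i => decide (g3Sp7 i < 14) && pmul (pE i) g3Ms7 == g3T7 (g3Sp7 i)) 14 = true := by
  decide +kernel

theorem g3_z7_rel : g3C7 (g3Om 242) = true := by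
  decide +kernel

theorem g3_z7_tab : b2All (fun k => !(g3C7 (g3Om k)) ||
    (decide (g3Io7 k < 7) && g3Om k == pit g3Z7 (g3Io7 k) (g3Om 242))) 728 = true := by
  decide +kernel

theorem g3_z13_can : pcanM g3Z13 = true := by
  decide +kernel

theorem g3_z13_word : b2All (fun i => pwact g3Xt [31, 10, 19] (pE i) == pmul (pE i) g3Z13) 14 = true := by
  decide +kernel

theorem g3_z13_pow : b2All (fun i => pit g3Z13 13 (pE i) == pE i) 14 = true := by
  decide +kernel

theorem g3_z13_ne : (pit g3Z13 1 (g3Om 242) != g3Om 242) = true := by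
  decide +kernel

theorem g3_z13_base : b2All (fun i => g3T13 i == pit g3Z13 i (g3Om 242)) 13 = true := by
  decide +kernel

theorem g3_z13_slp : slpChk g3Ad g3T13 g3Pi13 g3Pj13 13 15 = true := by
  decide +kernel

theorem g3_z13_span : spanChk g3Ms13 g3Lam13 = true := by
  decide +kernel

theorem g3_z13_sp : b2All (fun i => decide (g3Sp13 i < 15) && pmul (pE i) g3Ms13 == g3T13 (g3Sp13 i)) 14 = true := by
  decide +kernel

theorem g3_z13_rel : g3C13 (g3Om 242) = true := by
  decide +kernel

theorem g3_z13_tab : b2All (fun k => !(g3C13 (g3Om k)) ||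
    (decide (g3Io13 k < 13) && g3Om k == pit g3Z13 (g3Io13 k) (g3Om 242))) 728 = true := by
  decide +kernel

theorem g3_x6_can : pcanM g3X6 = true := by
  decide +kernel

theorem g3_x6_word : b2All (fun i => pwact g3Xt [19, 19, 16] (pE i) == pmul (pE i) g3X6) 14 = true := by
  decide +kernel

theorem g3_x6_pow : b2All (fun i => pit g3X6 6 (pE i) == pE i) 14 = true := by
  decide +kernel

theorem g3_x6_two : (pit g3X6 2 (pE 1) != pE 1) = true := by
  decide +kernel

theorem g3_x6_three : (pit g3X6 3 (pE 2) != pE 2) = true := by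
  decide +kernel


end Cfsg.Agent.Lib.Helper36
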