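import Mathlib
import Cfsg.Agent.Lib.Helper36.G2ThreeChkA
import Cfsg.Agent.Lib.Helper36.G2ThreeChkB
import Cfsg.Agent.Lib.Helper36.G2ThreeChkC

/-!
The adjoint Chevalley group of type `G₂` over `ZMod 3` has order `4245696 = 728 · 243 · 24`.

The group preserves a bilinear product on the `14`-dimensional module and permutes `728` vectors
(the long root vectors).  A stabiliser chain `v, w, c` has orbits of sizes `728`, `243`, `24`,
each cut out among the `728` vectors by relations in the product; an element fixing `v, w, c`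
fixes a fourth vector `d` and with it a basis.
-/

set_option autoImplicit false

namespace Cfsg.Agent.Lib.Helper36

open Cfsg.Lie Matrix

/-- The ambient general linear group. -/
abbrev G3GL : Type := GL G2Idx (ZMod 3)

/-- The module. -/
abbrev G3Vec : Type := G2Idx → ZMod 3

/-- `G₂(3)`. -/
abbrev g3Grp : Subgroup G3GL := chevG2.group (ZMod 3)

/-- The product on the module. -/
def g3br (x y : G3Vec) : G3Vec := pbr3 g3Ad x y

/-! ### The data -/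

theorem g3_ad_pcan {j : ℕ} (hj : j < 14) : PCan 196 2 (g3Ad j) :=
  pcanM_iff.mp (b2All_iff.mp g3_ad_can j hj)

theorem g3_xt_pcan {γ : ℕ} (h : γ < 36) : PCan 196 2 (g3Xt γ) :=
  pcanM_iff.mp (b2All_iff.mp g3_xt_can γ h)

theorem g3_om_pcan {k : ℕ} (h : k < 728) : PCan 14 2 (g3Om k) :=
  pcanV_iff.mp (b2All_iff.mp g3_om_can k h)

theorem g3_om_inj {k k' : ℕ} (hk : k < 728) (hk' : k' < 728)
    (h : pvec (g3Om k) = pvec (g3Om k')) : k = k' :=
  inj_of_strict g3_om_lt hk hk' (pvec_inj (g3_om_pcan hk) (g3_om_pcan hk') h)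

theorem g3_pvec_br {a b : ℕ} (ha : PCan 14 2 a) (hb : PCan 14 2 b) :
    pvec (pbr g3Ad a b) = g3br (pvec a) (pvec b) :=
  pvec_pbr (fun _ hj => g3_ad_pcan hj) ha hb

theorem g3_pvec_br2 {a b c : ℕ} (ha : PCan 14 2 a) (hb : PCan 14 2 b) (hc : PCan 14 2 c) :
    pvec (pbr g3Ad a (pbr g3Ad b c)) = g3br (pvec a) (g3br (pvec b) (pvec c)) := by
  rw [g3_pvec_br ha (PCan_pbr _ _ _), g3_pvec_br hb hc]

theorem pv_eq_iff {a b : ℕ} (ha : PCan 14 2 a) (hb : PCan 14 2 b) : a = b ↔ pvec a = pvec b :=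
  ⟨congrArg pvec, pvec_inj ha hb⟩

theorem g3_xMat (r : Fin chevG2.nroots) (c : ZMod 3) :
    chevG2.xMat (ZMod 3) r c = pmat (g3Xt (3 * r.val + c.val)) := by
  ext row col
  have hc := xMat_eq_castZ chevG2 (ZMod 3) r (c.val : ℤ) row col
  rw [Int.cast_natCast, ZMod.natCast_zmod_val] at hc
  rw [hc]
  have hk := g3_x_chk r c row col
  have e : pmat (g3Xt (3 * r.val + c.val)) row col
      = (((pdg (g3Xt (3 * r.val + c.val)) (13 + 14 * g2ix row - g2ix col) : ℕ) : ℤ) : ZMod 3) :=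
    (Int.cast_natCast _).symm
  rw [e]
  symm
  rw [ZMod.intCast_eq_intCast_iff_dvd_sub]
  exact Int.dvd_of_emod_eq_zero hk

theorem g3_br_chk {γ : ℕ} (h : γ < 36) : brChk g3Ad (g3Xt γ) = true := by
  rcases Nat.lt_or_ge γ 12 with h1 | h1
  · have := b2All_iff.mp g3_br_chk_a γ h1
    rwa [Nat.zero_add] at this
  · rcases Nat.lt_or_ge γ 24 with h2 | h2
    · have := b2All_iff.mp g3_br_chk_b (γ - 12) (by omega)
      rwa [show 12 + (γ - 12) = γ by omega] at this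
    · have := b2All_iff.mp g3_br_chk_c (γ - 24) (by omega)
      rwa [show 24 + (γ - 24) = γ by omega] at this

theorem g3_nx {γ k : ℕ} (h : γ < 36) (hk : k < 728) :
    g3Nx γ k < 728 ∧ pmul (g3Om k) (g3Xt γ) = g3Om (g3Nx γ k) := by
  have key : (decide (g3Nx γ k < 728) && pmul (g3Om k) (g3Xt γ) == g3Om (g3Nx γ k)) = true := by
    rcases Nat.lt_or_ge γ 12 with h1 | h1
    · have := b2All_iff.mp (b2All_iff.mp g3_nx_chk_a γ h1) k hk
      rwa [Nat.zero_add] at this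
    · rcases Nat.lt_or_ge γ 24 with h2 | h2
      · have := b2All_iff.mp (b2All_iff.mp g3_nx_chk_b (γ - 12) (by omega)) k hk
        rwa [show 12 + (γ - 12) = γ by omega] at this
      · have := b2All_iff.mp (b2All_iff.mp g3_nx_chk_c (γ - 24) (by omega)) k hk
        rwa [show 24 + (γ - 24) = γ by omega] at this
  rw [Bool.and_eq_true, decide_eq_true_eq, beq_iff_eq] at key
  exact key

theorem g3_gen_act {γ k : ℕ} (h : γ < 36) (hk : k < 728) :
    g3Nx γ k < 728 ∧ pmat (g3Xt γ) *ᵥ pvec (g3Om k) = pvec (g3Om (g3Nx γ k)) := by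
  obtain ⟨h1, h2⟩ := g3_nx h hk
  exact ⟨h1, by rw [pmat_mulVec (g3_om_pcan hk) (g3_xt_pcan h) (by norm_num), h2]⟩

/-! ### Generators and invariants -/

theorem g3_mem_of_xMat (g : G3GL)
    (hg : ∃ (r : Fin chevG2.nroots) (t : ZMod 3),
      (g : Matrix G2Idx G2Idx (ZMod 3)) = chevG2.xMat (ZMod 3) r t) : g ∈ g3Grp :=
  Subgroup.subset_closure hg

theorem g3_gen_mem {γ : ℕ} (h : γ < 36) :
    ∃ g : G3GL, g ∈ g3Grp ∧ (g : Matrix G2Idx G2Idx (ZMod 3)) = pmat (g3Xt γ) := by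
  have h0 := b2All_iff.mp g3_inv_chk γ h
  rw [Bool.and_eq_true, decide_eq_true_eq] at h0
  obtain ⟨hiv, h1⟩ := h0
  have hAB : pmat (g3Xt γ) * pmat (g3Xt (g3Iv γ)) = 1 := by
    apply mat_ext_pE
    intro i hi
    have h2 := b2All_iff.mp h1 i hi
    rw [beq_iff_eq] at h2
    rw [← Matrix.mulVec_mulVec, pmat_mulVec (PCan_pE hi) (g3_xt_pcan hiv) (by norm_num),
      pmat_mulVec (PCan_pmul _ _) (g3_xt_pcan h) (by norm_num), h2, Matrix.one_mulVec]
  have hBA : pmat (g3Xt (g3Iv γ)) * pmat (g3Xt γ) = 1 := _root_.mul_eq_one_comm.mp hAB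
  refine ⟨⟨pmat (g3Xt γ), pmat (g3Xt (g3Iv γ)), hAB, hBA⟩, ?_, rfl⟩
  apply g3_mem_of_xMat
  have h12 : chevG2.nroots = 12 := rfl
  refine ⟨⟨γ / 3, by omega⟩, ((γ % 3 : ℕ) : ZMod 3), ?_⟩
  rw [g3_xMat]
  show pmat (g3Xt γ) = pmat (g3Xt (3 * (γ / 3) + ((γ % 3 : ℕ) : ZMod 3).val))
  rw [ZMod.val_natCast, Nat.mod_mod, Nat.div_add_mod]

theorem g3_word_mem (w : List ℕ) (hw : ∀ γ ∈ w, γ < 36) :
    ∃ z : G3GL, z ∈ g3Grp ∧
      (z : Matrix G2Idx G2Idx (ZMod 3)) = (w.map fun γ => pmat (g3Xt γ)).prod := by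
  induction w with
  | nil => exact ⟨1, Subgroup.one_mem _, by rw [List.map_nil, List.prod_nil, Units.val_one]⟩
  | cons γ w ih =>
    obtain ⟨x, hx, ex⟩ := g3_gen_mem (hw γ List.mem_cons_self)
    obtain ⟨z, hz, ez⟩ := ih (fun δ hδ => hw δ (List.mem_cons_of_mem _ hδ))
    exact ⟨x * z, Subgroup.mul_mem _ hx hz, by
      rw [Units.val_mul, ex, ez, List.map_cons, List.prod_cons]⟩

/-- In a finite group, a property of the generators stable under products holds on the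
subgroup they generate. -/
theorem closure_mul_induction {Γ : Type*} [Group Γ] [Finite Γ] {S : Set Γ} {p : Γ → Prop}
    (h1 : p 1) (hmul : ∀ a b, p a → p b → p (a * b)) (hS : ∀ s ∈ S, p s) :
    ∀ g ∈ Subgroup.closure S, p g := by
  intro g hg
  have hpow : ∀ (a : Γ), p a → ∀ n : ℕ, p (a ^ n) := by
    intro a ha n
    induction n with
    | zero => rw [pow_zero]; exact h1
    | succ n ih => rw [pow_succ]; exact hmul _ _ ih ha
  induction hg using Subgroup.closure_induction with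
  | mem x hx => exact hS x hx
  | one => exact h1
  | mul x y _ _ hx hy => exact hmul x y hx hy
  | inv x _ hx =>
    have h2 : x⁻¹ = x ^ (orderOf x - 1) := by
      rw [inv_eq_iff_mul_eq_one, ← pow_succ', Nat.sub_add_cancel (orderOf_pos x),
        pow_orderOf_eq_one]
    rw [h2]
    exact hpow x hx _

/-- The invariants: the product and the set of `728` vectors. -/
def G3Inv (g : G3GL) : Prop :=
  (∀ x y : G3Vec, g.1 *ᵥ g3br x y = g3br (g.1 *ᵥ x) (g.1 *ᵥ y)) ∧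
    ∀ k < 728, ∃ k' < 728, g.1 *ᵥ pvec (g3Om k) = pvec (g3Om k')

theorem g3_inv : ∀ g ∈ g3Grp, G3Inv g := by
  have h := closure_mul_induction (Γ := G3GL)
    (S := {g : G3GL | ∃ (r : Fin chevG2.nroots) (t : ZMod 3),
      (g : Matrix G2Idx G2Idx (ZMod 3)) = chevG2.xMat (ZMod 3) r t}) (p := G3Inv) ?_ ?_ ?_
  · exact h
  · exact ⟨fun x y => by simp only [Units.val_one, Matrix.one_mulVec],
      fun k hk => ⟨k, hk, by rw [Units.val_one, Matrix.one_mulVec]⟩⟩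
  · intro a b ha hb
    refine ⟨fun x y => ?_, fun k hk => ?_⟩
    · simp only [Units.val_mul, ← Matrix.mulVec_mulVec, hb.1, ha.1]
    · obtain ⟨k1, hk1, e1⟩ := hb.2 k hk
      obtain ⟨k2, hk2, e2⟩ := ha.2 k1 hk1
      exact ⟨k2, hk2, by rw [Units.val_mul, ← Matrix.mulVec_mulVec, e1, e2]⟩
  · rintro s ⟨r, t, hs⟩
    have h12 : chevG2.nroots = 12 := rfl
    have hγ : 3 * r.val + t.val < 36 := by
      have h1 := r.isLt
      have h2 := ZMod.val_lt t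
      omega
    have hs' : (s : Matrix G2Idx G2Idx (ZMod 3)) = pmat (g3Xt (3 * r.val + t.val)) := by
      rw [hs, g3_xMat]
    refine ⟨fun x y => ?_, fun k hk => ?_⟩
    · rw [hs']
      exact brChk_sound (fun _ hj => g3_ad_pcan hj) (g3_xt_pcan hγ) (g3_br_chk hγ) x y
    · rw [hs']
      exact ⟨_, (g3_gen_act hγ hk).1, (g3_gen_act hγ hk).2⟩

/-! ### Stabilisers -/

/-- The elements of `H` fixing `b`. -/
def g3Fix (H : Subgroup G3GL) (b : G3Vec) : Subgroup G3GL where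
  carrier := {g | g ∈ H ∧ g.1 *ᵥ b = b}
  mul_mem' := by
    rintro a c ⟨ha, ha'⟩ ⟨hc, hc'⟩
    exact ⟨H.mul_mem ha hc, by rw [Units.val_mul, ← Matrix.mulVec_mulVec, hc', ha']⟩
  one_mem' := ⟨H.one_mem, by rw [Units.val_one, Matrix.one_mulVec]⟩
  inv_mem' := by
    rintro a ⟨ha, ha'⟩
    refine ⟨H.inv_mem ha, ?_⟩
    conv_lhs => rw [← ha']
    rw [Matrix.mulVec_mulVec, ← Units.val_mul, _root_.inv_mul_cancel, Units.val_one,
      Matrix.one_mulVec]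

theorem mem_g3Fix {H : Subgroup G3GL} {b : G3Vec} {g : G3GL} :
    g ∈ g3Fix H b ↔ g ∈ H ∧ g.1 *ᵥ b = b := Iff.rfl

/-- Orbit–stabiliser, for an orbit listed without repetition. -/
theorem card_step {H K : Subgroup G3GL} {b : G3Vec} {ι : Type*} (pts : ι → G3Vec)
    (hinj : Function.Injective pts) (hK : ∀ g, g ∈ K ↔ g ∈ H ∧ g.1 *ᵥ b = b)
    (hin : ∀ i, ∃ h ∈ H, h.1 *ᵥ b = pts i) (hout : ∀ g ∈ H, ∃ i, g.1 *ᵥ b = pts i) :
    Nat.card H = Nat.card ι * Nat.card K := by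
  have : Nonempty ι := ⟨(hout 1 H.one_mem).choose⟩
  choose h hH hb using hin
  choose! idx hidx using hout
  have act_mul : ∀ (a c : G3GL) (x : G3Vec), (a * c).1 *ᵥ x = a.1 *ᵥ (c.1 *ᵥ x) := by
    intro a c x
    rw [Units.val_mul, Matrix.mulVec_mulVec]
  have act_inv : ∀ (a : G3GL) (x : G3Vec), (a⁻¹).1 *ᵥ (a.1 *ᵥ x) = x := by
    intro a x
    rw [← act_mul, _root_.inv_mul_cancel, Units.val_one, Matrix.one_mulVec]
  let e : H ≃ ι × K :=
    { toFun := fun g => (idx g.1, ⟨(h (idx g.1))⁻¹ * g.1,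
        (hK _).mpr ⟨H.mul_mem (H.inv_mem (hH _)) g.2, by
          rw [act_mul, hidx g.1 g.2, ← hb, act_inv]⟩⟩)
      invFun := fun p => ⟨h p.1 * p.2.1, H.mul_mem (hH _) ((hK _).mp p.2.2).1⟩
      left_inv := fun g => by
        apply Subtype.ext
        show h (idx g.1) * ((h (idx g.1))⁻¹ * g.1) = g.1
        rw [_root_.mul_inv_cancel_left]
      right_inv := fun p => by
        have h1 : idx (h p.1 * p.2.1) = p.1 := by
          apply hinj
          rw [← hidx _ (H.mul_mem (hH _) ((hK _).mp p.2.2).1), act_mul, ((hK _).mp p.2.2).2, hb]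
        apply Prod.ext
        · exact h1
        · apply Subtype.ext
          show (h (idx (h p.1 * p.2.1)))⁻¹ * (h p.1 * p.2.1) = p.2.1
          rw [h1, _root_.inv_mul_cancel_left] }
  rw [Nat.card_congr e, Nat.card_prod]

/-- The stabiliser of `v`. -/
abbrev g3H1 : Subgroup G3GL := g3Fix g3Grp (pvec (g3Om 242))

/-- The stabiliser of `v, w`. -/
abbrev g3H2 : Subgroup G3GL := g3Fix g3H1 (pvec (g3Om 0))

/-- The stabiliser of `v, w, c`. -/
abbrev g3H3 : Subgroup G3GL := g3Fix g3H2 (pvec (g3Om 36))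

/-! ### Level 0 -/

theorem g3_reach0 (k : ℕ) (hk : k < 728) :
    ∃ g ∈ g3Grp, g.1 *ᵥ pvec (g3Om 242) = pvec (g3Om k) := by
  have key : ∀ n k, k < 728 → g3Rk0 k = n →
      ∃ g ∈ g3Grp, g.1 *ᵥ pvec (g3Om 242) = pvec (g3Om k) := by
    intro n
    induction n using Nat.strong_induction_on with
    | _ n ih =>
      intro k hk hn
      have h1 := b2All_iff.mp g3_tree0 k hk
      simp only [Bool.or_eq_true, beq_iff_eq, Bool.and_eq_true, decide_eq_true_eq] at h1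
      rcases h1 with rfl | ⟨⟨⟨hp, hr⟩, hl⟩, hx⟩
      · exact ⟨1, Subgroup.one_mem _, by rw [Units.val_one, Matrix.one_mulVec]⟩
      · obtain ⟨g', hg', e'⟩ := ih (g3Rk0 (g3Pa0 k)) (by omega) (g3Pa0 k) hp rfl
        obtain ⟨x, hx1, hx2⟩ := g3_gen_mem hl
        refine ⟨x * g', Subgroup.mul_mem _ hx1 hg', ?_⟩
        rw [Units.val_mul, ← Matrix.mulVec_mulVec, e', hx2, (g3_gen_act hl hp).2, hx]
  exact key _ k hk rfl

theorem g3_card0 : Nat.card g3Grp = 728 * Nat.card g3H1 := by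
  have h := card_step (H := g3Grp) (K := g3H1) (b := pvec (g3Om 242)) (ι := {k : ℕ // k < 728})
    (fun i => pvec (g3Om i.1)) (fun i j hij => Subtype.ext (g3_om_inj i.2 j.2 hij))
    (fun g => Iff.rfl) (fun i => g3_reach0 i.1 i.2)
    (fun g hg => by
      obtain ⟨k', hk', e⟩ := (g3_inv g hg).2 242 (by norm_num)
      exact ⟨⟨k', hk'⟩, e⟩)
  rw [h, Nat.subtype_card (Finset.range 728) (by simp), Finset.card_range]


/-! ### Level 1 -/

theorem g3_lev1_at {k : ℕ} (hk : k < 728) :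
    (g3Mem1 k = 1 ↔ g3Rel1 (g3Om k) = true) ∧
      (g3Mem1 k = 1 → k = 0 ∨ (g3Pa1 k < 728 ∧ g3Mem1 (g3Pa1 k) = 1 ∧
        g3Rk1 (g3Pa1 k) < g3Rk1 k ∧ g3La1 k < 36 ∧ g3Nx (g3La1 k) 242 = 242 ∧
        g3Nx (g3La1 k) (g3Pa1 k) = k)) := by
  have h1 := b2All_iff.mp g3_lev1 k hk
  rw [Bool.and_eq_true, beq_iff_eq] at h1
  refine ⟨by rw [← h1.1, beq_iff_eq], fun hm => ?_⟩
  have h2 := h1.2
  simp only [Bool.or_eq_true, bne_iff_ne, ne_eq, beq_iff_eq, Bool.and_eq_true,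
    decide_eq_true_eq] at h2
  rcases h2 with (h2 | h2) | h2
  · exact absurd hm h2
  · exact Or.inl h2
  · obtain ⟨⟨⟨⟨⟨a, b⟩, c⟩, d⟩, e⟩, f⟩ := h2
    exact Or.inr ⟨a, b, c, d, e, f⟩

theorem g3_reach1 (k : ℕ) (hk : k < 728) (hm : g3Mem1 k = 1) :
    ∃ g ∈ g3H1, g.1 *ᵥ pvec (g3Om 0) = pvec (g3Om k) := by
  have key : ∀ n k, k < 728 → g3Mem1 k = 1 → g3Rk1 k = n →
      ∃ g ∈ g3H1, g.1 *ᵥ pvec (g3Om 0) = pvec (g3Om k) := by
    intro n
    induction n using Nat.strong_induction_on with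
    | _ n ih =>
      intro k hk hm hn
      rcases (g3_lev1_at hk).2 hm with rfl | ⟨hp, hpm, hr, hl, hv, hx⟩
      · exact ⟨1, Subgroup.one_mem _, by rw [Units.val_one, Matrix.one_mulVec]⟩
      · obtain ⟨g', hg', e'⟩ := ih (g3Rk1 (g3Pa1 k)) (by omega) (g3Pa1 k) hp hpm rfl
        obtain ⟨x, hx1, hx2⟩ := g3_gen_mem hl
        have hx3 : x ∈ g3H1 :=
          mem_g3Fix.mpr ⟨hx1, by rw [hx2, (g3_gen_act hl (by norm_num)).2, hv]⟩
        refine ⟨x * g', Subgroup.mul_mem _ hx3 hg', ?_⟩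
        rw [Units.val_mul, ← Matrix.mulVec_mulVec, e', hx2, (g3_gen_act hl hp).2, hx]
  exact key _ k hk hm rfl

theorem g3_rel1_iff {u : ℕ} (hu : PCan 14 2 u) :
    g3Rel1 u = true ↔
      g3br (pvec (g3Om 242)) (g3br (pvec (g3Om 242)) (pvec u)) = pvec (g3Om 242) := by
  have cV := g3_om_pcan (k := 242) (by norm_num)
  unfold g3Rel1
  rw [beq_iff_eq, pv_eq_iff (PCan_pbr _ _ _) cV, g3_pvec_br2 cV cV hu]

theorem g3_out1 (g : G3GL) (hg : g ∈ g3H1) :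
    ∃ k, (k < 728 ∧ (g3Mem1 k == 1) = true) ∧ g.1 *ᵥ pvec (g3Om 0) = pvec (g3Om k) := by
  obtain ⟨hG, hv⟩ := mem_g3Fix.mp hg
  obtain ⟨k, hk, e⟩ := (g3_inv g hG).2 0 (by norm_num)
  refine ⟨k, ⟨hk, ?_⟩, e⟩
  rw [beq_iff_eq, (g3_lev1_at hk).1, g3_rel1_iff (g3_om_pcan hk)]
  have hw : g3Rel1 (g3Om 0) = true :=
    (g3_lev1_at (by norm_num)).1.mp (by have := g3_w1; rwa [beq_iff_eq] at this)
  have e1 := (g3_rel1_iff (g3_om_pcan (by norm_num))).mp hw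
  have e2 := congrArg (fun x => g.1 *ᵥ x) e1
  simp only [(g3_inv g hG).1, hv, e] at e2
  exact e2

theorem g3_card1 : Nat.card g3H1 = 243 * Nat.card g3H2 := by
  have h := card_step (H := g3H1) (K := g3H2) (b := pvec (g3Om 0))
    (ι := {k : ℕ // k < 728 ∧ (g3Mem1 k == 1) = true})
    (fun i => pvec (g3Om i.1)) (fun i j hij => Subtype.ext (g3_om_inj i.2.1 j.2.1 hij))
    (fun g => Iff.rfl) (fun i => g3_reach1 i.1 i.2.1 (by have := i.2.2; rwa [beq_iff_eq] at this))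
    (fun g hg => by
      obtain ⟨k, hk, e⟩ := g3_out1 g hg
      exact ⟨⟨k, hk⟩, e⟩)
  have hc : Nat.card {k : ℕ // k < 728 ∧ (g3Mem1 k == 1) = true} = 243 :=
    (card_subtype_pcnt (fun k => g3Mem1 k == 1) 728).trans g3_cnt1
  rw [h, hc]

/-! ### Level 2 -/

theorem g3_lev2_at {k : ℕ} (hk : k < 728) :
    (g3Mem2 k = 1 ↔ g3Rel2 (g3Om k) = true) ∧
      (g3Mem2 k = 1 → k = 36 ∨ (g3Pa2 k < 728 ∧ g3Mem2 (g3Pa2 k) = 1 ∧
        g3Rk2 (g3Pa2 k) < g3Rk2 k ∧ g3La2 k < 36 ∧ g3Nx (g3La2 k) 242 = 242 ∧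
        g3Nx (g3La2 k) 0 = 0 ∧ g3Nx (g3La2 k) (g3Pa2 k) = k)) := by
  have h1 := b2All_iff.mp g3_lev2 k hk
  rw [Bool.and_eq_true, beq_iff_eq] at h1
  refine ⟨by rw [← h1.1, beq_iff_eq], fun hm => ?_⟩
  have h2 := h1.2
  simp only [Bool.or_eq_true, bne_iff_ne, ne_eq, beq_iff_eq, Bool.and_eq_true,
    decide_eq_true_eq] at h2
  rcases h2 with (h2 | h2) | h2
  · exact absurd hm h2
  · exact Or.inl h2
  · obtain ⟨⟨⟨⟨⟨⟨a, b⟩, c⟩, d⟩, e⟩, f⟩, i⟩ := h2
    exact Or.inr ⟨a, b, c, d, e, f, i⟩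

theorem g3_reach2 (k : ℕ) (hk : k < 728) (hm : g3Mem2 k = 1) :
    ∃ g ∈ g3H2, g.1 *ᵥ pvec (g3Om 36) = pvec (g3Om k) := by
  have key : ∀ n k, k < 728 → g3Mem2 k = 1 → g3Rk2 k = n →
      ∃ g ∈ g3H2, g.1 *ᵥ pvec (g3Om 36) = pvec (g3Om k) := by
    intro n
    induction n using Nat.strong_induction_on with
    | _ n ih =>
      intro k hk hm hn
      rcases (g3_lev2_at hk).2 hm with rfl | ⟨hp, hpm, hr, hl, hv, hw, hx⟩
      · exact ⟨1, Subgroup.one_mem _, by rw [Units.val_one, Matrix.one_mulVec]⟩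
      · obtain ⟨g', hg', e'⟩ := ih (g3Rk2 (g3Pa2 k)) (by omega) (g3Pa2 k) hp hpm rfl
        obtain ⟨x, hx1, hx2⟩ := g3_gen_mem hl
        have hx3 : x ∈ g3H2 :=
          mem_g3Fix.mpr ⟨mem_g3Fix.mpr ⟨hx1, by rw [hx2, (g3_gen_act hl (by norm_num)).2, hv]⟩,
            by rw [hx2, (g3_gen_act hl (by norm_num)).2, hw]⟩
        refine ⟨x * g', Subgroup.mul_mem _ hx3 hg', ?_⟩
        rw [Units.val_mul, ← Matrix.mulVec_mulVec, e', hx2, (g3_gen_act hl hp).2, hx]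
  exact key _ k hk hm rfl

theorem g3_rel2_iff {u : ℕ} (hu : PCan 14 2 u) :
    g3Rel2 u = true ↔
      (g3br (pvec (g3Om 242)) (g3br (pvec (g3Om 242)) (pvec u)) = 0 ∧
        g3br (pvec (g3Om 0)) (g3br (pvec (g3Om 0)) (pvec u)) = 0) ∧
      g3br (pvec (g3Om 242)) (g3br (pvec (g3Om 0)) (g3br (pvec (g3Om 0))
        (g3br (pvec (g3Om 242)) (pvec u)))) = g3br (pvec (g3Om 242)) (pvec (g3Om 0)) := by
  have cV := g3_om_pcan (k := 242) (by norm_num)
  have cW := g3_om_pcan (k := 0) (by norm_num)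
  unfold g3Rel2
  rw [Bool.and_eq_true, Bool.and_eq_true, beq_iff_eq, beq_iff_eq, beq_iff_eq,
    pv_eq_iff (PCan_pbr _ _ _) (PCan_zero _ _), pv_eq_iff (PCan_pbr _ _ _) (PCan_zero _ _),
    pv_eq_iff (PCan_pbr _ _ _) (PCan_pbr _ _ _), g3_pvec_br2 cV cV hu, g3_pvec_br2 cW cW hu,
    pvec_zero, g3_pvec_br2 cV cW (PCan_pbr _ _ _), g3_pvec_br2 cW cV hu, g3_pvec_br cV cW]

theorem g3_out2 (g : G3GL) (hg : g ∈ g3H2) :
    ∃ k, (k < 728 ∧ (g3Mem2 k == 1) = true) ∧ g.1 *ᵥ pvec (g3Om 36) = pvec (g3Om k) := by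
  obtain ⟨hg1, hw⟩ := mem_g3Fix.mp hg
  obtain ⟨hG, hv⟩ := mem_g3Fix.mp hg1
  obtain ⟨k, hk, e⟩ := (g3_inv g hG).2 36 (by norm_num)
  refine ⟨k, ⟨hk, ?_⟩, e⟩
  rw [beq_iff_eq, (g3_lev2_at hk).1, g3_rel2_iff (g3_om_pcan hk)]
  have hc : g3Rel2 (g3Om 36) = true :=
    (g3_lev2_at (by norm_num)).1.mp (by have := g3_c2; rwa [beq_iff_eq] at this)
  obtain ⟨⟨e1, e2⟩, e3⟩ := (g3_rel2_iff (g3_om_pcan (by norm_num))).mp hc
  have f1 := congrArg (fun x => g.1 *ᵥ x) e1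
  have f2 := congrArg (fun x => g.1 *ᵥ x) e2
  have f3 := congrArg (fun x => g.1 *ᵥ x) e3
  simp only [(g3_inv g hG).1, hv, hw, e, Matrix.mulVec_zero] at f1 f2 f3
  exact ⟨⟨f1, f2⟩, f3⟩

theorem g3_card2 : Nat.card g3H2 = 24 * Nat.card g3H3 := by
  have h := card_step (H := g3H2) (K := g3H3) (b := pvec (g3Om 36))
    (ι := {k : ℕ // k < 728 ∧ (g3Mem2 k == 1) = true})
    (fun i => pvec (g3Om i.1)) (fun i j hij => Subtype.ext (g3_om_inj i.2.1 j.2.1 hij))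
    (fun g => Iff.rfl) (fun i => g3_reach2 i.1 i.2.1 (by have := i.2.2; rwa [beq_iff_eq] at this))
    (fun g hg => by
      obtain ⟨k, hk, e⟩ := g3_out2 g hg
      exact ⟨⟨k, hk⟩, e⟩)
  have hc : Nat.card {k : ℕ // k < 728 ∧ (g3Mem2 k == 1) = true} = 24 :=
    (card_subtype_pcnt (fun k => g3Mem2 k == 1) 728).trans g3_cnt2
  rw [h, hc]

/-! ### Level 3: the stabiliser of `v, w, c` is trivial -/

theorem g3_H3_trivial (g : G3GL) (hg : g ∈ g3H3) : g = 1 := by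
  obtain ⟨hg2, hc⟩ := mem_g3Fix.mp hg
  obtain ⟨hg1, hw⟩ := mem_g3Fix.mp hg2
  obtain ⟨hG, hv⟩ := mem_g3Fix.mp hg1
  have hbr := (g3_inv g hG).1
  have cV := g3_om_pcan (k := 242) (by norm_num)
  have cW := g3_om_pcan (k := 0) (by norm_num)
  have cC := g3_om_pcan (k := 36) (by norm_num)
  have cD := g3_om_pcan (k := 11) (by norm_num)
  have hA := g3_baseA
  simp only [Bool.and_eq_true, beq_iff_eq] at hA
  obtain ⟨⟨a0, a1⟩, a2⟩ := hA
  have fixA : ∀ i < 13, PCan 14 2 (g3TA i) ∧ g.1 *ᵥ pvec (g3TA i) = pvec (g3TA i) := by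
    refine slp_fix (fun _ hj => g3_ad_pcan hj) g3_slpA g.1 hbr ?_
    intro i hi
    interval_cases i
    · rw [a0]; exact ⟨cV, hv⟩
    · rw [a1]; exact ⟨cW, hw⟩
    · rw [a2]; exact ⟨cC, hc⟩
  obtain ⟨k, hk, e⟩ := (g3_inv g hG).2 11 (by norm_num)
  have ck := g3_om_pcan hk
  have hrel : g3Rel3 (g3Om k) = true := by
    have hd := g3_d3
    unfold g3Rel3 at hd ⊢
    rw [b2All_iff] at hd ⊢
    intro m hm
    have hd1 := hd m hm
    have hri : g3Ri m < 13 := of_decide_eq_true (b2All_iff.mp g3_ri m hm)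
    obtain ⟨ct, ft⟩ := fixA _ hri
    rw [beq_iff_eq] at hd1 ⊢
    cases hl : (g3Rl m == 1)
    · rw [hl, cond_false] at hd1
      rw [cond_false]
      have e1 := (pv_eq_iff (PCan_pbr _ _ _) (PCan_zero _ _)).mp hd1
      rw [g3_pvec_br2 cD cD ct, pvec_zero] at e1
      have e2 := congrArg (fun x => g.1 *ᵥ x) e1
      simp only [hbr, e, ft, Matrix.mulVec_zero] at e2
      rw [pv_eq_iff (PCan_pbr _ _ _) (PCan_zero _ _), g3_pvec_br2 ck ck ct, pvec_zero]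
      exact e2
    · rw [hl, cond_true] at hd1
      rw [cond_true]
      have e1 := (pv_eq_iff (PCan_pbr _ _ _) cD).mp hd1
      rw [g3_pvec_br2 cD cD ct] at e1
      have e2 := congrArg (fun x => g.1 *ᵥ x) e1
      simp only [hbr, e, ft] at e2
      rw [pv_eq_iff (PCan_pbr _ _ _) ck, g3_pvec_br2 ck ck ct]
      exact e2
  have hk11 : k = 11 := by
    have h1 := b2All_iff.mp g3_lev3 k hk
    rw [hrel] at h1
    simpa using h1
  subst hk11
  have hB := g3_baseB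
  simp only [Bool.and_eq_true, beq_iff_eq] at hB
  obtain ⟨⟨⟨b0, b1⟩, b2⟩, b3⟩ := hB
  have fixB : ∀ i < 14, PCan 14 2 (g3TB i) ∧ g.1 *ᵥ pvec (g3TB i) = pvec (g3TB i) := by
    refine slp_fix (fun _ hj => g3_ad_pcan hj) g3_slpB g.1 hbr ?_
    intro i hi
    interval_cases i
    · rw [b0]; exact ⟨cV, hv⟩
    · rw [b1]; exact ⟨cW, hw⟩
    · rw [b2]; exact ⟨cC, hc⟩
    · rw [b3]; exact ⟨cD, e⟩
  apply Units.ext
  rw [Units.val_one]
  apply span_one g3_spanB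
  intro i hi
  have h5 := b2All_iff.mp g3_spB i hi
  rw [Bool.and_eq_true, decide_eq_true_eq, beq_iff_eq] at h5
  rw [h5.2]
  exact (fixB _ h5.1).2

/-- The order of `G₂(3)`. -/
theorem g3_card : Nat.card g3Grp = 4245696 := by
  have h3 : Nat.card g3H3 = 1 := by
    have : g3H3 = ⊥ := (Subgroup.eq_bot_iff_forall _).mpr fun g hg => g3_H3_trivial g hg
    rw [this, Subgroup.card_bot]
  rw [g3_card0, g3_card1, g3_card2, h3]

end Cfsg.Agent.Lib.Helper36
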