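import Mathlib
import Cfsg.Agent.Lib.Helper36.G2Three

/-!
Element orders in `G₂(3)`: the centraliser of an element of order `7` (of order `13`) has
exponent `7` (`13`), there is an element of order `6`, and the order of an element is a product
of two distinct primes only if it is `6`.

An element `g` commuting with `z` is determined by the image `g v` of one vector: the vectors
`zⁱ v` generate the module under the product.  Two relations between `v, z v, z² v, …` cut the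
possible images among the `728` vectors down to the `zⁱ v`.
-/

set_option autoImplicit false

namespace Cfsg.Agent.Lib.Helper36

open Cfsg.Lie Matrix

/-! ### Centralisers -/

theorem g3_cent_generic (Z n : ℕ) (w : List ℕ) (T Pi Pj Sp Io : ℕ → ℕ) (Ms Lam N : ℕ)
    (Crel : ℕ → Bool) (hcan : pcanM Z = true) (hw : ∀ γ ∈ w, γ < 36)
    (hword : b2All (fun i => pwact g3Xt w (pE i) == pmul (pE i) Z) 14 = true)
    (hpow : b2All (fun i => pit Z n (pE i) == pE i) 14 = true)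
    (hne : (pit Z 1 (g3Om 242) != g3Om 242) = true)
    (hbase : b2All (fun i => T i == pit Z i (g3Om 242)) n = true)
    (hslp : slpChk g3Ad T Pi Pj n N = true) (hspan : spanChk Ms Lam = true)
    (hsp : b2All (fun i => decide (Sp i < N) && pmul (pE i) Ms == T (Sp i)) 14 = true)
    (htab : b2All (fun k => !(Crel (g3Om k)) ||
      (decide (Io k < n) && g3Om k == pit Z (Io k) (g3Om 242))) 728 = true)
    (hrel : ∀ g : G3GL, g ∈ g3Grp →
      (∀ (i : ℕ) (x : G3Vec), g.1 *ᵥ ((pmat Z ^ i) *ᵥ x) = (pmat Z ^ i) *ᵥ (g.1 *ᵥ x)) →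
      ∀ k < 728, g.1 *ᵥ pvec (g3Om 242) = pvec (g3Om k) → Crel (g3Om k) = true) :
    ∃ z ∈ g3Grp, z ≠ 1 ∧ z ^ n = 1 ∧ ∀ g ∈ g3Grp, g * z = z * g → g ^ n = 1 := by
  have hZ := pcanM_iff.mp hcan
  obtain ⟨z, hzG, hz⟩ := g3_word_mem w hw
  have hzZ : (z : Matrix G2Idx G2Idx (ZMod 3)) = pmat Z :=
    hz.trans (word_mat (fun γ hγ => g3_xt_pcan (hw γ hγ)) hZ hword)
  have cV := g3_om_pcan (k := 242) (by norm_num)
  have hzpow : ∀ i : ℕ, ((z ^ i : G3GL) : Matrix G2Idx G2Idx (ZMod 3)) = pmat Z ^ i := fun i => by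
    rw [Units.val_pow_eq_pow_val, hzZ]
  have hzn : z ^ n = 1 := by
    apply Units.ext
    rw [hzpow, Units.val_one]
    apply mat_ext_pE
    intro i hi
    have h1 := b2All_iff.mp hpow i hi
    rw [beq_iff_eq] at h1
    rw [← (pvec_pit hZ (PCan_pE hi) n).2, h1, Matrix.one_mulVec]
  have hz1 : z ≠ 1 := by
    intro h
    have h1 := (pvec_pit hZ cV 1).2
    rw [← hzpow, pow_one, h, Units.val_one, Matrix.one_mulVec] at h1
    have h2 := pvec_inj (pvec_pit hZ cV 1).1 cV h1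
    rw [bne_iff_ne] at hne
    exact hne h2
  have comm_pow : ∀ g : G3GL, g * z = z * g → ∀ (i : ℕ) (x : G3Vec),
      g.1 *ᵥ ((pmat Z ^ i) *ᵥ x) = (pmat Z ^ i) *ᵥ (g.1 *ᵥ x) := by
    intro g hcomm i x
    have h1 : g * z ^ i = z ^ i * g := (Commute.pow_right (show Commute g z from hcomm) i).eq
    have h2 := congrArg Units.val h1
    rw [Units.val_mul, Units.val_mul, hzpow] at h2
    rw [Matrix.mulVec_mulVec, Matrix.mulVec_mulVec, h2]
  refine ⟨z, hzG, hz1, hzn, ?_⟩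
  intro g hg hcomm
  obtain ⟨k, hk, e⟩ := (g3_inv g hg).2 242 (by norm_num)
  have hC := hrel g hg (comm_pow g hcomm) k hk e
  have ht := b2All_iff.mp htab k hk
  rw [hC] at ht
  simp only [Bool.not_true, Bool.false_or, Bool.and_eq_true, decide_eq_true_eq, beq_iff_eq] at ht
  obtain ⟨hio, hom⟩ := ht
  have e2 : g.1 *ᵥ pvec (g3Om 242) = (z ^ (Io k)).1 *ᵥ pvec (g3Om 242) := by
    rw [e, hom, (pvec_pit hZ cV (Io k)).2, hzpow]
  have hhG : (z ^ (Io k))⁻¹ * g ∈ g3Grp :=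
    Subgroup.mul_mem _ (Subgroup.inv_mem _ (Subgroup.pow_mem _ hzG _)) hg
  have hhv : ((z ^ (Io k))⁻¹ * g).1 *ᵥ pvec (g3Om 242) = pvec (g3Om 242) := by
    rw [Units.val_mul, ← Matrix.mulVec_mulVec, e2, Matrix.mulVec_mulVec, ← Units.val_mul,
      _root_.inv_mul_cancel, Units.val_one, Matrix.one_mulVec]
  have hhc : (z ^ (Io k))⁻¹ * g * z = z * ((z ^ (Io k))⁻¹ * g) := by
    have c1 : Commute ((z ^ (Io k))⁻¹) z := ((Commute.refl z).pow_left (Io k)).inv_left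
    exact (c1.mul_left (show Commute g z from hcomm)).eq
  have hh : (z ^ (Io k))⁻¹ * g = 1 := by
    apply Units.ext
    rw [Units.val_one]
    apply span_one hspan
    have fix := slp_fix (fun _ hj => g3_ad_pcan hj) hslp ((z ^ (Io k))⁻¹ * g).1
      (g3_inv _ hhG).1 (fun j hj => by
        have hb := b2All_iff.mp hbase j hj
        rw [beq_iff_eq] at hb
        rw [hb]
        exact ⟨(pvec_pit hZ cV j).1, by rw [(pvec_pit hZ cV j).2, comm_pow _ hhc, hhv]⟩)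
    intro j hj
    have h5 := b2All_iff.mp hsp j hj
    rw [Bool.and_eq_true, decide_eq_true_eq, beq_iff_eq] at h5
    rw [h5.2]
    exact (fix _ h5.1).2
  rw [← inv_mul_eq_one.mp hh, ← pow_mul, mul_comm, pow_mul, hzn, one_pow]

theorem g3_c7_iff {u : ℕ} (hu : PCan 14 2 u) :
    g3C7 u = true ↔
      g3br (pvec u) (g3br ((pmat g3Z7 ^ 2) *ᵥ pvec u) ((pmat g3Z7 ^ 4) *ᵥ pvec u))
          = g3br (pvec u) ((pmat g3Z7 ^ 2) *ᵥ pvec u) ∧
        g3br (pvec u) (g3br (pvec u) ((pmat g3Z7 ^ 1) *ᵥ pvec u)) = 0 := by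
  have hZ := pcanM_iff.mp g3_z7_can
  have p1 := pvec_pit hZ hu 1
  have p2 := pvec_pit hZ hu 2
  have p4 := pvec_pit hZ hu 4
  unfold g3C7
  rw [Bool.and_eq_true, beq_iff_eq, beq_iff_eq,
    pv_eq_iff (PCan_pbr _ _ _) (PCan_pbr _ _ _), pv_eq_iff (PCan_pbr _ _ _) (PCan_zero _ _),
    g3_pvec_br2 hu p2.1 p4.1, g3_pvec_br hu p2.1, g3_pvec_br2 hu hu p1.1, pvec_zero,
    p1.2, p2.2, p4.2]

theorem g3_rel7 (g : G3GL) (hg : g ∈ g3Grp)
    (hc : ∀ (i : ℕ) (x : G3Vec), g.1 *ᵥ ((pmat g3Z7 ^ i) *ᵥ x) = (pmat g3Z7 ^ i) *ᵥ (g.1 *ᵥ x))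
    (k : ℕ) (hk : k < 728) (e : g.1 *ᵥ pvec (g3Om 242) = pvec (g3Om k)) :
    g3C7 (g3Om k) = true := by
  rw [g3_c7_iff (g3_om_pcan hk)]
  obtain ⟨e1, e2⟩ := (g3_c7_iff (g3_om_pcan (by norm_num))).mp g3_z7_rel
  have f1 := congrArg (fun x => g.1 *ᵥ x) e1
  have f2 := congrArg (fun x => g.1 *ᵥ x) e2
  simp only [(g3_inv g hg).1, hc, e, Matrix.mulVec_zero] at f1 f2
  exact ⟨f1, f2⟩

/-- The centraliser of an element of order `7`. -/
theorem g3_cent7 : ∃ z ∈ g3Grp, z ≠ 1 ∧ z ^ 7 = 1 ∧ ∀ g ∈ g3Grp, g * z = z * g → g ^ 7 = 1 :=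
  g3_cent_generic g3Z7 7 [19, 7, 22, 13] g3T7 g3Pi7 g3Pj7 g3Sp7 g3Io7 g3Ms7 g3Lam7 14 g3C7
    g3_z7_can (by decide) g3_z7_word g3_z7_pow g3_z7_ne g3_z7_base g3_z7_slp g3_z7_span g3_z7_sp
    g3_z7_tab g3_rel7

theorem g3_c13_iff {u : ℕ} (hu : PCan 14 2 u) :
    g3C13 u = true ↔
      g3br (pvec u) (g3br ((pmat g3Z13 ^ 7) *ᵥ pvec u) ((pmat g3Z13 ^ 12) *ᵥ pvec u))
          = g3br (pvec u) (g3br ((pmat g3Z13 ^ 5) *ᵥ pvec u) ((pmat g3Z13 ^ 3) *ᵥ pvec u)) ∧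
        g3br (pvec u) (g3br ((pmat g3Z13 ^ 1) *ᵥ pvec u) ((pmat g3Z13 ^ 2) *ᵥ pvec u))
          = g3br (pvec u) ((pmat g3Z13 ^ 1) *ᵥ pvec u) := by
  have hZ := pcanM_iff.mp g3_z13_can
  have p1 := pvec_pit hZ hu 1
  have p2 := pvec_pit hZ hu 2
  have p3 := pvec_pit hZ hu 3
  have p5 := pvec_pit hZ hu 5
  have p7 := pvec_pit hZ hu 7
  have p12 := pvec_pit hZ hu 12
  unfold g3C13
  rw [Bool.and_eq_true, beq_iff_eq, beq_iff_eq,
    pv_eq_iff (PCan_pbr _ _ _) (PCan_pbr _ _ _), pv_eq_iff (PCan_pbr _ _ _) (PCan_pbr _ _ _),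
    g3_pvec_br2 hu p7.1 p12.1, g3_pvec_br2 hu p5.1 p3.1, g3_pvec_br2 hu p1.1 p2.1,
    g3_pvec_br hu p1.1, p1.2, p2.2, p3.2, p5.2, p7.2, p12.2]

theorem g3_rel13 (g : G3GL) (hg : g ∈ g3Grp)
    (hc : ∀ (i : ℕ) (x : G3Vec),
      g.1 *ᵥ ((pmat g3Z13 ^ i) *ᵥ x) = (pmat g3Z13 ^ i) *ᵥ (g.1 *ᵥ x))
    (k : ℕ) (hk : k < 728) (e : g.1 *ᵥ pvec (g3Om 242) = pvec (g3Om k)) :
    g3C13 (g3Om k) = true := by
  rw [g3_c13_iff (g3_om_pcan hk)]
  obtain ⟨e1, e2⟩ := (g3_c13_iff (g3_om_pcan (by norm_num))).mp g3_z13_rel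
  have f1 := congrArg (fun x => g.1 *ᵥ x) e1
  have f2 := congrArg (fun x => g.1 *ᵥ x) e2
  simp only [(g3_inv g hg).1, hc, e] at f1 f2
  exact ⟨f1, f2⟩

/-- The centraliser of an element of order `13`. -/
theorem g3_cent13 :
    ∃ z ∈ g3Grp, z ≠ 1 ∧ z ^ 13 = 1 ∧ ∀ g ∈ g3Grp, g * z = z * g → g ^ 13 = 1 :=
  g3_cent_generic g3Z13 13 [31, 10, 19] g3T13 g3Pi13 g3Pj13 g3Sp13 g3Io13 g3Ms13 g3Lam13 15 g3C13
    g3_z13_can (by decide) g3_z13_word g3_z13_pow g3_z13_ne g3_z13_base g3_z13_slp g3_z13_span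
    g3_z13_sp g3_z13_tab g3_rel13

/-! ### An element of order `6` -/

theorem g3_order6 : ∃ x ∈ g3Grp, orderOf x = 6 := by
  have hX := pcanM_iff.mp g3_x6_can
  have hw : ∀ γ ∈ [19, 19, 16], γ < 36 := by decide
  obtain ⟨x, hxG, hx⟩ := g3_word_mem [19, 19, 16] hw
  have hxX : (x : Matrix G2Idx G2Idx (ZMod 3)) = pmat g3X6 :=
    hx.trans (word_mat (fun γ hγ => g3_xt_pcan (hw γ hγ)) hX g3_x6_word)
  have hpow : ∀ i : ℕ, ((x ^ i : G3GL) : Matrix G2Idx G2Idx (ZMod 3)) = pmat g3X6 ^ i :=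
    fun i => by rw [Units.val_pow_eq_pow_val, hxX]
  have h6 : x ^ 6 = 1 := by
    apply Units.ext
    rw [hpow, Units.val_one]
    apply mat_ext_pE
    intro i hi
    have h1 := b2All_iff.mp g3_x6_pow i hi
    rw [beq_iff_eq] at h1
    rw [← (pvec_pit hX (PCan_pE hi) 6).2, h1, Matrix.one_mulVec]
  have h2 : x ^ 2 ≠ 1 := by
    intro h
    have c1 := PCan_pE (i := 1) (by norm_num)
    have h1 := (pvec_pit hX c1 2).2
    rw [← hpow, h, Units.val_one, Matrix.one_mulVec] at h1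
    have h3 := pvec_inj (pvec_pit hX c1 2).1 c1 h1
    have h4 := g3_x6_two
    rw [bne_iff_ne] at h4
    exact h4 h3
  have h3 : x ^ 3 ≠ 1 := by
    intro h
    have c1 := PCan_pE (i := 2) (by norm_num)
    have h1 := (pvec_pit hX c1 3).2
    rw [← hpow, h, Units.val_one, Matrix.one_mulVec] at h1
    have h3 := pvec_inj (pvec_pit hX c1 3).1 c1 h1
    have h4 := g3_x6_three
    rw [bne_iff_ne] at h4
    exact h4 h3
  refine ⟨x, hxG, orderOf_eq_of_pow_and_pow_div_prime (by norm_num) h6 ?_⟩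
  intro p hp hpd
  rcases (Nat.Prime.dvd_mul hp).mp (show p ∣ 2 * 3 from hpd) with h | h
  · have h5 := (Nat.prime_dvd_prime_iff_eq hp Nat.prime_two).mp h
    subst h5
    exact h3
  · have h5 := (Nat.prime_dvd_prime_iff_eq hp Nat.prime_three).mp h
    subst h5
    exact h2

/-! ### Sylow subgroups of prime order -/

/-- If `p` divides the order of a finite group exactly once, an element of order divisible by
`p` has a conjugate commuting with a given element of order `p`. -/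
theorem sylow_conj_commute {Γ : Type*} [Group Γ] [Finite Γ] {p : ℕ} (hp : p.Prime)
    (hcard : ¬ p ^ 2 ∣ Nat.card Γ) (z : Γ) (hz : orderOf z = p) (x : Γ) (hx : p ∣ orderOf x) :
    ∃ g : Γ, Commute (g * x * g⁻¹) z := by
  have : Fact p.Prime := ⟨hp⟩
  have hy : orderOf (x ^ (orderOf x / p)) = p :=
    orderOf_pow_orderOf_div (orderOf_pos x).ne' hx
  have hP : IsPGroup p (Subgroup.zpowers (x ^ (orderOf x / p))) :=
    IsPGroup.of_card (n := 1) (by rw [Nat.card_zpowers, hy, pow_one])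
  have hQ : IsPGroup p (Subgroup.zpowers z) :=
    IsPGroup.of_card (n := 1) (by rw [Nat.card_zpowers, hz, pow_one])
  obtain ⟨S1, h1⟩ := hP.exists_le_sylow
  obtain ⟨S2, h2⟩ := hQ.exists_le_sylow
  have hfac : (Nat.card Γ).factorization p = 1 := by
    have hne : Nat.card Γ ≠ 0 := Nat.card_pos.ne'
    have h3 : p ∣ Nat.card Γ := hz ▸ orderOf_dvd_natCard z
    have h4 : 1 ≤ (Nat.card Γ).factorization p := (hp.dvd_iff_one_le_factorization hne).mp h3
    have h5 : ¬ 2 ≤ (Nat.card Γ).factorization p :=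
      fun h => hcard ((hp.pow_dvd_iff_le_factorization hne).mpr h)
    omega
  have hS : ∀ S : Sylow p Γ, Nat.card S = p := fun S => by
    rw [Sylow.card_eq_multiplicity, hfac, pow_one]
  have e1 : Subgroup.zpowers (x ^ (orderOf x / p)) = S1 :=
    Subgroup.eq_of_le_of_card_ge h1 (by rw [hS, Nat.card_zpowers, hy])
  have e2 : Subgroup.zpowers z = S2 :=
    Subgroup.eq_of_le_of_card_ge h2 (by rw [hS, Nat.card_zpowers, hz])
  obtain ⟨g, hg⟩ := MulAction.exists_smul_eq Γ S1 S2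
  have hz2 : z ∈ (S2 : Subgroup Γ) := by
    rw [← e2]
    exact Subgroup.mem_zpowers z
  rw [← hg, Sylow.coe_subgroup_smul, Subgroup.mem_pointwise_smul_iff_inv_smul_mem, ← e1] at hz2
  obtain ⟨k, hk⟩ := Subgroup.mem_zpowers_iff.mp hz2
  have hc : Commute x ((x ^ (orderOf x / p)) ^ k) :=
    ((Commute.refl x).pow_right _).zpow_right k
  have hz3 : z = g * (x ^ (orderOf x / p)) ^ k * g⁻¹ := by
    have h6 : MulAut.conj g • ((x ^ (orderOf x / p)) ^ k) = z := by rw [hk, smul_inv_smul]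
    rw [← h6]
    rfl
  refine ⟨g, ?_⟩
  rw [hz3]
  generalize (x ^ (orderOf x / p)) ^ k = Y at hc
  have h7 := hc.eq
  show g * x * g⁻¹ * (g * Y * g⁻¹) = g * Y * g⁻¹ * (g * x * g⁻¹)
  calc g * x * g⁻¹ * (g * Y * g⁻¹) = g * (x * Y) * g⁻¹ := by group
    _ = g * (Y * x) * g⁻¹ := by rw [h7]
    _ = g * Y * g⁻¹ * (g * x * g⁻¹) := by group

theorem not_mul_primes_dvd_prime {r s q : ℕ} (hr : r.Prime) (hs : s.Prime) (hq : q.Prime) :
    ¬ r * s ∣ q := by
  intro h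
  have h1 : r = q := (Nat.prime_dvd_prime_iff_eq hr hq).mp (Dvd.dvd.trans (Dvd.intro _ rfl) h)
  have h2 : s = q := (Nat.prime_dvd_prime_iff_eq hs hq).mp (Dvd.dvd.trans (Dvd.intro_left _ rfl) h)
  subst h1
  subst h2
  have h3 := Nat.le_of_dvd hr.pos h
  nlinarith [hr.two_le]

/-! ### The prime graph -/

theorem g3_prime_dvd {q : ℕ} (hq : q.Prime) (hd : q ∣ 4245696) :
    q = 2 ∨ q = 3 ∨ q = 7 ∨ q = 13 := by
  have h0 : (4245696 : ℕ) = 2 ^ 6 * 3 ^ 6 * 7 * 13 := by norm_num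
  rw [h0] at hd
  rcases (Nat.Prime.dvd_mul hq).mp hd with h | h
  · rcases (Nat.Prime.dvd_mul hq).mp h with h | h
    · rcases (Nat.Prime.dvd_mul hq).mp h with h | h
      · exact Or.inl ((Nat.prime_dvd_prime_iff_eq hq Nat.prime_two).mp (hq.dvd_of_dvd_pow h))
      · exact Or.inr (Or.inl
          ((Nat.prime_dvd_prime_iff_eq hq Nat.prime_three).mp (hq.dvd_of_dvd_pow h)))
    · exact Or.inr (Or.inr (Or.inl ((Nat.prime_dvd_prime_iff_eq hq (by norm_num)).mp h)))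
  · exact Or.inr (Or.inr (Or.inr ((Nat.prime_dvd_prime_iff_eq hq (by norm_num)).mp h)))

/-- Elements of order divisible by `p ∈ {7, 13}` have order `p`. -/
theorem g3_pow_eq_one {p : ℕ} (hp : p.Prime) (hp2 : ¬ p ^ 2 ∣ 4245696)
    (hcent : ∃ z ∈ g3Grp, z ≠ 1 ∧ z ^ p = 1 ∧ ∀ g ∈ g3Grp, g * z = z * g → g ^ p = 1)
    (x : g3Grp) (hx : p ∣ orderOf x) : x ^ p = 1 := by
  have : Fact p.Prime := ⟨hp⟩
  obtain ⟨z, hzG, hz1, hzp, hc⟩ := hcent
  have hz' : orderOf (⟨z, hzG⟩ : g3Grp) = p :=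
    orderOf_eq_prime (Subtype.ext (by simpa using hzp)) (fun h => hz1 (congrArg Subtype.val h))
  obtain ⟨g, hg⟩ := sylow_conj_commute hp (by rw [g3_card]; exact hp2) (⟨z, hzG⟩ : g3Grp) hz' x hx
  have h1 : (g * x * g⁻¹) ^ p = 1 := by
    apply Subtype.ext
    have h2 := hc (g * x * g⁻¹ : g3Grp).1 (g * x * g⁻¹ : g3Grp).2 (congrArg Subtype.val hg.eq)
    simpa using h2
  rw [conj_pow] at h1
  exact conj_eq_one_iff.mp h1

theorem g3_no_mixed (x : g3Grp) (r s : ℕ) (hr : r.Prime) (hs : s.Prime) (hrs : r ≠ s)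
    (hx : orderOf x = r * s) : r * s = 6 := by
  have hdvd : r * s ∣ 4245696 := by
    rw [← g3_card, ← hx]
    exact orderOf_dvd_natCard x
  have hr' := g3_prime_dvd hr (Dvd.dvd.trans (Dvd.intro _ rfl) hdvd)
  have hs' := g3_prime_dvd hs (Dvd.dvd.trans (Dvd.intro_left _ rfl) hdvd)
  have no7 : ¬ 7 ∣ r * s := by
    intro h
    have h1 := g3_pow_eq_one (by norm_num) (by norm_num) g3_cent7 x (by rw [hx]; exact h)
    have h2 : r * s ∣ 7 := by rw [← hx]; exact orderOf_dvd_of_pow_eq_one h1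
    exact not_mul_primes_dvd_prime hr hs (by norm_num) h2
  have no13 : ¬ 13 ∣ r * s := by
    intro h
    have h1 := g3_pow_eq_one (by norm_num) (by norm_num) g3_cent13 x (by rw [hx]; exact h)
    have h2 : r * s ∣ 13 := by rw [← hx]; exact orderOf_dvd_of_pow_eq_one h1
    exact not_mul_primes_dvd_prime hr hs (by norm_num) h2
  rcases hr' with rfl | rfl | rfl | rfl <;> rcases hs' with rfl | rfl | rfl | rfl <;>
    first
    | rfl
    | exact absurd rfl hrs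
    | exact absurd (by decide) no7
    | exact absurd (by decide) no13

/-- The prime graph of `G₂(3)`: orders that are products of two distinct primes. -/
theorem g3_prime_graph (r s : ℕ) (hr : r.Prime) (hs : s.Prime) (hrs : r ≠ s) :
    (∃ x : g3Grp, orderOf x = r * s) ↔ r * s = 6 := by
  constructor
  · rintro ⟨x, hx⟩
    exact g3_no_mixed x r s hr hs hrs hx
  · intro h
    obtain ⟨x, hxG, hx⟩ := g3_order6
    exact ⟨⟨x, hxG⟩, by rw [Subgroup.orderOf_mk, hx, h]⟩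

end Cfsg.Agent.Lib.Helper36
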