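import Mathlib
import Cfsg.Agent.Lib.Helper52.OutDefs
import Cfsg.Agent.Lib.Helper54.OrthAut
import Cfsg.Prelude.Def_LieTypeDatum

/-!
# OU piece U2: every semisimilarity pair induces an automorphism of `PΩ(Q)`
-/

set_option autoImplicit false

namespace Cfsg.Agent.Lib.Helper36.OUU2

open Cfsg.Agent.Lib.Helper52.OU Cfsg.Agent.Lib.Helper54
open Matrix

variable {ι : Type} [Fintype ι] [DecidableEq ι] {F : Type*} [Field F]

local notation "mt(" g ")" => ((g : Matrix.GeneralLinearGroup ι F) : Matrix ι ι F)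

omit [DecidableEq ι] in
/-- `σ(M) σ(v) = σ(M v)`. -/
theorem map_mulVec_comp (σ : F ≃+* F) (M : Matrix ι ι F) (v : ι → F) :
    (M.map σ) *ᵥ (fun i => σ (v i)) = fun i => σ ((M *ᵥ v) i) := by
  have := RingHom.map_mulVec (σ : F →+* F) M v
  funext i
  have h2 := this i
  simp only [RingHom.coe_coe] at h2
  rw [h2]
  rfl

theorem coe_map (σ : F ≃+* F) (s : GL ι F) :
    mt(Matrix.GeneralLinearGroup.map (σ : F →+* F) s) = (mt(s)).map σ := by
  ext i j
  rw [Matrix.GeneralLinearGroup.map_apply]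
  rfl

/-- The conjugate `g σ(s) g⁻¹` as an element of `GL`. -/
def cfwd (g : GL ι F) (σ : F ≃+* F) (s : GL ι F) : GL ι F :=
  g * Matrix.GeneralLinearGroup.map (σ : F →+* F) s * g⁻¹

/-- The inverse operation `σ⁻¹(g⁻¹ s g)`. -/
def cbwd (g : GL ι F) (σ : F ≃+* F) (s : GL ι F) : GL ι F :=
  Matrix.GeneralLinearGroup.map (σ.symm : F →+* F) (g⁻¹ * s * g)

theorem map_symm_map (σ : F ≃+* F) (s : GL ι F) :
    Matrix.GeneralLinearGroup.map (σ.symm : F →+* F)
      (Matrix.GeneralLinearGroup.map (σ : F →+* F) s) = s := by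
  apply Units.ext
  ext i j
  rw [Matrix.GeneralLinearGroup.map_apply, Matrix.GeneralLinearGroup.map_apply]
  simp

theorem map_map_symm (σ : F ≃+* F) (s : GL ι F) :
    Matrix.GeneralLinearGroup.map (σ : F →+* F)
      (Matrix.GeneralLinearGroup.map (σ.symm : F →+* F) s) = s := by
  apply Units.ext
  ext i j
  rw [Matrix.GeneralLinearGroup.map_apply, Matrix.GeneralLinearGroup.map_apply]
  simp

theorem cbwd_cfwd (g : GL ι F) (σ : F ≃+* F) (s : GL ι F) : cbwd g σ (cfwd g σ s) = s := by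
  unfold cbwd cfwd
  have : g⁻¹ * (g * Matrix.GeneralLinearGroup.map (σ : F →+* F) s * g⁻¹) * g
      = Matrix.GeneralLinearGroup.map (σ : F →+* F) s := by group
  rw [this, map_symm_map]

theorem cfwd_cbwd (g : GL ι F) (σ : F ≃+* F) (s : GL ι F) : cfwd g σ (cbwd g σ s) = s := by
  unfold cbwd cfwd
  rw [map_map_symm]
  group

theorem cfwd_mul (g : GL ι F) (σ : F ≃+* F) (s t : GL ι F) :
    cfwd g σ (s * t) = cfwd g σ s * cfwd g σ t := by
  unfold cfwd
  rw [map_mul]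
  group

theorem cfwd_mem (Q : (ι → F) → F) (g : GL ι F) (σ : F ≃+* F)
    (h : Cfsg.IsSemisimilarityPair Q g σ) (s : GL ι F) (hs : s ∈ Cfsg.isometryGroup F Q) :
    cfwd g σ s ∈ Cfsg.isometryGroup F Q := by
  obtain ⟨c, hc⟩ := h
  rw [mem_isometryGroup_iff'] at hs ⊢
  intro w
  set v : ι → F := fun i => σ.symm ((mt(g⁻¹) *ᵥ w) i) with hv
  have hw : mt(g) *ᵥ (fun i => σ (v i)) = w := by
    have : (fun i => σ (v i)) = mt(g⁻¹) *ᵥ w := by
      funext i; simp [hv]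
    rw [this, Matrix.mulVec_mulVec, ← Units.val_mul, mul_inv_cancel, Units.val_one,
      Matrix.one_mulVec]
  have e1 : mt(cfwd g σ s) *ᵥ w = mt(g) *ᵥ (fun i => σ ((mt(s) *ᵥ v) i)) := by
    unfold cfwd
    rw [Units.val_mul, Units.val_mul, ← Matrix.mulVec_mulVec, ← Matrix.mulVec_mulVec, coe_map,
      ← map_mulVec_comp]
    congr 2
    funext i; simp [hv]
  rw [e1, hc, hs, ← hc, hw]

theorem cbwd_mem (Q : (ι → F) → F) (g : GL ι F) (σ : F ≃+* F)
    (h : Cfsg.IsSemisimilarityPair Q g σ) (s : GL ι F) (hs : s ∈ Cfsg.isometryGroup F Q) :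
    cbwd g σ s ∈ Cfsg.isometryGroup F Q := by
  obtain ⟨c, hc⟩ := h
  rw [mem_isometryGroup_iff'] at hs ⊢
  intro v
  have e1 : mt(g) *ᵥ (fun i => σ ((mt(cbwd g σ s) *ᵥ v) i))
      = mt(s) *ᵥ (mt(g) *ᵥ (fun i => σ (v i))) := by
    rw [← map_mulVec_comp, ← coe_map]
    unfold cbwd
    rw [map_map_symm, Matrix.mulVec_mulVec, Matrix.mulVec_mulVec,
      ← Units.val_mul, ← Units.val_mul]
    congr 2
    group
  have e2 := hc (mt(cbwd g σ s) *ᵥ v)
  rw [e1, hs, hc] at e2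
  have e3 : σ (Q v) = σ (Q (mt(cbwd g σ s) *ᵥ v)) :=
    mul_left_cancel₀ c.ne_zero e2
  exact (σ.injective e3).symm

/-- The automorphism `s ↦ g σ(s) g⁻¹` of the isometry group. -/
def cT (Q : (ι → F) → F) (g : GL ι F) (σ : F ≃+* F)
    (h : Cfsg.IsSemisimilarityPair Q g σ) : MulAut ↥(Cfsg.isometryGroup F Q) where
  toFun s := ⟨cfwd g σ s, cfwd_mem Q g σ h s s.2⟩
  invFun s := ⟨cbwd g σ s, cbwd_mem Q g σ h s s.2⟩
  left_inv s := Subtype.ext (cbwd_cfwd g σ s)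
  right_inv s := Subtype.ext (cfwd_cbwd g σ s)
  map_mul' s t := Subtype.ext (cfwd_mul g σ s t)

theorem cT_coe (Q : (ι → F) → F) (g : GL ι F) (σ : F ≃+* F)
    (h : Cfsg.IsSemisimilarityPair Q g σ) (s : ↥(Cfsg.isometryGroup F Q)) :
    ((cT Q g σ h s : ↥(Cfsg.isometryGroup F Q)) : GL ι F) = cfwd g σ s := rfl

/-- PIECE U2: every semisimilarity pair induces an automorphism of `PΩ(Q)`. -/
theorem ind_of_pair (Q : (ι → F) → F) (g : GL ι F) (σ : F ≃+* F)
    (h : Cfsg.IsSemisimilarityPair Q g σ) : ∃ β : MulAut (Cfsg.POmega F Q), Ind Q β g σ := by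
  refine ⟨autQuot (Subgroup.center (Cfsg.Omega F Q)) (autRestrict (Cfsg.Omega F Q) (cT Q g σ h)),
    h, ?_⟩
  intro s s' hs
  rw [autQuot_mk]
  congr 1
  apply Subtype.ext
  apply Subtype.ext
  apply Units.ext
  rw [hs, autRestrict_apply, cT_coe]
  unfold cfwd
  rw [Units.val_mul, Units.val_mul, coe_map]

end Cfsg.Agent.Lib.Helper36.OUU2
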