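import Mathlib
import Cfsg.Agent.Lib.Helper6.PSLCard

/-!
`PSL₂(13)`: its order is `1092`, every element has order dividing `6`, `7` or `13`, and there is
an element of order `6`.

For `g ∈ SL₂(13)` of trace `t`, `g ^ (n + 1) = a (n + 1) • g - a n • 1` with `a 0 = 0`, `a 1 = 1`,
`a (n + 2) = t * a (n + 1) - a n`; for every `t`, one of `a 6`, `a 7`, `a 13` vanishes.
-/

set_option autoImplicit false

namespace Cfsg.Agent.Lib.Helper36

open Matrix

/-- `SL₂(13)`. -/
abbrev SL13 : Type := Matrix.SpecialLinearGroup (Fin 2) (ZMod 13)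

/-- `PSL₂(13)`. -/
abbrev PSL13 : Type := Matrix.ProjectiveSpecialLinearGroup (Fin 2) (ZMod 13)

/-- The pair `(a n, a (n + 1))`. -/
def psCheb (t : ZMod 13) : ℕ → ZMod 13 × ZMod 13
  | 0 => (0, 1)
  | n + 1 => ((psCheb t n).2, t * (psCheb t n).2 - (psCheb t n).1)

theorem ps_cheb_zero :
    ∀ t : ZMod 13, (psCheb t 6).1 = 0 ∨ (psCheb t 7).1 = 0 ∨ (psCheb t 13).1 = 0 := by
  decide +kernel

theorem ps_cayley (g : Matrix (Fin 2) (Fin 2) (ZMod 13)) (hdet : g.det = 1) :
    g * g = g.trace • g - 1 := by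
  have hd : g 0 0 * g 1 1 - g 0 1 * g 1 0 = 1 := by rw [← Matrix.det_fin_two]; exact hdet
  ext i j
  fin_cases i <;> fin_cases j
  · simp only [Matrix.mul_apply, Fin.sum_univ_two, Matrix.trace_fin_two, Matrix.sub_apply,
      Matrix.smul_apply, smul_eq_mul, Matrix.one_apply]
    simp
    linear_combination (-1 : ZMod 13) * hd
  · simp only [Matrix.mul_apply, Fin.sum_univ_two, Matrix.trace_fin_two, Matrix.sub_apply,
      Matrix.smul_apply, smul_eq_mul, Matrix.one_apply]
    simp
    ring
  · simp only [Matrix.mul_apply, Fin.sum_univ_two, Matrix.trace_fin_two, Matrix.sub_apply,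
      Matrix.smul_apply, smul_eq_mul, Matrix.one_apply]
    simp
    ring
  · simp only [Matrix.mul_apply, Fin.sum_univ_two, Matrix.trace_fin_two, Matrix.sub_apply,
      Matrix.smul_apply, smul_eq_mul, Matrix.one_apply]
    simp
    linear_combination (-1 : ZMod 13) * hd

theorem ps_pow (g : Matrix (Fin 2) (Fin 2) (ZMod 13)) (hdet : g.det = 1) (n : ℕ) :
    g ^ (n + 1) = (psCheb g.trace n).2 • g - (psCheb g.trace n).1 • (1 : Matrix (Fin 2) (Fin 2) (ZMod 13)) := by
  induction n with
  | zero => simp [psCheb]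
  | succ n ih =>
    have h1 : psCheb g.trace (n + 1)
        = ((psCheb g.trace n).2, g.trace * (psCheb g.trace n).2 - (psCheb g.trace n).1) := rfl
    rw [pow_succ, ih, h1, sub_mul, smul_mul_assoc, smul_mul_assoc, one_mul, ps_cayley g hdet]
    module

theorem ps_pow_mem_center (A : SL13) {n : ℕ} (hn : (psCheb A.1.trace (n + 1)).1 = 0) :
    A ^ (n + 1) ∈ Subgroup.center SL13 := by
  rw [Matrix.SpecialLinearGroup.mem_center_iff]
  have h1 := ps_pow A.1 A.2 n
  have h2 : (psCheb A.1.trace n).2 = 0 := hn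
  rw [h2, zero_smul, zero_sub] at h1
  refine ⟨-(psCheb A.1.trace n).1, ?_, ?_⟩
  · have hdet : (A.1 ^ (n + 1)).det = 1 := by rw [Matrix.det_pow, A.2, one_pow]
    rw [h1, Matrix.det_neg, Matrix.det_smul, Matrix.det_one] at hdet
    simp only [Fintype.card_fin] at hdet ⊢
    linear_combination hdet
  · rw [Matrix.SpecialLinearGroup.coe_pow, h1]
    ext i j
    simp only [Matrix.scalar_apply, Matrix.diagonal_apply, Matrix.one_apply, Matrix.neg_apply,
      Matrix.smul_apply, smul_eq_mul]
    split_ifs <;> simp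

/-- Every element of `PSL₂(13)` has order dividing `6`, `7` or `13`. -/
theorem psl13_pow (y : PSL13) : y ^ 6 = 1 ∨ y ^ 7 = 1 ∨ y ^ 13 = 1 := by
  obtain ⟨A, rfl⟩ := QuotientGroup.mk_surjective y
  rcases ps_cheb_zero A.1.trace with h | h | h
  · left
    rw [← QuotientGroup.mk_pow]
    exact (QuotientGroup.eq_one_iff _).mpr (ps_pow_mem_center A (n := 5) h)
  · right; left
    rw [← QuotientGroup.mk_pow]
    exact (QuotientGroup.eq_one_iff _).mpr (ps_pow_mem_center A (n := 6) h)
  · right; right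
    rw [← QuotientGroup.mk_pow]
    exact (QuotientGroup.eq_one_iff _).mpr (ps_pow_mem_center A (n := 12) h)

/-- The diagonal matrix with entries `2, 7`. -/
def ps13D : SL13 :=
  ⟨Matrix.diagonal ![2, 7], by rw [Matrix.det_diagonal, Fin.prod_univ_two]; decide⟩

theorem ps13D_pow (k : ℕ) :
    ((ps13D ^ k : SL13) : Matrix (Fin 2) (Fin 2) (ZMod 13)) = Matrix.diagonal (![2, 7] ^ k) := by
  rw [Matrix.SpecialLinearGroup.coe_pow]
  show (Matrix.diagonal ![2, 7]) ^ k = _
  rw [Matrix.diagonal_pow]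

theorem ps13D_not_center {k : ℕ} (hk : (2 : ZMod 13) ^ k ≠ 7 ^ k) :
    ps13D ^ k ∉ Subgroup.center SL13 := by
  intro h
  rw [Matrix.SpecialLinearGroup.mem_center_iff] at h
  obtain ⟨r, -, hr⟩ := h
  rw [ps13D_pow, Matrix.scalar_apply, Matrix.diagonal_eq_diagonal_iff] at hr
  have h0 := hr 0
  have h1 := hr 1
  simp only [Pi.pow_apply, Matrix.cons_val_zero, Matrix.cons_val_one] at h0 h1
  exact hk (h0.symm.trans h1)

/-- An element of order `6`. -/
theorem psl13_order6 : ∃ y : PSL13, orderOf y = 6 := by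
  refine ⟨QuotientGroup.mk ps13D, orderOf_eq_of_pow_and_pow_div_prime (by norm_num) ?_ ?_⟩
  · rw [← QuotientGroup.mk_pow]
    refine (QuotientGroup.eq_one_iff _).mpr ?_
    rw [Matrix.SpecialLinearGroup.mem_center_iff]
    refine ⟨12, by decide, ?_⟩
    rw [ps13D_pow, Matrix.scalar_apply, Matrix.diagonal_eq_diagonal_iff]
    intro i
    fin_cases i <;> decide
  · intro p hp hpd
    rcases (Nat.Prime.dvd_mul hp).mp (show p ∣ 2 * 3 from hpd) with h | h
    · have h5 := (Nat.prime_dvd_prime_iff_eq hp Nat.prime_two).mp h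
      subst h5
      rw [← QuotientGroup.mk_pow]
      intro h6
      exact ps13D_not_center (k := 3) (by decide) ((QuotientGroup.eq_one_iff _).mp h6)
    · have h5 := (Nat.prime_dvd_prime_iff_eq hp Nat.prime_three).mp h
      subst h5
      rw [← QuotientGroup.mk_pow]
      intro h6
      exact ps13D_not_center (k := 2) (by decide) ((QuotientGroup.eq_one_iff _).mp h6)

theorem ps_not_dvd_prime {r s q : ℕ} (hr : r.Prime) (hs : s.Prime) (hq : q.Prime) :
    ¬ r * s ∣ q := by
  intro h
  have h1 : r = q := (Nat.prime_dvd_prime_iff_eq hr hq).mp (Dvd.dvd.trans (Dvd.intro _ rfl) h)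
  have h2 : s = q := (Nat.prime_dvd_prime_iff_eq hs hq).mp (Dvd.dvd.trans (Dvd.intro_left _ rfl) h)
  subst h1
  subst h2
  have h3 := Nat.le_of_dvd hr.pos h
  nlinarith [hr.two_le]

/-- The prime graph of `PSL₂(13)`: orders that are products of two distinct primes. -/
theorem psl13_prime_graph (r s : ℕ) (hr : r.Prime) (hs : s.Prime) (hrs : r ≠ s) :
    (∃ y : PSL13, orderOf y = r * s) ↔ r * s = 6 := by
  constructor
  · rintro ⟨y, hy⟩
    rcases psl13_pow y with h | h | h
    · have h1 : r * s ∣ 6 := by rw [← hy]; exact orderOf_dvd_of_pow_eq_one h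
      have h2 := Nat.le_of_dvd (by norm_num) h1
      have hr2 := hr.two_le
      have hs2 := hs.two_le
      have hr3 : r ≤ 3 := by nlinarith
      have hs3 : s ≤ 3 := by nlinarith
      interval_cases r <;> interval_cases s <;> simp_all
    · have h1 : r * s ∣ 7 := by rw [← hy]; exact orderOf_dvd_of_pow_eq_one h
      exact absurd h1 (ps_not_dvd_prime hr hs (by norm_num))
    · have h1 : r * s ∣ 13 := by rw [← hy]; exact orderOf_dvd_of_pow_eq_one h
      exact absurd h1 (ps_not_dvd_prime hr hs (by norm_num))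
  · intro h
    obtain ⟨y, hy⟩ := psl13_order6
    exact ⟨y, by rw [hy, h]⟩

/-- The order of `PSL₂(q)` for a field with `13` elements. -/
theorem psl13_card {E : Type*} [Field E] [Fintype E] (hE : Fintype.card E = 13) :
    Nat.card (Matrix.ProjectiveSpecialLinearGroup (Fin 2) E) = 1092 := by
  have h := Cfsg.Agent.Lib.Helper6.card_psl hE 2 (by norm_num)
  rw [Fin.prod_univ_two] at h
  norm_num at h
  omega

end Cfsg.Agent.Lib.Helper36
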