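import Mathlib

/-!
# Project QB (helper48, S2359), piece QB-CONJ: the centralizers of an element and of a conjugate
of it are isomorphic.
-/

set_option autoImplicit false

namespace Cfsg.Agent.Lib.Helper48.QB

-- QB-CONJ
theorem cent_conj {G : Type*} [Group G] (g y : G) :
    Nonempty (Subgroup.centralizer {y} ≃* Subgroup.centralizer {g * y * g⁻¹}) := by
  refine ⟨{
    toFun := fun c => ⟨g * (c : G) * g⁻¹, ?_⟩
    invFun := fun c => ⟨g⁻¹ * (c : G) * g, ?_⟩
    left_inv := ?_
    right_inv := ?_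
    map_mul' := ?_ }⟩
  · have hc := c.2
    rw [Subgroup.mem_centralizer_iff] at hc ⊢
    intro h hh
    rw [Set.mem_singleton_iff] at hh
    subst hh
    have h1 : y * (c : G) = (c : G) * y := hc y (Set.mem_singleton y)
    calc g * y * g⁻¹ * (g * (c : G) * g⁻¹) = g * (y * (c : G)) * g⁻¹ := by group
      _ = g * ((c : G) * y) * g⁻¹ := by rw [h1]
      _ = g * (c : G) * g⁻¹ * (g * y * g⁻¹) := by group
  · have hc := c.2
    rw [Subgroup.mem_centralizer_iff] at hc ⊢
    intro h hh
    rw [Set.mem_singleton_iff] at hh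
    subst hh
    have h1 : g * h * g⁻¹ * (c : G) = (c : G) * (g * h * g⁻¹) :=
      hc (g * h * g⁻¹) (Set.mem_singleton _)
    calc h * (g⁻¹ * (c : G) * g) = g⁻¹ * (g * h * g⁻¹ * (c : G)) * g := by group
      _ = g⁻¹ * ((c : G) * (g * h * g⁻¹)) * g := by rw [h1]
      _ = g⁻¹ * (c : G) * g * h := by group
  · intro c
    apply Subtype.ext
    show g⁻¹ * (g * (c : G) * g⁻¹) * g = (c : G)
    group
  · intro c
    apply Subtype.ext
    show g * (g⁻¹ * (c : G) * g) * g⁻¹ = (c : G)
    group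
  · intro a b
    apply Subtype.ext
    show g * ((a : G) * (b : G)) * g⁻¹ = g * (a : G) * g⁻¹ * (g * (b : G) * g⁻¹)
    group

end Cfsg.Agent.Lib.Helper48.QB
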