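import Mathlib
import Cfsg.Agent.S0111
import Cfsg.Agent.Lib.Helper23.Syl

/-!
# S4274 piece B1 (helper36 for helper11): in a simple group with Sylow 2-subgroups of order 8,
every involution has a centralizer of order divisible by 8 (Thompson transfer).
-/

set_option autoImplicit false
set_option linter.unusedVariables false

namespace Cfsg.Agent.S4274T

open Subgroup Cfsg.Agent.Lib.Helper23

/-- a conjugate of an element has a centralizer of the same cardinality -/
theorem b1_card_centralizer_conj {G : Type*} [Group G] (g t : G) :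
    Nat.card (centralizer ({g * t * g⁻¹} : Set G)) = Nat.card (centralizer ({t} : Set G)) := by
  refine Nat.card_congr
    { toFun := fun x => ⟨g⁻¹ * x.1 * g, ?_⟩
      invFun := fun x => ⟨g * x.1 * g⁻¹, ?_⟩
      left_inv := fun x => by ext; simp [mul_assoc]
      right_inv := fun x => by ext; simp [mul_assoc] }
  · have hx := x.2
    rw [mem_centralizer_singleton_iff] at hx ⊢
    calc g⁻¹ * x.1 * g * t = g⁻¹ * (x.1 * (g * t * g⁻¹)) * g := by group
      _ = g⁻¹ * (g * t * g⁻¹ * x.1) * g := by rw [hx]
      _ = t * (g⁻¹ * x.1 * g) := by group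
  · have hx := x.2
    rw [mem_centralizer_singleton_iff] at hx ⊢
    calc g * x.1 * g⁻¹ * (g * t * g⁻¹) = g * (x.1 * t) * g⁻¹ := by group
      _ = g * (t * x.1) * g⁻¹ := by rw [hx]
      _ = g * t * g⁻¹ * (g * x.1 * g⁻¹) := by group

/-- the only involution of a cyclic group of order 4 -/
theorem b1_unique_involution {G : Type*} [Group G] [Finite G] (x : G) (hx : orderOf x = 4)
    (w : G) (hw : w ∈ zpowers x) (hw2 : orderOf w = 2) : w = x ^ 2 := by
  classical
  rw [mem_zpowers_iff_mem_range_orderOf, hx] at hw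
  obtain ⟨j, hj, rfl⟩ := Finset.mem_image.1 hw
  rw [Finset.mem_range] at hj
  rw [orderOf_pow, hx] at hw2
  interval_cases j
  · norm_num at hw2
  · norm_num at hw2
  · rfl
  · norm_num at hw2

theorem eight_dvd_card_centralizer_involution {G : Type*} [Group G] [Finite G] [IsSimpleGroup G]
    (hG : ¬ IsMulCommutative G) (m : ℕ) (hcard : Nat.card G = 8 * m) (hm : ¬ 2 ∣ m)
    (t : G) (ht : orderOf t = 2) :
    8 ∣ Nat.card (Subgroup.centralizer ({t} : Set G)) := by
  have : Fact (Nat.Prime 2) := ⟨Nat.prime_two⟩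
  have h1 : Nat.card G = 2 ^ 3 * m := hcard.trans (by norm_num)
  have hpg : IsPGroup 2 (zpowers t) := by
    apply IsPGroup.of_card (n := 1)
    rw [Nat.card_zpowers, ht, pow_one]
  obtain ⟨S, hS⟩ := hpg.exists_le_sylow
  have htS : t ∈ (S : Subgroup G) := hS (mem_zpowers t)
  have hScard : Nat.card (S : Subgroup G) = 8 := by
    have := sylow_card_of_eq h1 hm S
    norm_num at this
    exact this
  have ht2 : t ^ 2 = 1 := by rw [← ht]; exact pow_orderOf_eq_one t
  have hkey : ∀ z : G, (∀ y ∈ (S : Subgroup G), y * z = z * y) →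
      8 ∣ Nat.card (centralizer ({z} : Set G)) := by
    intro z hz
    rw [← hScard]
    exact Subgroup.card_dvd_of_le (fun y hy => mem_centralizer_singleton_iff.2 (hz y hy))
  by_cases hcomm : ∀ y ∈ (S : Subgroup G), y * t = t * y
  · exact hkey t hcomm
  · push Not at hcomm
    obtain ⟨y, hyS, hyt⟩ := hcomm
    have hx : ∃ x ∈ (S : Subgroup G), x ^ 2 ≠ 1 := by
      by_contra hno
      push Not at hno
      apply hyt
      have e1 := hno (y * t) (mul_mem hyS htS)
      have e2 := hno y hyS
      have e3 : y * t = (y * t)⁻¹ := by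
        rw [eq_inv_iff_mul_eq_one, ← pow_two]; exact e1
      have e4 : t⁻¹ = t := by rw [inv_eq_iff_mul_eq_one, ← pow_two]; exact ht2
      have e5 : y⁻¹ = y := by rw [inv_eq_iff_mul_eq_one, ← pow_two]; exact e2
      rw [e3, mul_inv_rev, e4, e5]
    obtain ⟨x0, hx0S, hx0⟩ := hx
    have hx4 : ∃ x ∈ (S : Subgroup G), orderOf x = 4 := by
      have hdvd : orderOf x0 ∣ 8 := by
        rw [← hScard]
        have := orderOf_dvd_natCard (⟨x0, hx0S⟩ : (S : Subgroup G))
        rwa [Subgroup.orderOf_mk] at this
      have hne1 : orderOf x0 ≠ 1 := by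
        intro h
        rw [orderOf_eq_one_iff] at h
        rw [h] at hx0
        simp at hx0
      have hne2 : orderOf x0 ≠ 2 := by
        intro h
        apply hx0
        rw [← h]
        exact pow_orderOf_eq_one x0
      have hle : orderOf x0 ≤ 8 := Nat.le_of_dvd (by norm_num) hdvd
      have h48 : orderOf x0 = 4 ∨ orderOf x0 = 8 := by
        generalize orderOf x0 = o at hdvd hne1 hne2 hle
        interval_cases o <;> simp_all
      rcases h48 with h4 | h8
      · exact ⟨x0, hx0S, h4⟩
      · refine ⟨x0 ^ 2, pow_mem hx0S 2, ?_⟩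
        rw [orderOf_pow, h8]
        decide
    obtain ⟨x, hxS, hx4⟩ := hx4
    have hMS : zpowers x ≤ (S : Subgroup G) := (zpowers_le).2 hxS
    have hMcard : Nat.card (zpowers x) = 4 := by rw [Nat.card_zpowers, hx4]
    have hrel : (zpowers x).relIndex (S : Subgroup G) = 2 := by
      have h2 := Subgroup.relIndex_mul_relIndex ⊥ (zpowers x) (S : Subgroup G) bot_le hMS
      rw [Subgroup.relIndex_bot_left, Subgroup.relIndex_bot_left, hMcard, hScard] at h2
      omega
    have hz2 : orderOf (x ^ 2) = 2 := by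
      rw [orderOf_pow, hx4]
      decide
    have hnorm : ((zpowers x).subgroupOf (S : Subgroup G)).Normal :=
      Subgroup.normal_of_index_eq_two hrel
    have hzc : ∀ y ∈ (S : Subgroup G), y * x ^ 2 = x ^ 2 * y := by
      intro y hy
      have h3 : (⟨y, hy⟩ : (S : Subgroup G)) * ⟨x, hxS⟩ * (⟨y, hy⟩ : (S : Subgroup G))⁻¹ ∈
          (zpowers x).subgroupOf (S : Subgroup G) :=
        hnorm.conj_mem _ (mem_subgroupOf.2 (mem_zpowers x)) _
      rw [mem_subgroupOf] at h3
      have h4 : y * x * y⁻¹ ∈ zpowers x := h3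
      have h5 : y * x ^ 2 * y⁻¹ ∈ zpowers x := by
        rw [← conj_pow]; exact pow_mem h4 2
      have h6 : orderOf (y * x ^ 2 * y⁻¹) = 2 :=
        ((MulAut.conj y).orderOf_eq (x ^ 2)).trans hz2
      have h7 := b1_unique_involution x hx4 _ h5 h6
      calc y * x ^ 2 = y * x ^ 2 * y⁻¹ * y := by group
        _ = x ^ 2 * y := by rw [h7]
    by_cases htM : t ∈ zpowers x
    · have h8 : t = x ^ 2 := b1_unique_involution x hx4 t htM ht
      rw [h8]
      exact hkey _ hzc
    · rcases Cfsg.Agent.S0111.result S (zpowers x) hMS hrel t ht htS htM with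
        ⟨N, hN, hNi, -⟩ | ⟨g, hg⟩
      · exfalso
        rcases hN.eq_bot_or_eq_top with h | h
        · rw [h, Subgroup.index_bot, hcard] at hNi
          omega
        · rw [h, Subgroup.index_top] at hNi
          omega
      · have h9 : orderOf (g * t * g⁻¹) = 2 :=
          ((MulAut.conj g).orderOf_eq t).trans ht
        have h10 := b1_unique_involution x hx4 _ hg h9
        rw [← b1_card_centralizer_conj g t, h10]
        exact hkey _ hzc

end Cfsg.Agent.S4274T
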