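import Mathlib
import Cfsg.Agent.Lib.Helper23.Syl
import Cfsg.Agent.Lib.Helper76.SylPrime

/-!
# S4274 piece B2 (helper36 for helper11): order 15960 with `n_19 = 210` has an involution whose
centralizer has order not divisible by 8.
-/

set_option autoImplicit false

namespace Cfsg.Agent.S4274T

open Subgroup Cfsg.Agent.Lib.Helper23 Cfsg.Agent.Lib.Helper76.SylPrime

theorem ns15960_aux {G : Type*} [Group G] [Finite G] [IsSimpleGroup G] (h : Nat.card G = 15960)
    (hn : Nat.card (Sylow 19 G) = 210) :
    ∃ t : G, orderOf t = 2 ∧ ¬ 8 ∣ Nat.card (Subgroup.centralizer ({t} : Set G)) := by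
  have hG : ¬ IsMulCommutative G :=
    not_comm_of_simple_of_not_prime (by rw [h]; norm_num)
  have : Fact (Nat.Prime 19) := ⟨by norm_num⟩
  have : Fact (Nat.Prime 2) := ⟨Nat.prime_two⟩
  have h19 : Nat.card G = 19 ^ 1 * 840 := h.trans (by norm_num)
  have hc19 : ∀ Q : Sylow 19 G, Nat.card (Q : Subgroup G) = 19 := fun Q => by
    have := sylow_card_of_eq h19 (by norm_num) Q
    rwa [pow_one] at this
  obtain ⟨P⟩ : Nonempty (Sylow 19 G) := inferInstance
  -- (1) |C(P)| = 38
  obtain ⟨r, c, hr, hr', hC, -, hcard⟩ := card_centralizer_mul hG hc19 P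
  rw [hn, h] at hcard
  have hcr : c * r = 4 := by nlinarith
  have hrle : r ≤ 18 := Nat.le_of_dvd (by norm_num) hr
  have hrv : r = 2 := by
    interval_cases r <;> omega
  rw [hrv] at hcr
  have hcv : c = 2 := by omega
  rw [hcv] at hC
  -- (2) an involution of C(P)
  obtain ⟨t, htC, ht1, ht2⟩ :=
    exists_mem_pow_eq_one (centralizer ((P : Subgroup G) : Set G)) 2 (by rw [hC]; norm_num)
  have hto : orderOf t = 2 := orderOf_eq_prime ht2 ht1
  have hPC : (P : Subgroup G) ≤ centralizer ((P : Subgroup G) : Set G) :=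
    sylow_le_centralizer hc19 P
  have hrel : (P : Subgroup G).relIndex (centralizer ((P : Subgroup G) : Set G)) = 2 := by
    have h2 := Subgroup.relIndex_mul_relIndex ⊥ (P : Subgroup G)
      (centralizer ((P : Subgroup G) : Set G)) bot_le hPC
    rw [Subgroup.relIndex_bot_left, Subgroup.relIndex_bot_left, hc19 P, hC] at h2
    omega
  have hnotP : ∀ s : G, orderOf s = 2 → s ∉ (P : Subgroup G) := by
    intro s hs hsP
    have h3 : orderOf s ∣ 19 := orderOf_dvd_of_pow_eq_one (pow_eq_one hc19 P s hsP)
    rw [hs] at h3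
    norm_num at h3
  -- (3) uniqueness of the involution of C(P)
  have huniq : ∀ s ∈ centralizer ((P : Subgroup G) : Set G), orderOf s = 2 → s = t := by
    intro s hsC hso
    have h4 := Subgroup.mul_mem_iff_of_index_two
      (H := (P : Subgroup G).subgroupOf (centralizer ((P : Subgroup G) : Set G))) hrel
      (a := (⟨s, hsC⟩ : centralizer ((P : Subgroup G) : Set G))⁻¹)
      (b := (⟨t, htC⟩ : centralizer ((P : Subgroup G) : Set G)))
    have h5 : s⁻¹ * t ∈ (P : Subgroup G) := by
      have h6 : ((⟨s, hsC⟩ : centralizer ((P : Subgroup G) : Set G))⁻¹ ∈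
          (P : Subgroup G).subgroupOf (centralizer ((P : Subgroup G) : Set G)) ↔
          (⟨t, htC⟩ : centralizer ((P : Subgroup G) : Set G)) ∈
          (P : Subgroup G).subgroupOf (centralizer ((P : Subgroup G) : Set G))) := by
        constructor
        · intro h7
          exfalso
          rw [inv_mem_iff, mem_subgroupOf] at h7
          exact hnotP s hso h7
        · intro h7
          exfalso
          rw [mem_subgroupOf] at h7
          exact hnotP t hto h7
      have h8 := h4.2 h6
      rw [mem_subgroupOf] at h8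
      exact h8
    have hz19 : (s⁻¹ * t) ^ 19 = 1 := pow_eq_one hc19 P _ h5
    have hcomm : Commute s (s⁻¹ * t) := by
      have := (mem_centralizer_iff.1 hsC) _ h5
      exact this.symm
    have hs2 : s ^ 2 = 1 := by rw [← hso]; exact pow_orderOf_eq_one s
    have hz2 : (s⁻¹ * t) ^ 2 = 1 := by
      have h9 : (s * (s⁻¹ * t)) ^ 2 = s ^ 2 * (s⁻¹ * t) ^ 2 := hcomm.mul_pow 2
      rw [mul_inv_cancel_left, ht2, hs2, one_mul] at h9
      exact h9.symm
    have hz1 : s⁻¹ * t = 1 := by
      have h10 : orderOf (s⁻¹ * t) ∣ Nat.gcd 2 19 :=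
        Nat.dvd_gcd (orderOf_dvd_of_pow_eq_one hz2) (orderOf_dvd_of_pow_eq_one hz19)
      have h11 : Nat.gcd 2 19 = 1 := by norm_num
      rw [h11, Nat.dvd_one, orderOf_eq_one_iff] at h10
      exact h10
    exact (inv_mul_eq_one.1 hz1)
  -- (4) 38 divides |C(t)|
  have hPt : (P : Subgroup G) ≤ centralizer ({t} : Set G) := fun g hg =>
    mem_centralizer_singleton_iff.2 ((mem_centralizer_iff.1 htC) g hg)
  have h19dvd : 19 ∣ Nat.card (centralizer ({t} : Set G)) := by
    rw [← hc19 P]
    exact Subgroup.card_dvd_of_le hPt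
  have h2dvd : 2 ∣ Nat.card (centralizer ({t} : Set G)) := by
    have htt : t ∈ centralizer ({t} : Set G) := mem_centralizer_singleton_iff.2 rfl
    have := orderOf_dvd_natCard (⟨t, htt⟩ : centralizer ({t} : Set G))
    rwa [Subgroup.orderOf_mk, hto] at this
  have h38 : 38 ∣ Nat.card (centralizer ({t} : Set G)) :=
    Nat.Coprime.mul_dvd_of_dvd_of_dvd (by norm_num : Nat.Coprime 2 19) h2dvd h19dvd
  -- (5) the index of C(t) is 1 mod 19
  have hmod := card_conj_modEq (P : Subgroup G) P.2 t
  have hset : {s : G | IsConj t s ∧ s ∈ centralizer ((P : Subgroup G) : Set G)} = {t} := by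
    ext s
    simp only [Set.mem_ofPred_eq, Set.mem_singleton_iff]
    constructor
    · rintro ⟨hconj, hsC⟩
      obtain ⟨g, rfl⟩ := isConj_iff.1 hconj
      exact huniq _ hsC (((MulAut.conj g).orderOf_eq t).trans hto)
    · rintro rfl
      exact ⟨IsConj.refl _, htC⟩
  rw [hset, Set.ncard_singleton] at hmod
  have hmod' : (centralizer ({t} : Set G)).index % 19 = 1 := hmod
  -- (6) the possible indices
  have hmul := Subgroup.card_mul_index (centralizer ({t} : Set G))
  rw [h] at hmul
  obtain ⟨k, hk⟩ := h38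
  have hki : k * (centralizer ({t} : Set G)).index = 420 := by
    rw [hk] at hmul
    nlinarith
  have hmem : (centralizer ({t} : Set G)).index ∈
      (Nat.divisors 420).filter (fun d => d % 19 = 1) := by
    rw [Finset.mem_filter, Nat.mem_divisors]
    exact ⟨⟨Dvd.intro_left k hki, by norm_num⟩, hmod'⟩
  rw [show (Nat.divisors 420).filter (fun d => d % 19 = 1) = {1, 20, 210} from by
    decide +kernel] at hmem
  simp only [Finset.mem_insert, Finset.mem_singleton] at hmem
  refine ⟨t, hto, ?_⟩
  rcases hmem with h1 | h1 | h1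
  · exfalso
    rw [Subgroup.index_eq_one] at h1
    have htc : t ∈ center G := by
      rw [mem_center_iff]
      intro g
      have : g ∈ centralizer ({t} : Set G) := by rw [h1]; exact mem_top g
      exact mem_centralizer_singleton_iff.1 this
    rcases (inferInstance : (center G).Normal).eq_bot_or_eq_top with hb | htop
    · rw [hb, mem_bot] at htc
      exact ht1 htc
    · apply hG
      refine ⟨⟨fun a b => ?_⟩⟩
      have : b ∈ center G := by rw [htop]; exact mem_top b
      exact (mem_center_iff.1 this a)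
  · rw [h1] at hmul
    intro h8
    omega
  · rw [h1] at hmul
    intro h8
    omega

end Cfsg.Agent.S4274T
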