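import Mathlib
import Cfsg.Agent.Lib.Helper23.Syl
import Cfsg.Agent.Lib.Helper76.SylPrime
import Cfsg.Agent.Lib.Helper11.S4274Tools

/-!
# S4274 piece C (helper36 for helper11): no simple group of order 87780 with `n_19 = 210`
-/

set_option autoImplicit false

namespace Cfsg.Agent.S4274T

open Subgroup Cfsg.Agent.Lib.Helper23 Cfsg.Agent.Lib.Helper76.SylPrime

theorem ns87780a {G : Type*} [Group G] [Finite G] [IsSimpleGroup G] (h : Nat.card G = 87780)
    (hn : Nat.card (Sylow 19 G) = 210) : False := by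
  have hG : ¬ IsMulCommutative G :=
    not_comm_of_simple_of_not_prime (by rw [h]; norm_num)
  have : Fact (Nat.Prime 5) := ⟨by norm_num⟩
  have : Fact (Nat.Prime 7) := ⟨by norm_num⟩
  have : Fact (Nat.Prime 19) := ⟨by norm_num⟩
  have h19 : Nat.card G = 19 ^ 1 * 4620 := h.trans (by norm_num)
  have h5 : Nat.card G = 5 ^ 1 * 17556 := h.trans (by norm_num)
  have h7 : Nat.card G = 7 ^ 1 * 12540 := h.trans (by norm_num)
  have hm5 : ¬ 5 ∣ 17556 := by norm_num
  have hc19 : ∀ Q : Sylow 19 G, Nat.card (Q : Subgroup G) = 19 := fun Q => by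
    have := sylow_card_of_eq h19 (by norm_num) Q
    rwa [pow_one] at this
  have hc5 : ∀ Q : Sylow 5 G, Nat.card (Q : Subgroup G) = 5 := fun Q => by
    have := sylow_card_of_eq h5 hm5 Q
    rwa [pow_one] at this
  have hc7 : ∀ Q : Sylow 7 G, Nat.card (Q : Subgroup G) = 7 := fun Q => by
    have := sylow_card_of_eq h7 (by norm_num) Q
    rwa [pow_one] at this
  obtain ⟨P19⟩ : Nonempty (Sylow 19 G) := inferInstance
  obtain ⟨P5⟩ : Nonempty (Sylow 5 G) := inferInstance
  obtain ⟨P7⟩ : Nonempty (Sylow 7 G) := inferInstance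
  -- (1) the prime 19
  obtain ⟨r19, c19, hr19, hr19', hC19, -, hcard19⟩ := card_centralizer_mul hG hc19 P19
  rw [hn, h] at hcard19
  have hcr19 : c19 * r19 = 22 := by nlinarith
  have hr19le : r19 ≤ 18 := Nat.le_of_dvd (by norm_num) hr19
  have hr19v : r19 = 2 := by
    interval_cases r19 <;> omega
  rw [hr19v] at hcr19
  have hc19v : c19 = 11 := by omega
  rw [hc19v] at hC19
  have hA19 : Nat.card {g : G // 19 ∣ orderOf g} = 41580 := by
    rw [card_dvd_orderOf 19 hc19 P19 11 hC19, hn]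
  have hd19 : ∀ g : G, 19 ∣ orderOf g → orderOf g ∣ 19 * 11 := fun g hg => by
    have := orderOf_dvd_card_centralizer 19 hc19 P19 g hg
    rwa [hC19] at this
  have hd19_5 : ∀ g : G, ¬ (5 ∣ orderOf g ∧ 19 ∣ orderOf g) := fun g ⟨h1, h2⟩ => by
    have := h1.trans (hd19 g h2)
    norm_num at this
  have hd19_7 : ∀ g : G, ¬ (7 ∣ orderOf g ∧ 19 ∣ orderOf g) := fun g ⟨h1, h2⟩ => by
    have := h1.trans (hd19 g h2)
    norm_num at this
  -- (2) the prime 5
  obtain ⟨r5, c5, hr5, hr5', hC5, -, hcard5⟩ := card_centralizer_mul hG hc5 P5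
  have hn19c5 : ¬ 19 ∣ c5 := by
    intro hdv
    have h1 : 19 ∣ Nat.card (centralizer ((P5 : Subgroup G) : Set G)) := by
      rw [hC5]; exact Dvd.dvd.mul_left hdv 5
    have h2 := dvd_card_centralizer_symm 5 19 (by norm_num) hc5 hc19 P5 P19 h1
    rw [hC19] at h2
    norm_num at h2
  have hmem5 := card_sylow_mem_filter h5 hm5
  have hne5 := simple_sylow_card_ne_one h5 hm5 (by norm_num) (by norm_num)
  rw [show (Nat.divisors 17556).filter (fun d => d % 5 = 1) =
      {1, 6, 11, 21, 66, 76, 231, 266, 836, 1596, 2926, 17556} from by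
    decide +kernel] at hmem5
  simp only [Finset.mem_insert, Finset.mem_singleton] at hmem5
  rw [h] at hcard5
  have hr5le : r5 ≤ 4 := Nat.le_of_dvd (by norm_num) hr5
  have hr5v : r5 = 2 ∨ r5 = 4 := by
    interval_cases r5
    · simp at hcard5
    · exact absurd rfl hr5'
    · exact Or.inl rfl
    · norm_num at hr5
    · exact Or.inr rfl
  have hr5two : r5 = 2 := by
    rcases hr5v with h2 | h4
    · exact h2
    · exfalso
      rw [h4] at hcard5
      have hcn : c5 * Nat.card (Sylow 5 G) = 4389 := by nlinarith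
      rcases hmem5 with h6 | h6 | h6 | h6 | h6 | h6 | h6 | h6 | h6 | h6 | h6 | h6
      · exact hne5 h6
      all_goals (rw [h6] at hcn; exact hn19c5 (by omega))
  rw [hr5two] at hcard5
  have hcn5 : c5 * Nat.card (Sylow 5 G) = 8778 := by nlinarith
  have hA5 : Nat.card {g : G // 5 ∣ orderOf g} = 35112 := by
    rw [card_dvd_orderOf 5 hc5 P5 c5 hC5]
    have : Nat.card (Sylow 5 G) * ((5 - 1) * c5) = 4 * (c5 * Nat.card (Sylow 5 G)) := by
      norm_num; ring
    rw [this, hcn5]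
  have hn7c5 : ¬ 7 ∣ c5 := by
    rintro ⟨c', rfl⟩
    have hcn' : c' * Nat.card (Sylow 5 G) = 1254 := by nlinarith
    rcases hmem5 with h6 | h6 | h6 | h6 | h6 | h6 | h6 | h6 | h6 | h6 | h6 | h6
    · exact hne5 h6
    all_goals (rw [h6] at hcn'; exact hn19c5 (by omega))
  have hd5_7 : ∀ g : G, ¬ (5 ∣ orderOf g ∧ 7 ∣ orderOf g) := fun g ⟨h1, h2⟩ => by
    have h3 := orderOf_dvd_card_centralizer 5 hc5 P5 g h1
    rw [hC5] at h3
    have h4 : 7 ∣ 5 * c5 := h2.trans h3
    rcases (Nat.Prime.dvd_mul (by norm_num : Nat.Prime 7)).1 h4 with h5' | h5'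
    · norm_num at h5'
    · exact hn7c5 h5'
  -- (3) the prime 7
  obtain ⟨r7, c7, hr7, -, hC7, -, hcard7⟩ := card_centralizer_mul hG hc7 P7
  rw [h] at hcard7
  have hr7le : r7 ≤ 6 := Nat.le_of_dvd (by norm_num) hr7
  have hA7 : 12540 ≤ Nat.card {g : G // 7 ∣ orderOf g} := by
    rw [card_dvd_orderOf 7 hc7 P7 c7 hC7]
    have e1 : Nat.card (Sylow 7 G) * ((7 - 1) * c7) = 6 * (c7 * Nat.card (Sylow 7 G)) := by
      norm_num; ring
    have e2 : 7 * c7 * r7 * Nat.card (Sylow 7 G) = 7 * ((c7 * Nat.card (Sylow 7 G)) * r7) := by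
      ring
    rw [e1]
    rw [e2] at hcard7
    generalize c7 * Nat.card (Sylow 7 G) = m at hcard7 ⊢
    interval_cases r7 <;> omega
  -- (4) counting
  have hlt := three_card_dvd_orderOf_lt (G := G) 5 7 19 (by norm_num) (by norm_num) (by norm_num)
    hd5_7 hd19_5 hd19_7
  rw [hA5, hA19, h] at hlt
  omega

end Cfsg.Agent.S4274T
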