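import Cfsg.Agent.Lib.Helper47.S76Defs

set_option autoImplicit false

universe u

namespace Cfsg.Agent.Lib.Helper36.S76ARITH

open Matrix Polynomial Cfsg.Agent.Lib.Helper47 Cfsg.Agent.Lib.Helper47.S76

theorem arith (p q r d : ℕ) (hp : p.Prime) (hq : ∃ k, q = p ^ k) (hr : r.Prime) (hr2 : r ≠ 2)
    (hrp : r ≠ p) (hdvd : r ∣ idxNum q d) :
    (∃ n, n = orderOf (q : ZMod r) ∧ Odd n ∧ n ≤ d) ∨
      (∃ n, 2 * n = orderOf (q : ZMod r) ∧ Even n ∧ 1 ≤ n ∧ n ≤ d) := by
  have : Fact r.Prime := ⟨hr⟩
  obtain ⟨k, rfl⟩ := hq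
  have hq1 : ∀ m, 1 ≤ (p ^ k) ^ m := fun m => Nat.one_le_pow _ _ (Nat.one_le_pow _ _ hp.pos)
  unfold idxNum at hdvd
  rcases (Nat.Prime.dvd_mul hr).1 hdvd with h | h
  · exfalso
    have h1 := hr.dvd_of_dvd_pow h
    have h2 := hr.dvd_of_dvd_pow h1
    exact hrp ((Nat.prime_dvd_prime_iff_eq hr hp).1 h2)
  · obtain ⟨i, hi, hri⟩ := (Prime.dvd_finsetProd_iff hr.prime _).1 h
    rw [Finset.mem_range] at hi
    by_cases hev : Even i
    · rw [if_pos hev] at hri
      left
      have h1 : ((p ^ k : ℕ) : ZMod r) ^ (i + 1) = 1 := by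
        have := (ZMod.natCast_eq_zero_iff _ _).2 hri
        rw [Nat.cast_sub (hq1 _), Nat.cast_pow, Nat.cast_one, sub_eq_zero] at this
        exact this
      have h2 : orderOf ((p ^ k : ℕ) : ZMod r) ∣ i + 1 := orderOf_dvd_of_pow_eq_one h1
      refine ⟨_, rfl, ?_, ?_⟩
      · exact Odd.of_dvd_nat (Even.add_one hev) h2
      · exact le_trans (Nat.le_of_dvd (Nat.succ_pos i) h2) hi
    · rw [if_neg hev] at hri
      right
      have hodd : Odd i := Nat.not_even_iff_odd.1 hev
      set a : ZMod r := ((p ^ k : ℕ) : ZMod r) with ha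
      have h1 : a ^ (i + 1) = -1 := by
        have := (ZMod.natCast_eq_zero_iff _ _).2 hri
        rw [Nat.cast_add, Nat.cast_pow, Nat.cast_one] at this
        exact eq_neg_of_add_eq_zero_left this
      have hne : a ^ (i + 1) ≠ 1 := by
        rw [h1]
        intro h
        have h2 : ((2 : ℕ) : ZMod r) = 0 := by
          have h3 : (1 : ZMod r) + 1 = 0 := by
            nth_rewrite 1 [← h]
            exact neg_add_cancel 1
          rw [Nat.cast_ofNat, ← h3]
          norm_num
        have := (ZMod.natCast_eq_zero_iff _ _).1 h2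
        exact hr2 ((Nat.prime_dvd_prime_iff_eq hr Nat.prime_two).1 this)
      have h2 : a ^ (2 * (i + 1)) = 1 := by
        rw [mul_comm, pow_mul, h1]; norm_num
      have hdvd2 : orderOf a ∣ 2 * (i + 1) := orderOf_dvd_of_pow_eq_one h2
      have hndvd : ¬ orderOf a ∣ i + 1 := fun h => hne (orderOf_dvd_iff_pow_eq_one.1 h)
      have heven : Even (orderOf a) := by
        by_contra hno
        have hodd' : Odd (orderOf a) := Nat.not_even_iff_odd.1 hno
        have hcop : Nat.Coprime (orderOf a) 2 := (Nat.coprime_two_left.2 hodd').symm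
        exact hndvd (Nat.Coprime.dvd_of_dvd_mul_left hcop hdvd2)
      obtain ⟨n, hn⟩ := heven
      have hn2 : orderOf a = 2 * n := by omega
      have hnd : n ∣ i + 1 := by
        rw [hn2] at hdvd2
        exact Nat.dvd_of_mul_dvd_mul_left (by norm_num) hdvd2
      obtain ⟨j, hj⟩ := hnd
      have hjodd : Odd j := by
        by_contra hno
        obtain ⟨j', hj'⟩ := Nat.not_odd_iff_even.1 hno
        apply hndvd
        rw [hn2, hj, hj']
        exact ⟨j', by ring⟩
      have hneven : Even n := by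
        have h3 : Even (n * j) := by rw [← hj]; exact Odd.add_one hodd
        rcases Nat.even_mul.1 h3 with h4 | h4
        · exact h4
        · exact absurd hjodd (Nat.not_odd_iff_even.2 h4)
      have hnpos : 1 ≤ n := by
        rcases Nat.eq_zero_or_pos n with h0 | h0
        · exfalso
          rw [hn2, h0, mul_zero, zero_dvd_iff] at hdvd2
          omega
        · exact h0
      refine ⟨n, hn2.symm, hneven, hnpos, ?_⟩
      have : n ≤ i + 1 := Nat.le_of_dvd (Nat.succ_pos i) ⟨j, hj⟩
      omega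

end Cfsg.Agent.Lib.Helper36.S76ARITH
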