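import Cfsg.Agent.Lib.Helper47.S76Defs

set_option autoImplicit false

universe u

namespace Cfsg.Agent.Lib.Helper36.S76IDXA

open Matrix Polynomial Cfsg.Agent.Lib.Helper47 Cfsg.Agent.Lib.Helper47.S76

theorem idxa_exp (d : ℕ) : d * (d + 1) / 2 + d * (d - 1) / 2 = d ^ 2 := by
  have h1 : d * (d + 1) / 2 * 2 = d * (d + 1) :=
    Nat.div_mul_cancel (Nat.even_mul_succ_self d).two_dvd
  have h2 : d * (d - 1) / 2 * 2 = d * (d - 1) :=
    Nat.div_mul_cancel (Nat.even_mul_pred_self d).two_dvd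
  have h3 : d * (d + 1) + d * (d - 1) = 2 * d ^ 2 := by
    cases d with
    | zero => rfl
    | succ k => simp only [Nat.add_sub_cancel]; ring
  omega

theorem idxa_factor (q i : ℕ) (hq : 1 ≤ q) :
    (if Even i then q ^ (i + 1) - 1 else q ^ (i + 1) + 1) *
      (if Even i then q ^ (i + 1) + 1 else q ^ (i + 1) - 1) = q ^ (2 * (i + 1)) - 1 := by
  have h1 : 1 ≤ q ^ (i + 1) := Nat.one_le_pow _ _ hq
  have h2 : q ^ (2 * (i + 1)) = q ^ (i + 1) * q ^ (i + 1) := by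
    rw [two_mul, pow_add]
  have key : (q ^ (i + 1) - 1) * (q ^ (i + 1) + 1) = q ^ (2 * (i + 1)) - 1 := by
    rw [h2]
    obtain ⟨m, hm⟩ : ∃ m, q ^ (i + 1) = m + 1 := ⟨q ^ (i + 1) - 1, by omega⟩
    rw [hm]
    simp only [Nat.add_sub_cancel]
    have : (m + 1) * (m + 1) = m * (m + 1 + 1) + 1 := by ring
    rw [this, Nat.add_sub_cancel]
  split_ifs
  · exact key
  · rw [mul_comm]; exact key

theorem idx_arith (q d : ℕ) (hq : 1 ≤ q) :
    q ^ (d ^ 2) * ∏ i ∈ Finset.range d, (q ^ (2 * (i + 1)) - 1) = idxNum q d * guOrd q d := by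
  unfold idxNum guOrd
  rw [mul_mul_mul_comm, ← pow_add, idxa_exp, ← Finset.prod_mul_distrib]
  congr 1
  exact Finset.prod_congr rfl (fun i _ => (idxa_factor q i hq).symm)

end Cfsg.Agent.Lib.Helper36.S76IDXA
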