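import Mathlib
import Cfsg.Agent.S0992

/-! S0983 (helper11), piece KLEIN: consequences of `4 ∥ |G|` for a nonabelian simple group `G`
(Sylow 2-subgroups are Klein four groups with `|N(T) : C(T)| = 3`): exponent, centralizers of
involutions, and all involutions are conjugate. -/

set_option autoImplicit false
set_option linter.unusedSectionVars false

namespace Cfsg.Agent.S983
open Subgroup
variable {G : Type*} [Group G] [Finite G]

theorem klein_aux_V {V : Type*} [Group V] [IsKleinFour V] (φ : V → V)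
    (hmul : ∀ x y, φ (x * y) = φ x * φ y) (hinj : Function.Injective φ)
    (h3 : ∀ x, φ (φ (φ x)) = x) (hne : ∃ x, φ x ≠ x) (a b : V) (ha : a ≠ 1) (hb : b ≠ 1) :
    b = a ∨ b = φ a ∨ b = φ (φ a) := by
  have h1 : φ 1 = 1 := by
    have h := hmul 1 1
    rw [mul_one] at h
    exact mul_eq_left.mp h.symm
  have hφ1 : ∀ x, x ≠ 1 → φ x ≠ 1 := fun x hx h => hx (hinj (h.trans h1.symm))
  have claim : ∀ a : V, a ≠ 1 → φ a ≠ a := by
    intro a ha hfix
    obtain ⟨x, hx⟩ := hne
    have hx1 : x ≠ 1 := fun h => hx (by rw [h, h1])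
    have hxa : a ≠ x := fun h => hx (by rw [← h, hfix])
    have hφx : φ x = a * x := IsKleinFour.eq_mul_of_ne_all ha hx1 hxa (hφ1 x hx1)
      (fun h => hxa (hinj (hfix.trans h.symm))) hx
    have h2 : φ (φ x) = x := by
      rw [hφx, hmul, hfix, hφx, ← mul_assoc, IsKleinFour.mul_self, one_mul]
    have h4 := h3 x
    rw [h2] at h4
    exact hx h4
  have hφa := claim a ha
  have hφa1 := hφ1 a ha
  have hφφa := claim (φ a) hφa1
  have hφφa1 := hφ1 (φ a) hφa1
  have hφφa_a : φ (φ a) ≠ a := by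
    intro h
    have h4 := h3 a
    rw [h] at h4
    exact hφa h4
  by_cases hba : b = a
  · left; exact hba
  by_cases hbφ : b = φ a
  · right; left; exact hbφ
  right; right
  have e1 : b = a * φ a := IsKleinFour.eq_mul_of_ne_all ha hφa1 (Ne.symm hφa) hb hba hbφ
  have e2 : φ (φ a) = a * φ a :=
    IsKleinFour.eq_mul_of_ne_all ha hφa1 (Ne.symm hφa) hφφa1 hφφa_a hφφa
  rw [e1, e2]

theorem klein_aux_sylow (g : G) (hg : g ^ 4 = 1) : ∃ T : Sylow 2 G, g ∈ (T : Subgroup G) := by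
  have : Fact (Nat.Prime 2) := ⟨Nat.prime_two⟩
  have hp : IsPGroup 2 (zpowers g) := by
    rintro ⟨x, hx⟩
    obtain ⟨j, rfl⟩ := Subgroup.mem_zpowers_iff.mp hx
    refine ⟨2, Subtype.ext ?_⟩
    show (g ^ j) ^ 2 ^ 2 = 1
    have e : (2 : ℕ) ^ 2 = 4 := by norm_num
    rw [e, ← zpow_natCast, ← zpow_mul, mul_comm, zpow_mul, zpow_natCast, hg, one_zpow]
  obtain ⟨T, hT⟩ := hp.exists_le_sylow
  exact ⟨T, hT (Subgroup.mem_zpowers g)⟩

theorem klein_aux_mem_smul_iff (T : Sylow 2 G) (g y : G) :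
    y ∈ ((g • T : Sylow 2 G) : Subgroup G) ↔ g⁻¹ * y * g ∈ (T : Subgroup G) := by
  rw [Sylow.coe_subgroup_smul, Subgroup.mem_pointwise_smul_iff_inv_smul_mem, MulAut.smul_def,
    ← map_inv, MulAut.conj_apply, inv_inv]

theorem klein_aux_data [IsSimpleGroup G] (hG : ¬ IsMulCommutative G) (h4 : 4 ∣ Nat.card G)
    (h8 : ¬ 8 ∣ Nat.card G) (T : Sylow 2 G) :
    IsKleinFour ↥(T : Subgroup G) ∧
      (centralizer ((T : Subgroup G) : Set G)).relIndex
        (normalizer ((T : Subgroup G) : Set G)) = 3 :=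
  Cfsg.Agent.S0992.result hG (even_iff_two_dvd.mpr (dvd_trans (by norm_num) h4)) h8 T

theorem klein_exp [IsSimpleGroup G] (hG : ¬ IsMulCommutative G) (h4 : 4 ∣ Nat.card G)
    (h8 : ¬ 8 ∣ Nat.card G) (g : G) (hg : g ^ 4 = 1) : g ^ 2 = 1 := by
  obtain ⟨T, hT⟩ := klein_aux_sylow g hg
  have hK := (klein_aux_data hG h4 h8 T).1
  have h := IsKleinFour.mul_self (⟨g, hT⟩ : (T : Subgroup G))
  rw [sq]
  exact congrArg Subtype.val h

theorem klein_conj [IsSimpleGroup G] (hG : ¬ IsMulCommutative G) (h4 : 4 ∣ Nat.card G)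
    (h8 : ¬ 8 ∣ Nat.card G) (u v : G) (hu : orderOf u = 2) (hv : orderOf v = 2) :
    ∃ g : G, g * u * g⁻¹ = v := by
  have : Fact (Nat.Prime 2) := ⟨Nat.prime_two⟩
  have hu2 : u ^ 2 = 1 := by rw [← hu]; exact pow_orderOf_eq_one u
  have hv2 : v ^ 2 = 1 := by rw [← hv]; exact pow_orderOf_eq_one v
  have hu1 : u ≠ 1 := by
    intro h
    rw [h, orderOf_one] at hu
    omega
  have hv1 : v ≠ 1 := by
    intro h
    rw [h, orderOf_one] at hv
    omega
  have e4 : (4 : ℕ) = 2 * 2 := rfl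
  obtain ⟨T, huT⟩ := klein_aux_sylow u (by rw [e4, pow_mul, hu2, one_pow])
  obtain ⟨T', hvT'⟩ := klein_aux_sylow v (by rw [e4, pow_mul, hv2, one_pow])
  obtain ⟨c, rfl⟩ := MulAction.exists_smul_eq G T T'
  have hv' : c⁻¹ * v * c ∈ (T : Subgroup G) := (klein_aux_mem_smul_iff T c v).mp hvT'
  obtain ⟨hK, hrel⟩ := klein_aux_data hG h4 h8 T
  have hnot : ¬ normalizer ((T : Subgroup G) : Set G) ≤
      centralizer ((T : Subgroup G) : Set G) := by
    intro hle
    have h1 := Subgroup.relIndex_eq_one.mpr hle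
    omega
  obtain ⟨g, hgN, hgC⟩ := SetLike.not_le_iff_exists.mp hnot
  have hg3 : g ^ 3 ∈ centralizer ((T : Subgroup G) : Set G) := by
    have hnorm : ((centralizer ((T : Subgroup G) : Set G)).subgroupOf
        (normalizer ((T : Subgroup G) : Set G))).Normal := by
      constructor
      intro c hc n
      rw [Subgroup.mem_subgroupOf] at hc ⊢
      rw [Subgroup.mem_centralizer_iff] at hc ⊢
      intro t ht
      have hn := (Subgroup.mem_normalizer_iff''.mp n.2 t).mp ht
      have h1 := hc _ hn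
      show t * ((n : G) * (c : G) * (n : G)⁻¹) = (n : G) * (c : G) * (n : G)⁻¹ * t
      calc t * ((n : G) * (c : G) * (n : G)⁻¹)
          = (n : G) * (((n : G)⁻¹ * t * (n : G)) * (c : G)) * (n : G)⁻¹ := by group
        _ = (n : G) * ((c : G) * ((n : G)⁻¹ * t * (n : G))) * (n : G)⁻¹ := by rw [h1]
        _ = (n : G) * (c : G) * (n : G)⁻¹ * t := by group
    have h1 := Subgroup.pow_index_mem ((centralizer ((T : Subgroup G) : Set G)).subgroupOf
      (normalizer ((T : Subgroup G) : Set G)))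
      (⟨g, hgN⟩ : normalizer ((T : Subgroup G) : Set G))
    have hidx : ((centralizer ((T : Subgroup G) : Set G)).subgroupOf
      (normalizer ((T : Subgroup G) : Set G))).index = 3 := hrel
    rw [hidx, Subgroup.mem_subgroupOf] at h1
    simpa using h1
  have key := klein_aux_V
    (fun x : (T : Subgroup G) => (⟨g * x.1 * g⁻¹,
      (Subgroup.mem_normalizer_iff.mp hgN x.1).mp x.2⟩ : (T : Subgroup G)))
    (fun x y => Subtype.ext (by
      show g * (x.1 * y.1) * g⁻¹ = (g * x.1 * g⁻¹) * (g * y.1 * g⁻¹)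
      group))
    (fun x y hxy => Subtype.ext (by
      have h := congrArg Subtype.val hxy
      have h' : g * x.1 * g⁻¹ = g * y.1 * g⁻¹ := h
      calc x.1 = g⁻¹ * (g * x.1 * g⁻¹) * g := by group
        _ = g⁻¹ * (g * y.1 * g⁻¹) * g := by rw [h']
        _ = y.1 := by group))
    (fun x => Subtype.ext (by
      show g * (g * (g * x.1 * g⁻¹) * g⁻¹) * g⁻¹ = x.1
      have h := (Subgroup.mem_centralizer_iff.mp hg3) x.1 x.2
      have e3 : g ^ 3 = g * g * g := by rw [pow_succ, pow_succ, pow_one]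
      rw [e3] at h
      calc g * (g * (g * x.1 * g⁻¹) * g⁻¹) * g⁻¹
          = ((g * g * g) * x.1) * (g * g * g)⁻¹ := by group
        _ = (x.1 * (g * g * g)) * (g * g * g)⁻¹ := by rw [h]
        _ = x.1 := by group))
    (by
      by_contra hall
      push Not at hall
      apply hgC
      rw [Subgroup.mem_centralizer_iff]
      intro t ht
      have h : g * t * g⁻¹ = t := congrArg Subtype.val (hall ⟨t, ht⟩)
      calc t * g = (g * t * g⁻¹) * g := by rw [h]
        _ = g * t := by group)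
    ⟨u, huT⟩ ⟨c⁻¹ * v * c, hv'⟩ (fun h => hu1 (congrArg Subtype.val h))
    (fun h => hv1 (by
      have h' : c⁻¹ * v * c = 1 := congrArg Subtype.val h
      calc v = c * (c⁻¹ * v * c) * c⁻¹ := by group
        _ = 1 := by rw [h']; group))
  rcases key with h | h | h
  · have h' : c⁻¹ * v * c = u := congrArg Subtype.val h
    refine ⟨c, ?_⟩
    rw [← h']; group
  · have h' : c⁻¹ * v * c = g * u * g⁻¹ := congrArg Subtype.val h
    refine ⟨c * g, ?_⟩
    calc c * g * u * (c * g)⁻¹ = c * (g * u * g⁻¹) * c⁻¹ := by group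
      _ = c * (c⁻¹ * v * c) * c⁻¹ := by rw [h']
      _ = v := by group
  · have h' : c⁻¹ * v * c = g * (g * u * g⁻¹) * g⁻¹ := congrArg Subtype.val h
    refine ⟨c * g * g, ?_⟩
    calc c * g * g * u * (c * g * g)⁻¹ = c * (g * (g * u * g⁻¹) * g⁻¹) * c⁻¹ := by group
      _ = c * (c⁻¹ * v * c) * c⁻¹ := by rw [h']
      _ = v := by group

theorem klein_four_dvd_centralizer [IsSimpleGroup G] (hG : ¬ IsMulCommutative G)
    (h4 : 4 ∣ Nat.card G) (h8 : ¬ 8 ∣ Nat.card G) (u : G) (hu : orderOf u = 2) :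
    4 ∣ Nat.card (centralizer ({u} : Set G)) := by
  have hu2 : u ^ 2 = 1 := by rw [← hu]; exact pow_orderOf_eq_one u
  have e4 : (4 : ℕ) = 2 * 2 := rfl
  obtain ⟨T, huT⟩ := klein_aux_sylow u (by rw [e4, pow_mul, hu2, one_pow])
  have hK := (klein_aux_data hG h4 h8 T).1
  have hle : (T : Subgroup G) ≤ centralizer ({u} : Set G) := by
    intro x hx
    rw [Subgroup.mem_centralizer_iff]
    intro h hh
    rw [Set.mem_singleton_iff.mp hh]
    have hc := (IsKleinFour.isMulCommutative (G := ↥(T : Subgroup G))).is_comm.comm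
      (⟨u, huT⟩ : (T : Subgroup G)) ⟨x, hx⟩
    exact congrArg Subtype.val hc
  have hcard : Nat.card (T : Subgroup G) = 4 := IsKleinFour.card_four
  rw [← hcard]
  exact Subgroup.card_dvd_of_le hle

end Cfsg.Agent.S983
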