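import Mathlib

/-! Project T2 (S1074, helper99), piece T2-FAITH: faithfulness along a two-level chain. -/

set_option autoImplicit false

namespace Cfsg.Agent.Lib.Helper99.T2
open scoped commutatorElement

theorem t2_faithful_of_chain {Γ : Type*} [Group Γ] {Ω : Type*} [MulAction Γ Ω] {Λ : Type*}
    [MulAction Γ Λ] (T P W : Subgroup Γ) (n m : ℕ) (u : Fin n → Γ) (t : Fin m → Γ) (ω : Ω)
    (l : Λ) (i0 : Fin n) (j0 : Fin m) (hu0 : u i0 = 1) (ht0 : t j0 = 1)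
    (hdecT : ∀ g ∈ T, ∃ i, ∃ k ∈ P, g = u i * k) (hfixP : ∀ k ∈ P, k • ω = ω)
    (hinjU : ∀ i j, u i • ω = u j • ω → i = j)
    (hdecP : ∀ g ∈ P, ∃ j, ∃ w ∈ W, g = t j * w) (hfixW : ∀ w ∈ W, w • l = l)
    (hinjT : ∀ i j, t i • l = t j • l → i = j)
    (hl : ∀ x : Γ, (∀ i, x • (u i • ω) = u i • ω) → x • l = l)
    (hW : ∀ w ∈ W, (∀ i, w • (u i • ω) = u i • ω) → w = 1) :
    ∀ x ∈ T, (∀ i, x • (u i • ω) = u i • ω) → x = 1 := by
  intro x hxT hx
  have hxω : x • ω = ω := by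
    have := hx i0
    rwa [hu0, one_smul] at this
  obtain ⟨i, k, hk, hxk⟩ := hdecT x hxT
  have hi : i = i0 := by
    apply hinjU
    rw [hu0, one_smul]
    have h1 : x • ω = u i • ω := by rw [hxk, mul_smul, hfixP k hk]
    rw [← h1, hxω]
  have hxP : x ∈ P := by
    rw [hxk, hi, hu0, one_mul]; exact hk
  have hxl : x • l = l := hl x hx
  obtain ⟨j, w, hw, hxw⟩ := hdecP x hxP
  have hj : j = j0 := by
    apply hinjT
    rw [ht0, one_smul]
    have h1 : x • l = t j • l := by rw [hxw, mul_smul, hfixW w hw]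
    rw [← h1, hxl]
  have hxW : x ∈ W := by
    rw [hxw, hj, ht0, one_mul]; exact hw
  exact hW x hxW hx

end Cfsg.Agent.Lib.Helper99.T2
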